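import Cfsg.Agent.Rc.O

/-! S3860, piece A1. -/

set_option autoImplicit false

namespace CF.Rc

open Subgroup CF.Transfer

variable {G : Type*} [Group G] [Finite G] {Z : Subgroup G} {c : ℕ} {x t0 : G} {P T : Subgroup G}

theorem St.up (h : St Z c x t0 P T) : Up Z c := h.ex.toUp

/-- (D1) in the setting `St` -/
theorem St.d1 (h : St Z c x t0 P T) {v g e : G} (hv : v ∈ P) (hv' : v ∉ T) (hg : g ∈ T) (hc : v ∈ C1 g)
    (he : e ∈ P) (hi : e * g * e⁻¹ = g⁻¹) : g ∈ Z := h.ex.ba.d1' h.fr hv hv' hg hc he hi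

/-- no real element outside `Z` is centralised by `P` -/
theorem St.not_le (h : St Z c x t0 P T) {g : G} (hg : Re g) (hZ : g ∉ Z) : ¬ P ≤ C1 g := fun hle => by
  have h1 := h.ex.up g hg hZ P h.fr.pgE hle
  rw [h.fr.cE, pow_succ] at h1
  have := Nat.two_pow_pos c
  omega

/-- a subgroup containing `T` and an element of `P - T` contains `P` -/
theorem St.le_of (h : St Z c x t0 P T) {H : Subgroup G} (hT : T ≤ H) {v : G} (hv : v ∈ P) (hv' : v ∉ T)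
    (hH : v ∈ H) : P ≤ H := fun p hp => by
  by_cases hpT : p ∈ T
  · exact hT hpT
  · simpa using mul_mem (hT (h.fr.mul_mem hp hv hpT hv')) (inv_mem hH)

theorem St.psi_eq (h : St Z c x t0 P T) {s a b : G} (hs : Re s) (hsZ : s ∉ Z)
    (ha : a ∈ Ct Z s) (hb : b ∈ Ct Z s) (ha' : a ∉ C1 s) (hb' : b ∉ C1 s) : psi s a = psi s b := by
  haveI : Fact (Nat.Prime 2) := ⟨Nat.prime_two⟩
  obtain ⟨R, hR⟩ := exists_isSylowIn 2 (Ct Z s)
  have hT := hR.inf_of_normalized (C1_le_Ct h.up.nor s) (O.Ct_le_normalizer h.up s)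
  obtain ⟨D0, hD0, hc0⟩ := h.ex.ex s hs hsZ
  have hc : 2 ^ c ≤ Nat.card (R ⊓ C1 s : Subgroup G) := hc0 ▸ hT.card_le (pg_of_card hc0) hD0
  have hc2 := h.top.card_le hR.isPGroup le_top
  obtain ⟨a', ha1, ha2⟩ := h.up.psi_surj hR le_rfl ha
  obtain ⟨b', hb1, hb2⟩ := h.up.psi_surj hR le_rfl hb
  have ha3 : a' ∉ C1 s := fun h' => ha' (psi_eq_one.1 (ha2 ▸ psi_eq_one.2 h'))
  have hb3 : b' ∉ C1 s := fun h' => hb' (psi_eq_one.1 (hb2 ▸ psi_eq_one.2 h'))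
  have hlt : R ⊓ C1 s < R := lt_of_le_of_ne inf_le_left fun e => ha3 (e.ge ha1).2
  have h3 := two_mul_le hR.isPGroup hlt
  rw [h.fr.cE, pow_succ] at hc2
  have h4 := mul_mem_of_card (inf_le_left : R ⊓ C1 s ≤ R) (by omega) ha1 hb1 (fun h' => ha3 h'.2) (fun h' => hb3 h'.2)
  have h5 := psi_eq_one.2 h4.2
  rw [psi_mul h.up.cen _ (hR.le hb1), ha2, hb2] at h5
  rw [eq_inv_of_mul_eq_one_left h5]; exact h.up.inv_eq hb.2

theorem St.f1 (h : St Z c x t0 P T) {t v : G} (ht : t ∈ P) (ht' : t ∉ T) (hv : v ∈ T) (h1 : t * t ∈ C1 v)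
    (h2 : v * v ∈ C1 t) : v⁻¹ * (t * v * t⁻¹) ∈ Z := by
  have e1 := inv_comm h1
  have e0 := mem_C1'.1 (C1_symm h2)
  have e2 : v * (v⁻¹ * (t * v * t⁻¹)) * v⁻¹ = (v⁻¹ * (t * v * t⁻¹))⁻¹ := by
    calc v * (v⁻¹ * (t * v * t⁻¹)) * v⁻¹ = t * v⁻¹ * t⁻¹ * (t * (v * v) * t⁻¹) * v⁻¹ := by group
      _ = _ := by rw [e0]; group
  refine h.d1 (mul_mem ht (h.fr.le hv)) (fun h' => ht' (by simpa using mul_mem h' (inv_mem hv)))
    (mul_mem (inv_mem hv) (h.fr.conj_mem ht hv)) (mem_C1'.2 ?_) ht e1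
  calc t * v * (v⁻¹ * (t * v * t⁻¹)) * (t * v)⁻¹ = t * (v * (v⁻¹ * (t * v * t⁻¹)) * v⁻¹) * t⁻¹ := by group
    _ = (t * (v⁻¹ * (t * v * t⁻¹)) * t⁻¹)⁻¹ := by rw [e2]; generalize v⁻¹ * (t * v * t⁻¹) = u; group
    _ = _ := by rw [e1, inv_inv]

theorem St.f2 (h : St Z c x t0 P T) {s p : G} (hs : s ∈ T) (hsZ : s ∉ Z)
    (hs2 : s * s ∈ Z) (hp : p ∈ P) (hi : p * s * p⁻¹ = s⁻¹) : P ≤ Ct Z s ∧ T ≤ C1 s := by
  have hC : ∀ v ∈ P, v ∈ C1 s → v ∈ T := fun v hv hvs => by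
    by_contra hvT
    exact hsZ (h.d1 hv hvT hs hvs hp hi)
  have h0 : t0 ∈ Ct Z s := h.up.mem_Ct.2 (by
    have h1 := h.f1 h.t0P h.t0T hs (mem_C1.2 (h.up.comm h.t0Z s).symm) (mem_C1.2 (h.up.comm hs2 t0).symm)
    have : psi s t0 = s * (s⁻¹ * (t0 * s * t0⁻¹)) * s⁻¹ := by rw [psi_def]; group
    rw [this]; exact h.up.nor.conj_mem _ h1 s)
  have h0' : t0 ∉ C1 s := fun h' => h.t0T (hC _ h.t0P h')
  have hP : P ≤ Ct Z s := by
    rcases (inf_le_left : P ⊓ Ct Z s ≤ P).eq_or_lt with e | hlt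
    · exact e ▸ inf_le_right
    exfalso
    obtain ⟨n, hn, hnU, hnN, -⟩ := exists_step h.fr.pgE hlt
    have hsU : s ∈ P ⊓ Ct Z s := ⟨h.fr.le hs, C1_le_Ct h.up.nor s (mem_C1.2 rfl)⟩
    have htU := conj_mem_of_mem_normalizer hnN hsU
    have ht2 : n * s * n⁻¹ * (n * s * n⁻¹) = s * s := by
      calc _ = n * (s * s) * n⁻¹ := by group
        _ = _ := by rw [h.up.comm hs2, mul_inv_cancel_right]
    obtain ⟨-, qi⟩ := h.up.pair hs2 ht2 htU.2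
    have h3 := inv_conj_mem_of_mem_normalizer hnN (show t0 ∈ P ⊓ Ct Z s from ⟨h.t0P, h0⟩)
    have h4 := h.up.psi_cj n h3.2
    rw [show n * (n⁻¹ * t0 * n) * n⁻¹ = t0 by group] at h4
    have h5 : psi s (n⁻¹ * t0 * n) = psi s t0 := h.psi_eq ⟨p, hi⟩ hsZ h3.2 h0 (fun h' => h.t0T (by
      have := h.fr.conj_mem hn (hC _ h3.1 h')
      rwa [show n * (n⁻¹ * t0 * n) * n⁻¹ = t0 by group] at this)) h0'
    have hq : s * (n * s * n⁻¹) ∈ Z := h.d1 h.t0P h.t0T (mul_mem hs (h.fr.conj_mem hn hs)) (psi_eq_one.1 (by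
      have : psi (s * (n * s * n⁻¹)) t0 = psi s t0 * (s * psi (n * s * n⁻¹) t0 * s⁻¹) := by
        simp only [psi_def]; group
      rw [this, h4, h5, h.up.comm (h.up.mem_Ct.1 h0) s, mul_inv_cancel_right]
      exact h.up.sq _ h0.2)) (h.fr.le hs) qi
    exact hnU ⟨hn, h.up.mem_Ct.2 (by
      have : psi s n = s⁻¹ * (s * (n * s * n⁻¹)) * s⁻¹ := by rw [psi_def]; group
      rw [this, h.up.comm hq, mul_assoc, ← mul_inv_rev]
      exact mul_mem hq (inv_mem hs2))⟩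
  refine ⟨hP, fun τ hτ => ?_⟩
  by_contra hτ'
  have h6 := h.psi_eq ⟨p, hi⟩ hsZ (hP (h.fr.le hτ)) h0 hτ' h0'
  have h7 : τ * t0 ∈ T := hC _ (mul_mem (h.fr.le hτ) h.t0P) (psi_eq_one.1 (by
    rw [psi_mul h.up.cen _ h0, h6]; exact h.up.sq _ h0.2))
  exact h.t0T (by simpa using mul_mem (inv_mem hτ) h7)

theorem St.f3 (h : St Z c x t0 P T) {s p : G} (hs : s ∈ T) (hsZ : s ∉ Z)
    (hs2 : s * s ∈ Z) (hp : p ∈ P) (hi : p * s * p⁻¹ = s⁻¹) {a : G} (ha : a * s * a⁻¹ ∈ T) :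
    a ∈ Ct Z s := by
  obtain ⟨hP, hT⟩ := h.f2 hs hsZ hs2 hp hi
  set g := a * s * a⁻¹ with hg
  have hgs : g * s = s * g := mem_C1.1 (hT ha)
  have hg2 : g * g = s * s := by
    calc _ = a * (s * s) * a⁻¹ := by rw [hg]; group
      _ = _ := by rw [h.up.comm hs2, mul_inv_cancel_right]
  have hj : s * g * (s * g) = 1 := by
    calc _ = s * (g * s) * g := by group
      _ = s * s * (g * g) := by rw [hgs]; group
      _ = 1 := by rw [hg2]; exact h.up.sq _ hs2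
  have hji : (1 : G) * (s * g) * 1⁻¹ = (s * g)⁻¹ := by simpa using eq_inv_of_mul_eq_one_left hj
  by_cases hjZ : s * g ∈ Z
  · refine h.up.mem_Ct.2 ?_
    have : psi s a = s⁻¹ * (s * g) * s⁻¹ := by rw [psi_def, hg]; group
    rw [this, h.up.comm hjZ, mul_assoc, ← mul_inv_rev]
    exact mul_mem hjZ (inv_mem hs2)
  exfalso
  obtain ⟨hPj, hTj⟩ := h.f2 (mul_mem hs ha) hjZ (hj ▸ one_mem Z) (one_mem P) hji
  have hs0 : t0 ∉ C1 s := fun h' => hsZ (h.d1 h.t0P h.t0T hs h' hp hi)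
  have e1 : psi (s * g) t0 = psi s t0 * (s * psi g t0 * s⁻¹) := by simp only [psi_def]; group
  have hgZ : psi g t0 ∈ Z := by
    have : psi g t0 = s⁻¹ * ((psi s t0)⁻¹ * psi (s * g) t0) * s⁻¹⁻¹ := by rw [e1]; group
    rw [this]
    exact h.up.nor.conj_mem _ (mul_mem (inv_mem (hP h.t0P).2) (hPj h.t0P).2) _
  have hgZ' : g ∉ Z := fun h' => hsZ (by
    have := h.up.nor.conj_mem _ h' a⁻¹
    rwa [hg, show a⁻¹ * (a * s * a⁻¹) * a⁻¹⁻¹ = s by group] at this)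
  have hTg : T ≤ C1 g := fun τ hτ => C1_symm (by
    simpa using mul_mem (inv_mem (C1_symm (hT hτ))) (C1_symm (hTj hτ)))
  have hg0 : t0 ∉ C1 g := fun h' => h.not_le (Re.conj ⟨p, hi⟩ a) hgZ' (h.le_of hTg h.t0P h.t0T h')
  have e2 := h.up.psi_cj a⁻¹ (h.up.mem_Ct.2 hgZ)
  rw [hg, show a⁻¹ * (a * s * a⁻¹) * a⁻¹⁻¹ = s by group, ← hg] at e2
  have e3 : psi g t0 = psi s t0 := by
    rw [← e2]
    exact h.psi_eq ⟨p, hi⟩ hsZ (h.up.mem_Ct.2 (e2 ▸ hgZ)) (hP h.t0P)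
      (fun h' => hg0 (psi_eq_one.1 (e2 ▸ psi_eq_one.2 h'))) hs0
  refine h.not_le ⟨1, hji⟩ hjZ (h.le_of hTj h.t0P h.t0T (psi_eq_one.1 ?_))
  rw [e1, h.up.comm hgZ s, mul_inv_cancel_right, e3]
  exact h.up.sq _ (hP h.t0P).2

end CF.Rc
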