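import Cfsg.Agent.Rc.A1

/-! S3860, piece A2. -/

set_option autoImplicit false

namespace CF.Rc

open Subgroup CF.Transfer
open scoped Pointwise

variable {G : Type*} [Group G] [Finite G] {Z : Subgroup G} {c : ℕ} {x t0 : G} {P T : Subgroup G}

/-- `T` is Sylow in the centraliser of a real element outside `Z` which it centralises -/
theorem St.syl_C1 (h : St Z c x t0 P T) {s : G} (hs : Re s) (hsZ : s ∉ Z) (hT : T ≤ C1 s) :
    IsSylowIn 2 T (C1 s) := by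
  haveI : Fact (Nat.Prime 2) := ⟨Nat.prime_two⟩
  obtain ⟨R, hR⟩ := exists_isSylowIn 2 (C1 s)
  exact hR.of_card_ge h.fr.pgD hT (h.fr.cD ▸ h.ex.up s hs hsZ R hR.isPGroup hR.le)

theorem St.f4 (h : St Z c x t0 P T) {g p : G} (hg : g ∈ T) (hp : p ∈ P)
    (hi : p * g * p⁻¹ = g⁻¹) : T ≤ C1 g := by
  haveI : Fact (Nat.Prime 2) := ⟨Nat.prime_two⟩
  by_cases hgZ : g ∈ Z
  · exact fun τ _ => mem_C1.2 (h.up.comm hgZ τ)
  obtain ⟨k, hsZ, hs2⟩ := (T2.of_mem h.fr.pgD hg).exists_pow hgZ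
  set s := g ^ 2 ^ k with hs
  have hsi : p * s * p⁻¹ = s⁻¹ := inv_pow' hi _
  have hTs := (h.f2 (pow_mem hg _) hsZ hs2 hp hsi).2
  have hT := h.syl_C1 ⟨p, hsi⟩ hsZ hTs
  have hgs : C1 g ≤ C1 s := fun a ha => C1_symm (pow_mem (C1_symm ha) _)
  -- Sylow subgroups of `C1 g` are conjugate to `T`
  have key : ∀ Q, IsSylowIn 2 Q (C1 g) → ∃ a ∈ C1 s, cj a Q = T := fun Q hQ => by
    obtain ⟨D0, hD0, hc0⟩ := h.ex.ex g ⟨p, hi⟩ hgZ
    have := hQ.card_le (pg_of_card hc0) hD0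
    exact (hT.of_card_ge hQ.isPGroup (hQ.le.trans hgs) (by rw [h.fr.cD, ← hc0]; exact this)).exists_cj_eq hT
  by_cases hj : ∃ j ∈ T, j ∉ Z ∧ j * j = 1
  · obtain ⟨j, hjT, hjZ, hj2⟩ := hj
    have inv1 : ∀ j : G, j * j = 1 → (1 : G) * j * 1⁻¹ = j⁻¹ := fun j hj => by
      simpa using eq_inv_of_mul_eq_one_left hj
    have hTj := (h.f2 hjT hjZ (hj2 ▸ one_mem Z) (one_mem P) (inv1 j hj2)).2
    have hTj' := h.syl_C1 ⟨1, inv1 j hj2⟩ hjZ hTj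
    have hcl := closed_in hTj' fun y hy ho ⟨e, he, hei⟩ => by
      by_contra h1
      exact hjZ (h.ex.ba.d1 y e j h1 ho hei (T2.of_sq hj2) (C1_symm hy) (C1_symm he) ⟨1, one_mem _, inv1 j hj2⟩)
    obtain ⟨Q, hjQ, hQ⟩ := exists_isSylowIn_ge (T2.of_sq hj2).pg (zpowers_le.2 (C1_symm (hTj hg)))
    obtain ⟨a, -, ha⟩ := key Q hQ
    have h1 : a * j * a⁻¹ ∈ T := ha ▸ conj_mem_cj (hjQ (mem_zpowers j))
    have h2 : a * j * a⁻¹ * (a * j * a⁻¹) = 1 := by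
      calc _ = a * (j * j) * a⁻¹ := by group
        _ = 1 := by rw [hj2]; group
    have h3 : a * j * a⁻¹ ∉ Z := fun h' => hjZ (by
      have := h.up.nor.conj_mem _ h' a⁻¹
      rwa [show a⁻¹ * (a * j * a⁻¹) * a⁻¹⁻¹ = j by group] at this)
    have h4 := (h.f2 h1 h3 (h2 ▸ one_mem Z) (one_mem P) (inv1 _ h2)).2
    have h5 : Q ≤ C1 j := fun q hq => by
      have := mem_C1'.1 (h4 (ha ▸ conj_mem_cj hq : a * q * a⁻¹ ∈ T))
      rw [mem_C1']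
      calc q * j * q⁻¹ = a⁻¹ * (a * q * a⁻¹ * (a * j * a⁻¹) * (a * q * a⁻¹)⁻¹) * a := by group
        _ = j := by rw [this]; group
    have h6 : Q ≤ T := hTj'.le_of_le_normalizer hQ.isPGroup h5 (h5.trans hcl)
    have h7 : Q = T := eq_of_le_of_card_ge h6 (by rw [← ha, card_cj])
    exact h7 ▸ hQ.le
  · push Not at hj
    obtain ⟨O, hO1, hO2, hO3, -, m, hm⟩ := npc_in (C1 s) fun u hu ht ⟨e0, he0, hi0⟩ b _ => by
      obtain ⟨e, he, het, hei⟩ := exists_T2_inv he0 hi0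
      obtain ⟨a, -, ha⟩ := hT.exists_cj_le (pg_pair ht het (mem_Cs_of_inv hei))
        (sup_le (zpowers_le.2 he) (zpowers_le.2 hu))
      have hu' : a * u * a⁻¹ ∈ T := ha (conj_mem_cj (mem_sup_right (mem_zpowers u)))
      have he' : a * e * a⁻¹ ∈ T := ha (conj_mem_cj (mem_sup_left (mem_zpowers e)))
      have hi' : a * e * a⁻¹ * (a * u * a⁻¹) * (a * e * a⁻¹)⁻¹ = (a * u * a⁻¹)⁻¹ := by
        calc _ = a * (e * u * e⁻¹) * a⁻¹ := by group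
          _ = _ := by rw [hei]; group
      have hZ : a * u * a⁻¹ ∈ Z := by
        by_contra hZ
        obtain ⟨i, h1, h2⟩ := (ht.conj a).exists_pow hZ
        have h3 := inv_pow' hi' (2 ^ i)
        have h4 := mem_C1'.1 ((h.f2 (pow_mem hu' _) h1 h2 (h.fr.le he') h3).2 he')
        exact hj _ (pow_mem hu' _) h1 (mul_eq_one_iff_eq_inv.2 (h4.symm.trans h3))
      have := h.up.nor.conj_mem _ hZ a⁻¹
      rw [show a⁻¹ * (a * u * a⁻¹) * a⁻¹⁻¹ = u by group] at this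
      exact h.up.comm this b
    obtain ⟨Q, hgQ, hQ⟩ := exists_isSylowIn_ge (T2.of_mem h.fr.pgD hg).pg (zpowers_le.2 (mem_C1.2 rfl : g ∈ C1 g))
    obtain ⟨a, haC, ha⟩ := key Q hQ
    have hsup := hT.le_sup_of_relIndex hO1 hm
    have hTO : T ≤ normalizer (O : Set G) := hTs.trans (le_normalizer.trans hO2)
    have ha1 : a ∈ (T : Set G) * (O : Set G) := by
      rw [← coe_mul_of_left_le_normalizer_right T O hTO, hsup]; exact haC
    obtain ⟨τ, hτ, o, ho, rfl⟩ := ha1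
    have h1 : τ * o * g * (τ * o)⁻¹ ∈ T := ha ▸ conj_mem_cj (hgQ (mem_zpowers g))
    have h2 : τ * o * g * (τ * o)⁻¹ = τ * g * τ⁻¹ := by
      refine eq_of_odd hO3 h.fr.pgD h1 (mul_mem (mul_mem hτ hg) (inv_mem hτ)) ?_
      rw [show τ * o * g * (τ * o)⁻¹ * (τ * g * τ⁻¹)⁻¹ = τ * (o * (g * o⁻¹ * g⁻¹)) * τ⁻¹ by group]
      exact conj_mem_of_mem_normalizer (hTO hτ) (mul_mem ho (conj_mem_of_mem_normalizer (hTO hg) (inv_mem ho)))
    intro b hb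
    have h3 : τ * b * τ⁻¹ ∈ cj (τ * o) Q := ha ▸ mul_mem (mul_mem hτ hb) (inv_mem hτ)
    have h4 := mem_C1'.1 (hQ.le (mem_cj.1 h3))
    rw [mem_C1']
    calc b * g * b⁻¹ = τ⁻¹ * (τ * b * τ⁻¹ * (τ * g * τ⁻¹) * (τ * b * τ⁻¹)⁻¹) * τ := by group
      _ = τ⁻¹ * (τ * o * ((τ * o)⁻¹ * (τ * b * τ⁻¹) * (τ * o) * g *
            ((τ * o)⁻¹ * (τ * b * τ⁻¹) * (τ * o))⁻¹) * (τ * o)⁻¹) * τ := by rw [← h2]; group
      _ = g := by rw [h4, h2]; group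

end CF.Rc
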