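import Cfsg.Agent.Rc.B
import Cfsg.Agent.S0215
import Cfsg.Agent.S0199
import Cfsg.Agent.S0111

/-! S3860, piece I: interface to the simple group `L / Z(L)`. -/

set_option autoImplicit false

namespace CF.Rc

open Subgroup CF.Transfer CF.Sig Cfsg

variable {G : Type*} [Group G] [Finite G] {Z : Subgroup G}

namespace I

/-- the projection to the central quotient -/
abbrev pi (L : Subgroup G) : L →* L ⧸ center L := QuotientGroup.mk' _

/-- the image of a subgroup in the central quotient -/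
def bar (L Q : Subgroup G) : Subgroup (L ⧸ center L) := (Q.subgroupOf L).map (pi L)

variable {L : Subgroup G}

omit [Finite G] in
theorem mem_center {a : L} : a ∈ center L ↔ (a : G) ∈ ZL L :=
  ⟨fun h => ⟨a.2, fun g hg => congrArg Subtype.val (mem_center_iff.1 h ⟨g, hg⟩)⟩,
    fun h => mem_center_iff.2 fun g => Subtype.ext (h.2 g g.2)⟩

omit [Finite G] in
theorem pi_eq_one {a : L} : pi L a = 1 ↔ (a : G) ∈ ZL L := (QuotientGroup.eq_one_iff a).trans mem_center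

omit [Finite G] in
theorem pi_eq {a b : L} : pi L a = pi L b ↔ (a : G) * (b : G)⁻¹ ∈ ZL L := by
  rw [← mul_inv_eq_one, ← map_inv, ← map_mul, pi_eq_one]; rfl

omit [Finite G] in
theorem pi_surj (x : L ⧸ center L) : ∃ a : L, pi L a = x := QuotientGroup.mk'_surjective _ x

omit [Finite G] in
theorem pi_mem {Q : Subgroup G} {a : L} (h : (a : G) ∈ Q) : pi L a ∈ bar L Q := ⟨a, h, rfl⟩

omit [Finite G] in
theorem mem_bar {Q : Subgroup G} (hZ : ZL L ≤ Q) {a : L} : pi L a ∈ bar L Q ↔ (a : G) ∈ Q :=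
  ⟨fun ⟨b, hb, e⟩ => by simpa using mul_mem (hZ (pi_eq.1 e.symm)) (show (b : G) ∈ Q from hb), pi_mem⟩

omit [Finite G] in
theorem order_two {a : L} (h1 : (a : G) ∉ ZL L) (h2 : (a : G) * a ∈ ZL L) : orderOf (pi L a) = 2 :=
  haveI : Fact (Nat.Prime 2) := ⟨Nat.prime_two⟩
  orderOf_eq_prime (by rw [sq, ← map_mul]; exact pi_eq_one.2 h2) fun e => h1 (pi_eq_one.1 e)

omit [Finite G] in
theorem card_bar {Q : Subgroup G} (hZ : ZL L ≤ Q) (hQ : Q ≤ L) :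
    Nat.card Q = Nat.card (bar L Q) * Nat.card (ZL L) := by
  have e : center L = (ZL L).subgroupOf L := Subgroup.ext fun a => mem_center
  rw [← card_mul_relIndex hZ, mul_comm, bar, ← relIndex_ker, QuotientGroup.ker_mk', e,
    relIndex_subgroupOf hQ]

theorem bar_syl {S : Subgroup G} (hS : IsSylowIn 2 S L) : IsSylowIn 2 (bar L S) ⊤ := by
  haveI : Fact (Nat.Prime 2) := ⟨Nat.prime_two⟩
  have := hS.subgroupOf_top.map (pi L)
  rwa [map_top_of_surjective _ pi_surj] at this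

omit [Finite G] in
theorem zl_conj {z l : G} (hz : z ∈ ZL L) (hl : l ∈ L) : l * z * l⁻¹ = z := by
  rw [zl_comm hz hl, mul_inv_cancel_right]

/-- elements of odd order are determined by their images -/
theorem odd_eq (h : QS Z L) {x y : G} (hy : y ∈ L) (ox : Odd (orderOf x)) (oy : Odd (orderOf y))
    (e : x * y⁻¹ ∈ ZL L) : x = y := by
  have c : Commute (x * y⁻¹) y := (zl_comm e hy).symm
  have h1 := c.mul_pow (orderOf x * orderOf y)
  rw [inv_mul_cancel_right, pow_mul, pow_orderOf_eq_one, one_pow, mul_comm (orderOf x), pow_mul y,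
    pow_orderOf_eq_one, one_pow, mul_one] at h1
  exact mul_inv_eq_one.1 ((T2.of_mem h.p2 e).eq_one
    (Odd.of_dvd_nat (oy.mul ox) (orderOf_dvd_of_pow_eq_one h1.symm)))

theorem lift_odd {x : L ⧸ center L} (ho : Odd (orderOf x)) : ∃ a : L, pi L a = x ∧ Odd (orderOf (a : G)) := by
  obtain ⟨a, rfl⟩ := pi_surj x
  obtain ⟨k, hk⟩ := exists_two_pow a
  obtain ⟨j, hj⟩ := (Submonoid.mem_powers_iff _ _).1 (mem_powers_iff_mem_zpowers.2 (mem_zpowers_pow_iff.2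
    (Nat.Coprime.pow_left k (Nat.coprime_two_left.2 ho))))
  exact ⟨(a ^ 2 ^ k) ^ j, by rw [map_pow, map_pow, hj], by
    rw [orderOf_coe]; exact Odd.of_dvd_nat hk (orderOf_pow_dvd j)⟩

theorem lift_inv (h : QS Z L) {a e : L} (ho : Odd (orderOf (a : G)))
    (hi : pi L e * pi L a * (pi L e)⁻¹ = (pi L a)⁻¹) : (e : G) * a * (e : G)⁻¹ = (a : G)⁻¹ :=
  odd_eq h (inv_mem a.2) (odd_conj ho _) (by rwa [orderOf_inv])
    (pi_eq (a := e * a * e⁻¹) (b := a⁻¹) |>.1 (by simpa using hi))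

theorem lift_cen (h : QS Z L) {a e : L} (ho : Odd (orderOf (a : G))) (hi : pi L a ∈ C1 (pi L e)) :
    (a : G) ∈ C1 (e : G) :=
  C1_symm (mem_C1'.2 (odd_eq h a.2 (odd_conj ho _) ho
    (pi_eq (a := e * a * e⁻¹) (b := a) |>.1 (by simpa using mem_C1'.1 (C1_symm hi)))))

end I

open I

theorem QS.zl_le {L S : Subgroup G} (h : QS Z L) (hS : IsSylowIn 2 S L) : ZL L ≤ S :=
  haveI : Fact (Nat.Prime 2) := ⟨Nat.prime_two⟩
  haveI := zl_normal L h.nor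
  hS.le_of_normalized h.p2 inf_le_left (by rw [normalizer_eq_top]; exact le_top)

theorem QS.i0 {L : Subgroup G} (h : QS Z L) {w : G} (hw : w ∈ L)
    (hc : ∀ l ∈ L, l * w * l⁻¹ * w⁻¹ ∈ ZL L) : w ∈ ZL L := by
  refine ⟨hw, fun l hl => ?_⟩
  have := eq_self_of_perfect_of_central h.qs.1.commutator_eq_top (MulAut.conj (⟨w, hw⟩ : L)).toMonoidHom
    (fun x => I.mem_center.2 (by simpa [mul_assoc] using inv_mem (hc x x.2))) ⟨l, hl⟩
  exact (mul_inv_eq_iff_eq_mul.1 (congrArg Subtype.val this)).symm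

theorem QS.i1 {L S : Subgroup G} (h : QS Z L) (hS : IsSylowIn 2 S L) {r : G} (hr : r ∈ S) (hr1 : r ∉ ZL L)
    (hr2 : r * r ∈ ZL L) (hc : S ≤ Ct (ZL L) r) :
    ∃ l ∈ L, l * r * l⁻¹ ∈ S ∧ l * r * l⁻¹ * r⁻¹ ∉ ZL L ∧
      ∀ σ ∈ S, σ ∈ Ct (ZL L) (l * r * l⁻¹) → l⁻¹ * σ * l ∈ S := by
  haveI : Fact (Nat.Prime 2) := ⟨Nat.prime_two⟩
  haveI := h.qs.2
  have hn := zl_normal L h.nor
  have hZ := h.zl_le hS
  have ho := order_two (a := ⟨r, hS.le hr⟩) hr1 hr2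
  obtain ⟨l, hl, h1, h2⟩ : ∃ l ∈ L, l * r * l⁻¹ ∈ S ∧ l * r * l⁻¹ * r⁻¹ ∉ ZL L := by
    by_contra hx
    push Not at hx
    obtain ⟨N, hN, h1, h2⟩ := Cfsg.Agent.S0215.result (bar_syl hS).toSylowTop _ ho (pi_mem hr)
      fun g hg => by
        obtain ⟨g, rfl⟩ := pi_surj g
        rw [← map_inv, ← map_mul, ← map_mul] at hg ⊢
        exact pi_eq.2 (hx g g.2 ((mem_bar hZ).1 hg))
    rcases hN.eq_bot_or_eq_top with rfl | rfl
    · refine hr1 (h.i0 (hS.le hr) fun l hl => ?_)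
      have := h2 (pi L ⟨l, hl⟩)
      rw [mem_bot, ← map_inv, ← map_inv, ← map_mul, ← map_mul, ← map_mul, pi_eq_one] at this
      simpa [mul_assoc] using inv_mem this
    · exact absurd (odd_of_mem h1 (mem_top (pi L ⟨r, hS.le hr⟩))) (by rw [ho]; decide)
  have hle : cj l⁻¹ (S ⊓ Ct (ZL L) (l * r * l⁻¹)) ≤ L ⊓ Ct (ZL L) r := cj_le_iff_forall.2 fun σ hσ =>
    ⟨L.mul_mem (L.mul_mem (L.inv_mem hl) (hS.le hσ.1)) (L.inv_mem (L.inv_mem hl)), (mem_Ct hn).2 (by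
      have := hn.conj_mem _ hσ.2.2 l⁻¹
      convert this using 1
      group)⟩
  obtain ⟨k, hk, hk'⟩ := (hS.of_le (le_inf hS.le hc) inf_le_left).exists_cj_le
    (isPGroup_cj (hS.isPGroup.to_le inf_le_left) _) hle
  have hz : l * (k⁻¹ * r * k⁻¹⁻¹ * r⁻¹) * l⁻¹ ∈ ZL L := hn.conj_mem _ ((Ct (ZL L) r).inv_mem hk.2).2 l
  set ζ := l * (k⁻¹ * r * k⁻¹⁻¹ * r⁻¹) * l⁻¹ with hζ
  have e : l * k⁻¹ * r * (l * k⁻¹)⁻¹ = ζ * (l * r * l⁻¹) := by rw [hζ]; group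
  refine ⟨l * k⁻¹, mul_mem hl (inv_mem hk.1), e ▸ mul_mem (hZ hz) h1, fun e' => h2 ?_, fun σ hσ hσ' => ?_⟩
  · rw [e, mul_assoc] at e'
    exact (mul_mem_cancel_left hz).1 e'
  · have h3 : σ ∈ Ct (ZL L) (l * r * l⁻¹) := (mem_Ct hn).2 (by
      have := mul_mem (mul_mem (hn.conj_mem _ (inv_mem hz) σ) hσ'.2) hz
      rw [e] at this
      convert this using 1
      group)
    have := hk' (conj_mem_cj (conj_mem_cj (g := l⁻¹) (show σ ∈ S ⊓ Ct (ZL L) (l * r * l⁻¹) from ⟨hσ, h3⟩)))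
    convert this using 1
    group

theorem QS.i2 {L : Subgroup G} (h : QS Z L) {t : G} (ht : t ∈ L) (ht1 : t ∉ ZL L) (ht2 : t * t ∈ ZL L) :
    ∃ x ∈ L, x ≠ 1 ∧ Odd (orderOf x) ∧ t * x * t⁻¹ = x⁻¹ := by
  haveI : Fact (Nat.Prime 2) := ⟨Nat.prime_two⟩
  have hT : T2 (⟨t, ht⟩ : L) := by
    obtain ⟨j, hj⟩ := (T2.of_mem h.p2 ht2).of_sq'
    exact ⟨j, by rwa [← orderOf_coe]⟩
  set s : L := ⟨t, ht⟩
  obtain ⟨g, hg⟩ : ∃ g : L, ¬ IsPGroup 2 (zpowers s ⊔ cj g (zpowers s) : Subgroup L) := by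
    by_contra hx
    push Not at hx
    obtain ⟨N, hN, h1, h2⟩ := Cfsg.Agent.S0199.result _ hT.pg hx
    rcases qs_normal h.qs N hN with rfl | e
    · haveI := (h1.of_equiv topEquiv).isNilpotent
      exact qs_not_isSolvable h.qs inferInstance
    · exact ht1 (I.mem_center.1 (e (h2 (mem_zpowers s))))
  have h2 : g * s * g⁻¹ * (g * s * g⁻¹) = s * s := by
    have := mem_center_iff.1 (I.mem_center (a := s * s) |>.2 ht2) g
    calc _ = g * (s * s) * g⁻¹ := by group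
      _ = _ := by rw [this, mul_inv_cancel_right]
  have hi : s * (s⁻¹ * (g * s * g⁻¹)) * s⁻¹ = (s⁻¹ * (g * s * g⁻¹))⁻¹ := by
    calc _ = (g * s * g⁻¹)⁻¹ * (g * s * g⁻¹ * (g * s * g⁻¹)) * s⁻¹ := by group
      _ = _ := by rw [h2]; group
  obtain ⟨k, hk⟩ := exists_two_pow (s⁻¹ * (g * s * g⁻¹))
  refine ⟨_, ((s⁻¹ * (g * s * g⁻¹)) ^ 2 ^ k).2, fun e => hg ?_, by rwa [orderOf_coe],
    congrArg Subtype.val (inv_pow' hi _)⟩
  refine (pg_pair (T2.of_pow (Subtype.ext e)) hT (mem_Cs_of_inv hi)).to_le (sup_le le_sup_left ?_)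
  rw [cj_zpowers, zpowers_le]
  simpa using mul_mem (mem_sup_left (mem_zpowers s) : s ∈ zpowers s ⊔ zpowers (s⁻¹ * (g * s * g⁻¹)))
    (mem_sup_right (mem_zpowers _))

theorem QS.i3 {L S Q : Subgroup G} (h : QS Z L) (hS : IsSylowIn 2 S L) (hQ : Q ≤ S) (hZ : ZL L ≤ Q)
    (hc : Nat.card S = 2 * Nat.card Q) {t : G} (ht : t ∈ S) (ht2 : t * t ∈ ZL L) :
    ∃ l ∈ L, l * t * l⁻¹ ∈ Q := by
  haveI : Fact (Nat.Prime 2) := ⟨Nat.prime_two⟩
  by_cases htQ : t ∈ Q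
  · exact ⟨1, one_mem _, by simpa using htQ⟩
  have hle : bar L Q ≤ bar L S := map_mono (comap_mono hQ)
  have hi : (bar L Q).relIndex (bar L S) = 2 := by
    have h1 := card_mul_relIndex hle
    rw [card_bar (hZ.trans hQ) hS.le, card_bar hZ (hQ.trans hS.le), ← mul_assoc] at hc
    rw [Nat.eq_of_mul_eq_mul_right (card_pos' _) hc, mul_comm] at h1
    exact Nat.eq_of_mul_eq_mul_right (card_pos' _) h1
  rcases Cfsg.Agent.S0111.result (bar_syl hS).toSylowTop _ hle hi _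
    (order_two (a := ⟨t, hS.le ht⟩) (fun e => htQ (hZ e)) ht2) (pi_mem ht)
    (fun e => htQ ((mem_bar hZ).1 e)) with ⟨M, hM, h1, -⟩ | ⟨g, hg⟩
  · haveI := h.qs.1
    haveI : Group.IsPerfect (L ⧸ center L) := Group.IsPerfect.ofSurjective (f := pi L) pi_surj
    haveI : IsCyclic ((L ⧸ center L) ⧸ M) := isCyclic_of_prime_card (p := 2) h1
    have := (Normal.quotient_commutative_iff_commutator_le (N := M)).1 IsCyclic.isMulCommutative
    rw [Group.IsPerfect.commutator_eq_top, top_le_iff] at this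
    simp [this] at h1
  · obtain ⟨g, rfl⟩ := pi_surj g
    rw [← map_inv, ← map_mul, ← map_mul] at hg
    exact ⟨g, g.2, (mem_bar hZ).1 hg⟩

theorem QS.i4 {L : Subgroup G} (h : QS Z L) :
    ∃ s ∈ L, s ∉ ZL L ∧ s * s ∈ Z ∧ ∃ l ∈ L, l * s * l⁻¹ = s⁻¹ := by
  obtain ⟨g, hg, e, he, h2, hi, h1⟩ : ∃ g ∈ L, ∃ e ∈ L, T2 g ∧ e * g * e⁻¹ = g⁻¹ ∧ g ∉ ZL L := by
    by_contra hx
    push Not at hx
    exact qs_not_isSolvable h.qs
      (B.solv_of_real fun g hg e he h2 hi a ha => zl_comm (hx g hg e he h2 hi) ha)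
  obtain ⟨j, h3, h4⟩ := h2.exists_pow h1
  have h5 := inv_pow' hi (2 ^ j)
  refine ⟨_, pow_mem hg _, h3, h.om _ h4 (mul_eq_one_iff_eq_inv.2 ?_), e, he, h5⟩
  calc g ^ 2 ^ j * g ^ 2 ^ j = e * (g ^ 2 ^ j * g ^ 2 ^ j) * e⁻¹ := (zl_conj h4 he).symm
    _ = e * g ^ 2 ^ j * e⁻¹ * (e * g ^ 2 ^ j * e⁻¹) := by group
    _ = _ := by rw [h5, mul_inv_rev]

end CF.Rc
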