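import Cfsg.Agent.Rc.C1

/-! S3860, counting tools. -/

set_option autoImplicit false

namespace CF.Rc

open Subgroup CF.Transfer

variable {G : Type*} [Group G] [Finite G] {Z : Subgroup G} {c : ℕ}

/-- the index of `C_P(w)` in `P` is at most the number of values of `psi w` -/
theorem Up.card_le_psi (h : Up Z c) {w : G} {P V : Subgroup G} (hP : P ≤ Ct Z w) (hV : ∀ p ∈ P, psi w p ∈ V) :
    Nat.card P ≤ Nat.card (P ⊓ C1 w : Subgroup G) * Nat.card V := by
  let f : P →* V :=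
    { toFun := fun p => ⟨psi w p, hV p p.2⟩
      map_one' := Subtype.ext (psi_eq_one.2 (one_mem _))
      map_mul' := fun a b => Subtype.ext (psi_mul h.cen _ (hP b.2)) }
  have hk : f.ker = (C1 w).subgroupOf P := by
    ext p; rw [MonoidHom.mem_ker, mem_subgroupOf, ← psi_eq_one, Subtype.ext_iff]; rfl
  rw [← card_mul_relIndex (inf_le_left : P ⊓ C1 w ≤ P), inf_relIndex_left, relIndex, ← hk, index_ker]
  exact Nat.mul_le_mul_left _ (card_le_card_group _)

/-- the intersection of a frame with a normal subgroup containing an inverting element -/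
theorem Fr.card_inf {x : G} {E D L : Subgroup G} (hf : Fr c x E D) {t : G} (ht : t ∈ E) (htD : t ∉ D)
    (htL : t ∈ L) : Nat.card (E ⊓ L : Subgroup G) = 2 * Nat.card (D ⊓ L : Subgroup G) := by
  have hle : D ⊓ L ≤ E ⊓ L := inf_le_inf_right _ hf.le
  rw [← card_mul_relIndex hle, mul_comm]
  congr 1
  rw [relIndex, index_eq_two_iff]
  refine ⟨⟨t, ht, htL⟩, fun b => ?_⟩
  simp only [mem_subgroupOf, coe_mul]
  by_cases hb : (b : G) ∈ D
  · exact Or.inr ⟨⟨hb, b.2.2⟩, fun h' => htD (by simpa using D.mul_mem (D.inv_mem hb) h'.1)⟩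
  · exact Or.inl ⟨⟨hf.mul_mem b.2.1 ht hb htD, L.mul_mem b.2.2 htL⟩, fun h' => hb h'.1⟩

omit [Finite G] in
theorem zl_le_C1 {L : Subgroup G} {x : G} (hx : x ∈ L) : ZL L ≤ C1 x := fun _ hz => mem_C1.2 (zl_comm hz hx).symm

omit [Finite G] in
theorem Up.ct_zl (h : Up Z c) {L : Subgroup G} (hL : L.Normal) {u σ : G} (hu : u ∈ L) (h' : σ ∈ Ct Z u) :
    σ ∈ Ct (ZL L) u :=
  (CF.Rc.mem_Ct (zl_normal L hL)).2 (h.inf_le_zl h'.2 (mul_mem (hL.conj_mem u hu σ) (inv_mem hu)))

end CF.Rc
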