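import Cfsg.Agent.Rc.A2
import Cfsg.Agent.Rc.R2
import Cfsg.Agent.Rc.I

/-! S3860, piece A3. -/

set_option autoImplicit false

namespace CF.Rc

open Subgroup CF.Transfer

variable {G : Type*} [Group G] [Finite G] {Z : Subgroup G} {c : ℕ} {x t0 : G} {P T : Subgroup G}

/-- `[τ, t]` is central in `T` -/
theorem St.phi_cen (h : St Z c x t0 P T) {t τ : G} (ht : t ∈ P) (ht2 : t * t ∈ Z) (hτ : τ ∈ T) :
    T ≤ C1 (τ⁻¹ * (t * τ * t⁻¹)) :=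
  h.f4 (mul_mem (inv_mem hτ) (h.fr.conj_mem ht hτ)) ht (inv_comm (mem_C1.2 (h.up.comm ht2 τ).symm))

theorem St.phi_mul (h : St Z c x t0 P T) {t τ σ : G} (ht : t ∈ P) (ht2 : t * t ∈ Z) (hτ : τ ∈ T) (hσ : σ ∈ T) :
    (τ * σ)⁻¹ * (t * (τ * σ) * t⁻¹) = τ⁻¹ * (t * τ * t⁻¹) * (σ⁻¹ * (t * σ * t⁻¹)) := by
  have := mem_C1'.1 (h.phi_cen ht ht2 hτ (inv_mem hσ))
  calc _ = σ⁻¹ * (τ⁻¹ * (t * τ * t⁻¹)) * σ⁻¹⁻¹ * (σ⁻¹ * (t * σ * t⁻¹)) := by group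
    _ = _ := by rw [this]

omit [Finite G] in
theorem phi_eq_one {t τ : G} : τ⁻¹ * (t * τ * t⁻¹) = 1 ↔ τ ∈ C1 t := by
  rw [inv_mul_eq_one, mem_C1, eq_mul_inv_iff_mul_eq]

/-- `C_T(t)` is normal in `P` -/
theorem St.R_nor (h : St Z c x t0 P T) {t : G} (ht : t ∈ P) (htT : t ∉ T) (ht2 : t * t ∈ Z) :
    P ≤ normalizer ((T ⊓ C1 t : Subgroup G) : Set G) := by
  refine h.le_of (fun τ hτ => mem_normalizer_of_cj_le (cj_le_iff_forall.2 fun r hr => ?_)) ht htT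
    (mem_normalizer_of_cj_le (cj_le_iff_forall.2 fun r hr => ?_))
  · refine ⟨h.fr.conj_mem (h.fr.le hτ) hr.1, phi_eq_one.1 ?_⟩
    rw [h.phi_mul ht ht2 (mul_mem hτ hr.1) (inv_mem hτ), h.phi_mul ht ht2 hτ hr.1, phi_eq_one.2 hr.2, mul_one,
      ← h.phi_mul ht ht2 hτ (inv_mem hτ)]
    group
  · rw [mem_C1'.1 (C1_symm hr.2)]; exact hr

theorem St.f5a (h : St Z c x t0 P T) {w p l r a : G} (hw : w ∈ T) (hwZ : w ∉ Z) (hw2 : w * w ∈ Z) (hp : p ∈ P)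
    (hi : p * w * p⁻¹ = w⁻¹) (ht : l * w * l⁻¹ ∈ P) (htT : l * w * l⁻¹ ∉ T) (hr : r ∈ T)
    (hrt : r ∈ C1 (l * w * l⁻¹)) (ha : a * r * a⁻¹ ∈ P) (haT : a * r * a⁻¹ ∉ T) (hw' : a⁻¹ * w * a⁻¹⁻¹ ∈ P) :
    False := by
  have hTw := (h.f2 hw hwZ hw2 hp hi).2
  have key : r ∈ C1 (a⁻¹ * w * a⁻¹⁻¹) := by
    by_cases hT : a⁻¹ * w * a⁻¹⁻¹ ∈ T
    · have h1 := h.f3 hw hwZ hw2 hp hi hT
      rw [conj_eq_psi]
      exact C1_symm (mul_mem (mem_C1.2 (h.up.comm h1.2 r).symm) (C1_symm (hTw hr)))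
    · have e1 := h.up.sq_conj hw2 a⁻¹
      have e2 := h.up.sq_conj hw2 l
      generalize a⁻¹ * w * a⁻¹⁻¹ = u at hw' hT e1
      generalize l * w * l⁻¹ = t at ht htT hrt e2
      have h1 : t⁻¹ * u ∈ T := h.fr.mul_mem (inv_mem ht) hw' (fun h' => htT (by simpa using inv_mem h')) hT
      have h2 : t * (t⁻¹ * u) * t⁻¹ = (t⁻¹ * u)⁻¹ := by
        calc t * (t⁻¹ * u) * t⁻¹ = u⁻¹ * (u * u) * t⁻¹ := by group
          _ = u⁻¹ * (t * t) * t⁻¹ := by rw [e1, e2]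
          _ = _ := by group
      simpa using C1_symm (mul_mem (C1_symm hrt) (C1_symm (h.f4 h1 ht h2 hr)))
  refine hwZ (h.d1 ha haT hw (mem_C1'.2 ?_) hp hi)
  calc a * r * a⁻¹ * w * (a * r * a⁻¹)⁻¹ = a * (r * (a⁻¹ * w * a⁻¹⁻¹) * r⁻¹) * a⁻¹ := by group
    _ = w := by rw [mem_C1'.1 key]; group

/-- an element of `A` of order 2 and central in `P` modulo the normal subgroup `B` -/
theorem exists_cen_mod {P A B : Subgroup G} (hP : IsPGroup 2 P) (hAP : A ≤ P) (hA : P ≤ normalizer (A : Set G))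
    (hB : B.Normal) (hAB : ¬ A ≤ B) : ∃ r ∈ A, r ∉ B ∧ r * r ∈ B ∧ P ≤ Ct B r := by
  haveI : Fact (Nat.Prime 2) := ⟨Nat.prime_two⟩
  -- choose a `P`-invariant subgroup `A' ≤ A`, minimal with `A' ≰ B`
  induction A using WellFoundedLT.induction with
  | ind A ih =>
  by_cases hc : ⁅P, A⁆ ≤ B
  · obtain ⟨a, ha, haB⟩ := SetLike.not_le_iff_exists.1 hAB
    obtain ⟨j, h1, h2⟩ := (T2.of_mem hP (hAP ha)).exists_pow haB
    exact ⟨_, pow_mem ha _, h1, h2, fun g hg => (mem_Ct hB).2 (hc (commutator_mem_commutator hg (pow_mem ha _)))⟩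
  · have hle : ⁅P, A⁆ ≤ A := commutator_le.2 fun g hg a ha =>
      mul_mem (conj_mem_of_mem_normalizer (hA hg) ha) (inv_mem ha)
    have hne : ⁅P, A⁆ ≠ A := fun e => by
      have key : ∀ n, A ≤ P.lowerCentralSeries n := by
        intro n
        induction n with
        | zero => exact hAP
        | succ n ihn =>
          rw [Subgroup.lowerCentralSeries_succ, commutator_comm, ← e]
          exact commutator_mono le_rfl ihn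
      obtain ⟨n, hn⟩ := (isNilpotent_iff_lowerCentralSeries P).1 hP.isNilpotent
      exact hAB ((hn ▸ key n).trans bot_le)
    obtain ⟨r, hr, h'⟩ := ih _ (lt_of_le_of_ne hle hne) (hle.trans hAP) (fun g hg => mem_normalizer_iff_cj.2 (by
      rw [cj_commutator, cj_eq_of_mem hg, cj_eq_of_mem_normalizer (hA hg)])) hc
    exact ⟨r, hle hr, h'⟩

theorem St.f5 {L : Subgroup G} (h : St Z c x t0 P T) (hL : QS Z L) (_hx : x ∈ L) {w p l : G}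
    (hw : w ∈ T) (hwL : w ∈ L) (hw1 : w ∉ ZL L) (hw2 : w * w ∈ Z) (hp : p ∈ P) (hi : p * w * p⁻¹ = w⁻¹)
    (ht : l * w * l⁻¹ ∈ P) (htT : l * w * l⁻¹ ∉ T) :
    T ⊓ C1 (l * w * l⁻¹) ⊓ L ≤ ZL L := by
  haveI : Fact (Nat.Prime 2) := ⟨Nat.prime_two⟩
  haveI := hL.nor
  have hZn := zl_normal L hL.nor
  have hwZ : w ∉ Z := fun h' => hw1 (h.up.inf_le_zl h' hwL)
  have hPw := (h.f2 hw hwZ hw2 hp hi).1
  by_contra hn
  have hRn := h.R_nor ht htT (h.up.sq_conj hw2 l ▸ hw2)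
  obtain ⟨r, ⟨⟨hr, hrt⟩, hrL⟩, hr1, hr2, hPr⟩ := exists_cen_mod h.fr.pgE
    (inf_le_left.trans (inf_le_left.trans h.fr.le)) (fun g hg => mem_normalizer_of_cj_le (cj_le_iff_forall.2
      fun a ha => ⟨conj_mem_of_mem_normalizer (hRn hg) ha.1, hL.nor.conj_mem _ ha.2 g⟩)) hZn hn
  have hS := h.top.inf_of_normalized (N := L) le_top (by rw [normalizer_eq_top])
  obtain ⟨a, ha, hr', hr1', hex⟩ := hL.i1 hS (show r ∈ P ⊓ L from ⟨h.fr.le hr, hrL⟩) hr1 hr2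
    (inf_le_left.trans hPr)
  have hwS : w ∈ P ⊓ L := ⟨h.fr.le hw, hwL⟩
  by_cases hT : a * r * a⁻¹ ∈ T
  swap
  · refine h.f5a hw hwZ hw2 hp hi ht htT hr hrt hr'.1 hT ?_
    rw [inv_inv]
    refine (hex w hwS ((mem_Ct hZn).2 ?_)).1
    have := inv_mem (h.up.ct_zl hL.nor hwL (hPw hr'.1)).2
    rwa [show (a * r * a⁻¹ * w * (a * r * a⁻¹)⁻¹ * w⁻¹)⁻¹ = w * (a * r * a⁻¹) * w⁻¹ * (a * r * a⁻¹)⁻¹ by group] at this
  have e2 : a * r * a⁻¹ * (a * r * a⁻¹) = r * r := by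
    calc _ = a * (r * r) * a⁻¹ := by group
      _ = _ := by rw [zl_comm hr2 ha, mul_inv_cancel_right]
  set r' := a * r * a⁻¹ with hr'def
  have hqT : r⁻¹ * r' ∈ T := mul_mem (inv_mem hr) hT
  have hqL : r⁻¹ * r' ∈ L := mul_mem (inv_mem hrL) hr'.2
  have hq1 : r⁻¹ * r' ∉ ZL L := fun h' => hr1' (by
    have := hZn.conj_mem _ h' r
    rwa [show r * (r⁻¹ * r') * r⁻¹ = r' * r⁻¹ by group] at this)
  have hqZ : r⁻¹ * r' ∉ Z := fun h' => hq1 (h.up.inf_le_zl h' hqL)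
  have hqi : r * (r⁻¹ * r') * r⁻¹ = (r⁻¹ * r')⁻¹ := by
    calc r * (r⁻¹ * r') * r⁻¹ = r'⁻¹ * (r' * r') * r⁻¹ := by group
      _ = _ := by rw [e2]; group
  have hq2 : r⁻¹ * r' * (r⁻¹ * r') ∈ ZL L := by
    rw [show r⁻¹ * r' * (r⁻¹ * r') = (r * r)⁻¹ * (r' * r * r'⁻¹ * r⁻¹)⁻¹ * (r' * r') by group, e2]
    exact mul_mem (mul_mem (inv_mem hr2) (inv_mem (hPr hr'.1).2)) hr2
  have hq3 : r⁻¹ * r' * (r⁻¹ * r') ∈ Z := by
    refine hL.om _ hq2 (mul_eq_one_iff_eq_inv.2 ?_)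
    have := inv_pow' hqi 2
    rwa [pow_two, zl_comm hq2 hrL, mul_inv_cancel_right] at this
  obtain ⟨hPq, hTq⟩ := h.f2 hqT hqZ hq3 (h.fr.le hr) hqi
  have hq4 : r⁻¹ * r' * (r⁻¹ * r') = 1 := by
    rw [mem_C1'.1 (hTq hr)] at hqi; exact mul_eq_one_iff_eq_inv.2 hqi
  have haN : a ∈ normalizer ((P ⊓ L : Subgroup G) : Set G) := by
    have : a⁻¹ ∈ normalizer ((P ⊓ L : Subgroup G) : Set G) := mem_normalizer_of_cj_le (cj_le_iff_forall.2 fun σ hσ => by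
      rw [inv_inv]
      refine hex σ hσ ((mem_Ct hZn).2 ?_)
      rw [show σ * r' * σ⁻¹ * r'⁻¹ = σ * r * σ⁻¹ * r⁻¹ * (r * (σ * (r⁻¹ * r') * σ⁻¹ * (r⁻¹ * r')⁻¹) * r⁻¹) by group]
      exact mul_mem (hPr hσ.1).2 (hZn.conj_mem _ (h.up.ct_zl hL.nor hqL (hPq hσ.1)).2 r))
    simpa using inv_mem this
  have hr'' := conj_mem_of_mem_normalizer haN hr'
  have e3 : a * r' * a⁻¹ = a * a * r * (a * a)⁻¹ := by rw [hr'def]; group
  by_cases hT2 : a * r' * a⁻¹ ∈ T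
  swap
  · exact h.f5a hw hwZ hw2 hp hi ht htT hr hrt (e3 ▸ hr''.1) (e3 ▸ hT2)
      (conj_mem_of_mem_normalizer (inv_mem (mul_mem haN haN)) hwS).1
  have h5 := h.f3 hqT hqZ hq3 (h.fr.le hr) hqi (a := a) (by
    rw [show a * (r⁻¹ * r') * a⁻¹ = (a * r * a⁻¹)⁻¹ * (a * r' * a⁻¹) by group]
    exact mul_mem (inv_mem hT) hT2)
  refine hr1' (mem_of_sq hS (inf_le_left.trans hPr) ha haN ((mem_Ct hZn).2 ?_)).2
  have h6 := hZn.conj_mem _ (h.up.ct_zl hL.nor hqL h5).2 r'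
  have e4 : a * a * r * (a * a)⁻¹ * r⁻¹ = r' * (a * (r⁻¹ * r') * a⁻¹ * (r⁻¹ * r')⁻¹) * r'⁻¹ *
      (r * (r⁻¹ * r' * (r⁻¹ * r')) * r⁻¹) := by
    rw [hr'def]; group
  rw [e4, hq4]
  simpa using h6

end CF.Rc
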