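import Cfsg.Agent.Rc.R0
import Cfsg.Agent.S0483
import Cfsg.Agent.Classical.PSL2
import Cfsg.Agent.Char.ZStarCore

/-! S3860: simple groups with dihedral Sylow 2-subgroups have a real element with odd centraliser. -/

set_option autoImplicit false

namespace CF.Rc

open Subgroup CF.Classical
open scoped MatrixGroups

namespace K1

/-- the conclusion -/
def Gd (X : Type*) [Group X] : Prop :=
  ∃ x : X, x ≠ 1 ∧ Odd (orderOf x) ∧ Re x ∧ ∀ g : X, T2 g → g ∈ C1 x → g = 1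

theorem Gd.map {X Y : Type*} [Group X] [Group Y] (e : X ≃* Y) (h : Gd Y) : Gd X := by
  obtain ⟨x, x1, o, ⟨c, r⟩, k⟩ := h
  refine ⟨e.symm x, by simpa using x1, by simpa using o, ⟨e.symm c, by rw [← map_inv, ← map_inv, ← r]; simp⟩,
    fun g ⟨j, hj⟩ hg => e.injective ((k _ ⟨j, by simpa using hj⟩ ?_).trans (map_one e).symm)⟩
  rw [mem_centralizer_singleton_iff] at hg ⊢
  simpa using congrArg e hg

theorem one_of {X : Type*} [Group X] {g : X} {n : ℕ} (t : T2 g) (o : Odd n) (d : orderOf g ∣ n) : g = 1 := by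
  obtain ⟨j, hj⟩ := t
  rw [← orderOf_eq_one_iff]
  exact Nat.Coprime.eq_one_of_dvd (hj ▸ (Nat.coprime_two_left.2 o).pow_left j) d

theorem psl {F : Type} [Field F] [Fintype F] (o : Odd (Fintype.card F)) (h : 3 < Fintype.card F) :
    Gd PSL(2, F) := by
  classical
  rw [← Nat.card_eq_fintype_card] at o h
  obtain ⟨k, hk⟩ := o
  have hi : (Matrix.ProjectiveSpecialLinearGroup.toPGL (n := Fin 2) (R := F)).range.index = 2 := by
    rw [range_pslToPGL, index_psl, hk]; simp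
  have L := isL2_PSL F (AlgebraicClosure F)
  obtain ⟨n, hn, n1, e⟩ : ∃ n, Odd n ∧ n ≠ 1 ∧ (n * 2 = Nat.card F - 1 ∨ n * 2 = Nat.card F + 1) := by
    rcases Nat.even_or_odd k with e | e
    · exact ⟨k + 1, e.add_one, by omega, .inr (by omega)⟩
    · exact ⟨k, e, by omega, .inl (by omega)⟩
  obtain ⟨x, y, hxy, rfl⟩ := L.exists_torus_card (hi.symm ▸ e)
  have b : torus PSL(2, F) x y ≠ ⊥ := fun b => n1 (by rw [b, card_bot])
  obtain ⟨⟨g, hg⟩, g1⟩ := ne_bot_iff_exists_ne_one.1 b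
  replace g1 : g ≠ 1 := fun e => g1 (Subtype.ext e)
  have og := hn.of_dvd_nat (Subgroup.orderOf_dvd_natCard _ hg)
  obtain ⟨t, h1, h2⟩ := (L.torus_cases hxy b).1
  refine ⟨g, g1, og, ⟨t, conj_eq_inv_of_swap hxy h1 h2 hg⟩, fun u hu c => one_of hu hn ?_⟩
  have := L.card_centralizer_of_mem_torus hxy g1 hg
  rw [if_neg fun e => by rw [orderOf_eq_prime ((sq g).trans e) g1] at og; exact absurd og (by decide)] at this
  exact this ▸ Subgroup.orderOf_dvd_natCard _ c

set_option maxRecDepth 100000 in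
theorem a7c : ∀ g : Equiv.Perm (Fin 7), g * c[0, 1, 2, 3, 4] = c[0, 1, 2, 3, 4] * g → Equiv.Perm.sign g = 1 →
    g ^ 5 = 1 := by
  decide +kernel

theorem a7 : Gd (alternatingGroup (Fin 7)) := by
  refine ⟨⟨c[0, 1, 2, 3, 4], by rw [Equiv.Perm.mem_alternatingGroup]; decide⟩, by decide,
    (show Odd 5 by decide).of_dvd_nat (orderOf_dvd_of_pow_eq_one (Subtype.ext (by
      rw [SubmonoidClass.coe_pow]; decide +kernel))),
    ⟨⟨Equiv.swap 1 4 * Equiv.swap 2 3, by rw [Equiv.Perm.mem_alternatingGroup]; decide⟩, by decide⟩,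
    fun g t c => one_of t (show Odd 5 by decide) (orderOf_dvd_of_pow_eq_one (Subtype.ext ?_))⟩
  exact a7c _ (congrArg Subtype.val (mem_centralizer_singleton_iff.1 c)) g.2

end K1

theorem k1 {X : Type*} [Group X] [Finite X] [IsSimpleGroup X] [Group.IsPerfect X] (S : Sylow 2 X) (n : ℕ)
    (hn : 2 ≤ n) (hS : Nonempty ((S : Subgroup X) ≃* DihedralGroup n)) :
    ∃ x : X, x ≠ 1 ∧ Odd (orderOf x) ∧ Re x ∧ ∀ g : X, T2 g → g ∈ C1 x → g = 1 := by
  have b : Cfsg.oddCore X = ⊥ := CF.Char.oddCore_eq_bot_iff.2 fun N hN o => (hN.eq_bot_or_eq_top).resolve_right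
    fun e => by
      obtain ⟨f⟩ := hS
      have : NeZero n := ⟨by omega⟩
      have := o.of_dvd_nat (card_dvd_of_le (show (S : Subgroup X) ≤ N from e ▸ le_top))
      rw [Nat.card_congr f.toEquiv, DihedralGroup.nat_card] at this
      exact absurd this (by simp)
  have e : X ≃* X ⧸ Cfsg.oddCore X :=
    ((QuotientGroup.quotientMulEquivOfEq b).trans QuotientGroup.quotientBot).symm
  rcases Cfsg.Agent.S0483.result S n hn hS with ⟨F, _, _, o, h, ⟨f⟩⟩ | ⟨⟨f⟩⟩
  · exact (K1.psl o h).map (e.trans f)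
  · exact K1.a7.map (e.trans f)

end CF.Rc
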