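import Cfsg.Agent.Rc.I
import Cfsg.Agent.Invol.Dihedral
import Cfsg.Agent.Rc.K1

/-! S3860, piece I5: dihedral Sylow subgroups of the central quotient. -/

set_option autoImplicit false

namespace CF.Rc

open Subgroup CF.Transfer CF.Sig Cfsg I

namespace I5

theorem cyc {A : Type*} [CommGroup A] [Finite A] (hp : IsPGroup 2 A) (w : A)
    (h : ∀ a : A, a * a = 1 → a = 1 ∨ a = w) : IsCyclic A := by
  haveI : Fact (Nat.Prime 2) := ⟨Nat.prime_two⟩
  have key : ∀ k, Nat.card (powMonoidHom (2 ^ k) : A →* A).ker ≤ 2 ^ k := by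
    intro k
    induction k with
    | zero => simp [show (powMonoidHom 1 : A →* A) = MonoidHom.id A from MonoidHom.ext pow_one]
    | succ k ih =>
      set K := (powMonoidHom (2 ^ (k + 1)) : A →* A).ker
      have h1 := card_mul_relIndex (inf_le_right : (powMonoidHom 2 : A →* A).ker ⊓ K ≤ K)
      rw [inf_relIndex_right, relIndex_ker] at h1
      have h2 : Nat.card (K.map (powMonoidHom 2)) ≤ 2 ^ k := (card_le_of_le (by
        rintro _ ⟨a, ha, rfl⟩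
        change (a ^ 2) ^ 2 ^ k = 1
        rw [← pow_mul, ← pow_succ']
        exact ha)).trans ih
      have h3 : Nat.card ((powMonoidHom 2 : A →* A).ker ⊓ K : Subgroup A) ≤ 2 := by
        refine (Set.ncard_le_ncard (t := {1, w}) (fun a ha => h a ?_)).trans ?_
        · simpa [sq] using ha.1
        · exact (Set.ncard_insert_le _ _).trans (by simp)
      rw [← h1, pow_succ']
      exact Nat.mul_le_mul h3 h2
  obtain ⟨g, hg⟩ := Monoid.exists_orderOf_eq_exponent (G := A) Monoid.ExponentExists.of_finite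
  obtain ⟨k, hk⟩ := IsPGroup.iff_orderOf.1 hp g
  refine isCyclic_iff_exists_natCard_le_orderOf.2 ⟨g, ?_⟩
  have := key k
  rwa [(eq_top_iff' (powMonoidHom (2 ^ k) : A →* A).ker).2 fun a =>
    show a ^ 2 ^ k = 1 by rw [← hk, hg, Monoid.pow_exponent_eq_one], card_top, ← hk] at this

theorem dih {X : Type*} [Group X] [Finite X] {S Q : Subgroup X} (hS : IsPGroup 2 S) (hQ : Q ≤ S)
    (hc : Nat.card S = 2 * Nat.card Q) {t w : X} (ht : t ∈ S) (htQ : t ∉ Q) (ht2 : t * t = 1)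
    (hi : ∀ g ∈ Q, t * g * t⁻¹ = g⁻¹) (hw : w ∈ Q) (hu : ∀ g ∈ Q, g * g = 1 → g = 1 ∨ g = w) :
    Nonempty (S ≃* DihedralGroup (Nat.card Q)) := by
  letI : CommGroup Q := { (inferInstance : Group Q) with
    mul_comm := fun a b => Subtype.ext (by
      have := hi _ (mul_mem a.2 b.2)
      rw [show t * ((a : X) * b) * t⁻¹ = t * a * t⁻¹ * (t * b * t⁻¹) by group, hi _ a.2, hi _ b.2,
        ← mul_inv_rev, inv_inj] at this
      exact this.symm) }
  obtain ⟨c, hc'⟩ := (cyc (hS.to_le hQ) ⟨w, hw⟩ fun a ha =>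
    (hu a a.2 (congrArg Subtype.val ha)).imp Subtype.ext Subtype.ext).exists_ofOrder_eq_natCard
  obtain ⟨e⟩ := CF.Invol.nonempty_closure_equiv_dihedral ((orderOf_coe c).trans hc') ht2 (hi _ c.2)
    fun e => htQ (zpowers_le.2 c.2 e)
  have : closure ({t, (c : X)} : Set X) = S := eq_of_le_of_card_ge
    ((closure_le _).2 (Set.pair_subset ht (hQ c.2))) (by rw [Nat.card_congr e.toEquiv, DihedralGroup.nat_card, hc])
  exact ⟨(MulEquiv.subgroupCongr this.symm).trans e⟩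

end I5

variable {G : Type*} [Group G] [Finite G] {Z : Subgroup G}

theorem QS.i5 {L S Q : Subgroup G} (h : QS Z L) (hS : IsSylowIn 2 S L) (hQ : Q ≤ S) (hZ : ZL L ≤ Q)
    (hc : Nat.card S = 2 * Nat.card Q) {t w : G} (ht : t ∈ S) (htQ : t ∉ Q) (ht2 : t * t ∈ ZL L)
    (hi : ∀ g ∈ Q, t * g * t⁻¹ * g ∈ ZL L) (hw : w ∈ Q) (hw1 : w ∉ ZL L)
    (hu : ∀ g ∈ Q, g * g ∈ ZL L → g ∈ ZL L ∨ g * w⁻¹ ∈ ZL L) :
    ∃ x ∈ L, x ≠ 1 ∧ Odd (orderOf x) ∧ Re x ∧ ∀ g ∈ L, T2 g → g ∈ C1 x → g ∈ ZL L := by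
  haveI : Fact (Nat.Prime 2) := ⟨Nat.prime_two⟩
  haveI := h.qs.1
  haveI := h.qs.2
  haveI : Group.IsPerfect (L ⧸ center L) := Group.IsPerfect.ofSurjective (f := pi L) pi_surj
  rw [card_bar (hZ.trans hQ) hS.le, card_bar hZ (hQ.trans hS.le), ← mul_assoc] at hc
  have hd := I5.dih (bar_syl hS).isPGroup (map_mono (comap_mono hQ))
    (Nat.eq_of_mul_eq_mul_right (card_pos' _) hc) (pi_mem (a := ⟨t, hS.le ht⟩) ht)
    (fun e => htQ ((mem_bar hZ).1 e)) (by rw [← map_mul]; exact pi_eq_one.2 ht2)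
    (by
      rintro _ ⟨g, hg, rfl⟩
      rw [← mul_eq_one_iff_eq_inv, ← map_inv, ← map_mul, ← map_mul, ← map_mul]
      exact pi_eq_one.2 (hi g hg))
    (pi_mem (a := ⟨w, hS.le (hQ hw)⟩) hw)
    (by
      rintro _ ⟨g, hg, rfl⟩ e
      rw [← map_mul] at e
      exact (hu g hg (pi_eq_one.1 e)).imp pi_eq_one.2 pi_eq.2)
  obtain ⟨x, x1, x2, ⟨e, x3⟩, x4⟩ := k1 (bar_syl hS).toSylowTop _ ((one_lt_card_iff_ne_bot _).2 fun e =>
    hw1 (pi_eq_one (a := ⟨w, hS.le (hQ hw)⟩) |>.1 (mem_bot.1 (e ▸ pi_mem hw)))) hd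
  obtain ⟨a, rfl, ha⟩ := lift_odd x2
  obtain ⟨e, rfl⟩ := pi_surj e
  refine ⟨a, a.2, fun e => x1 (by rw [show a = 1 from Subtype.ext e, map_one]), ha, ⟨e, lift_inv h ha x3⟩,
    fun g hg ⟨j, hj⟩ h2 => pi_eq_one (a := ⟨g, hg⟩) |>.1 (x4 _ (T2.of_pow (j := j) ?_) (mem_C1.2 ?_))⟩
  · rw [← map_pow, show (⟨g, hg⟩ : L) ^ 2 ^ j = 1 from Subtype.ext (by simp [← hj]), map_one]
  · rw [← map_mul, ← map_mul]
    exact congrArg _ (Subtype.ext (mem_C1.1 h2))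

end CF.Rc
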