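import Cfsg.Agent.Rc.A3
import Cfsg.Agent.Rc.I5

/-! S3860, piece A4: the Sylow 2-subgroup cannot have order `2^(c+1)`. -/

set_option autoImplicit false

namespace CF.Rc

open Subgroup CF.Transfer

variable {G : Type*} [Group G] [Finite G] {Z : Subgroup G} {c : ℕ}

theorem Ex.not_small (h : Ex Z c) {L P0 : Subgroup G} (hL : QS Z L) (hP0 : IsSylowIn 2 P0 ⊤)
    (hc : Nat.card P0 = 2 ^ (c + 1)) : False := by
  haveI : Fact (Nat.Prime 2) := ⟨Nat.prime_two⟩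
  haveI := hL.nor
  have hZn := zl_normal L hL.nor
  obtain ⟨t0, h0L, h01, h02, l0, -, hl0⟩ := hL.i4
  have h02' := h.toUp.inf_le_zl h02 (mul_mem h0L h0L)
  obtain ⟨x, hx, h1, ho, hi0⟩ := hL.i2 h0L h01 h02'
  obtain ⟨P, T, hQ, hf⟩ := h.ba.exists_fr ⟨t0, hi0⟩ h1 ho (h.toUp.T2_of_sq h02).pg (zpowers_le.2 (mem_Cs_of_inv hi0))
  have hP : IsSylowIn 2 P ⊤ := hP0.of_card_ge hf.pgE le_top (by rw [hc, hf.cE])
  have st : St Z c x t0 P T := ⟨h, hf, hP, hQ (mem_zpowers t0), hf.not_mem hi0, h02⟩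
  have hS := hP.inf_of_normalized (N := L) le_top (by rw [normalizer_eq_top])
  have hZT : ZL L ≤ T ⊓ L := le_inf (hf.le_of_normal hZn hL.p2 (zl_le_C1 hx)) inf_le_left
  have hc2 := hf.card_inf st.t0P st.t0T h0L
  have hle : T ⊓ L ≤ P ⊓ L := inf_le_inf_right L hf.le
  obtain ⟨l1, -, hs2⟩ := hL.i3 hS hle hZT hc2 (show t0 ∈ P ⊓ L from ⟨st.t0P, h0L⟩) h02'
  obtain ⟨w, hw, hwP, hw1, hw2, hPw, hr⟩ := h.toUp.exists_central (A := T ⊓ L) (B := ZL L) hf.pgE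
    (fun g hg => mem_normalizer_of_cj_le (cj_le_iff_forall.2 fun a ha =>
      ⟨hf.conj_mem hg ha.1, hL.nor.conj_mem _ ha.2 g⟩)) (fun b hb a ha => zl_comm hb ha.2) hL.om
    hs2 (hf.le hs2.1) (fun h' => h01 (by
      have := hZn.conj_mem _ h' l1⁻¹
      rwa [show l1⁻¹ * (l1 * t0 * l1⁻¹) * l1⁻¹⁻¹ = t0 by group] at this)) (h.toUp.sq_conj h02 l1 ▸ h02)
  obtain ⟨p, hp, hi⟩ : ∃ p ∈ P, p * w * p⁻¹ = w⁻¹ := by
    rcases hr with hr | rfl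
    · exact hr
    · exact h.toUp.real_in (hP.of_le hPw le_top) (Re.conj ⟨l0, hl0⟩ l1) hw2
  have hwZ : w ∉ Z := fun h' => hw1 (h.toUp.inf_le_zl h' hw.2)
  obtain ⟨l, hl, ht, ht1, -⟩ := hL.i1 hS (hle hw) hw1 (h.toUp.inf_le_zl hw2 (mul_mem hw.2 hw.2))
    fun σ hσ => h.toUp.ct_zl hL.nor hw.2 (hPw hσ.1)
  have htT : l * w * l⁻¹ ∉ T := fun h' => ht1 (h.toUp.ct_zl hL.nor hw.2 (st.f3 hw.1 hwZ hw2 hp hi h')).2
  have hR := st.f5 hL hx hw.1 hw.2 hw1 hw2 hp hi ht.1 htT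
  have ht2 : l * w * l⁻¹ * (l * w * l⁻¹) ∈ Z := h.toUp.sq_conj hw2 l ▸ hw2
  have htr : Re (l * w * l⁻¹) := Re.conj ⟨p, hi⟩ l
  have htZ : l * w * l⁻¹ ∉ Z := fun h' => hwZ (by
    have := h.nor.conj_mem _ h' l⁻¹
    rwa [show l⁻¹ * (l * w * l⁻¹) * l⁻¹⁻¹ = w by group] at this)
  generalize l * w * l⁻¹ = t at ht htT hR ht2 htr htZ
  have hphi : ∀ g ∈ T, g⁻¹ * (t * g * t⁻¹) ∈ Z → g⁻¹ ∈ Ct Z t ∧ psi t g⁻¹ = g⁻¹ * (t * g * t⁻¹) := fun g _ hz => by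
    have : psi t g⁻¹ = g⁻¹ * (t * g * t⁻¹) := by rw [psi_def]; group
    exact ⟨h.mem_Ct.2 (this ▸ hz), this⟩
  obtain ⟨y, hy, hy1, hyo, hyr, hyc⟩ := hL.i5 hS hle hZT hc2 ht (fun h' => htT h'.1)
    (h.toUp.inf_le_zl ht2 (mul_mem ht.2 ht.2)) (fun g hg => by
      have hg' := hf.conj_mem ht.1 hg.1
      refine hR ⟨⟨mul_mem hg' hg.1, phi_eq_one.1 ?_⟩, mul_mem (hL.nor.conj_mem _ hg.2 t) hg.2⟩
      rw [st.phi_mul ht.1 ht2 hg' hg.1, show t * (t * g * t⁻¹) * t⁻¹ = t * t * g * (t * t)⁻¹ by group,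
        ← h.comm ht2 g]
      group) hw hw1 (fun g hg hg2 => by
      have e1 : g⁻¹ * (t * g * t⁻¹) * (g⁻¹ * (t * g * t⁻¹)) = 1 := by
        rw [← st.phi_mul ht.1 ht2 hg.1 hg.1]; exact phi_eq_one.2 (zl_le_C1 ht.2 hg2)
      have e2 := inv_comm (mem_C1.2 (h.comm ht2 g).symm)
      have e3 : g⁻¹ * (t * g * t⁻¹) ∈ Z := st.d1 ht.1 htT (mul_mem (inv_mem hg.1) (hf.conj_mem ht.1 hg.1))
        (mem_C1'.2 (by rw [e2]; exact inv_eq_of_mul_eq_one_right e1)) ht.1 e2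
      by_cases hgt : g ∈ C1 t
      · exact Or.inl (hR ⟨⟨hg.1, hgt⟩, hg.2⟩)
      have e4 : w⁻¹ * (t * w * t⁻¹) ∈ Z := by
        have := h.nor.conj_mem _ (hPw ht.1).2 w⁻¹
        rwa [show w⁻¹ * (t * w * t⁻¹ * w⁻¹) * w⁻¹⁻¹ = w⁻¹ * (t * w * t⁻¹) by group] at this
      obtain ⟨a1, a2⟩ := hphi g hg.1 e3
      obtain ⟨b1, b2⟩ := hphi w hw.1 e4
      have e5 := st.psi_eq htr htZ a1 b1 (fun h' => hgt (by simpa using inv_mem h'))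
        fun h' => hw1 (hR ⟨⟨hw.1, by simpa using inv_mem h'⟩, hw.2⟩)
      refine Or.inr (hR ⟨⟨T.mul_mem hg.1 (T.inv_mem hw.1), psi_eq_one.1 ?_⟩, L.mul_mem hg.2 (L.inv_mem hw.2)⟩)
      rw [psi_mul h.cen _ b1, ← e5, ← psi_mul h.cen _ a1, mul_inv_cancel, psi_eq_one]
      exact one_mem _)
  obtain ⟨E, D, -, hf'⟩ := h.ba.exists_fr hyr hy1 hyo (Q := ⊥) IsPGroup.of_bot bot_le
  have k1 := cnt hL.nor hS hP hf'.pgD
  have k2 : Nat.card (D ⊓ L : Subgroup G) ≤ Nat.card (ZL L) :=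
    card_le_of_le fun d hd => hyc d hd.2 (T2.of_mem hf'.pgD hd.1) (hf'.cen hd.1)
  have k3 := two_mul_le (hf.pgD.to_le inf_le_left) (lt_of_le_of_ne hZT fun e => hw1 (e ▸ hw))
  rw [hf'.cD, hf.cE, hc2, pow_succ] at k1
  have k4 := Nat.two_pow_pos c
  have k5 := card_pos' (ZL L)
  nlinarith

end CF.Rc
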