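import Cfsg.Agent.Rc.R0
import Cfsg.Agent.Coprime.Special
import Cfsg.Agent.Fgs1.PCentral
import Cfsg.Agent.Sig.FStar
import Cfsg.Agent.Hyp.FTProof
import Cfsg.Agent.S0028
import Cfsg.Agent.S3861
import Cfsg.Agent.S3862

/-! S3860, piece B: the normal quasisimple subgroup. -/

set_option autoImplicit false

namespace CF.Rc

open Subgroup CF.Transfer CF.Coprime CF.Solv CF.Sig Cfsg
open scoped commutatorElement

variable {G : Type*} [Group G] [Finite G] {Z : Subgroup G} {c : ℕ}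

namespace B

theorem cent_of_real (A : Subgroup G) (hA : (Nat.card A).Coprime 2) :
    ∀ P : Subgroup G, IsPGroup 2 P → A ≤ normalizer (P : Set G) →
      (∀ x ∈ P, ∀ g ∈ P, g * x * g⁻¹ = x⁻¹ → x ∈ centralizer (A : Set G)) →
      A ≤ centralizer (P : Set G) := by
  intro P
  induction P using WellFoundedLT.induction with
  | ind P ih =>
  intro hP hAP hre
  by_contra hnt
  haveI : Fact (Nat.Prime 2) := ⟨Nat.prime_two⟩
  have hmin : ∀ U : Subgroup G, U < P → A ≤ normalizer (U : Set G) → A ≤ normalizer (U : Set G) →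
      A ≤ centralizer (U : Set G) := fun U hU h1 _ =>
    ih U hU (hP.to_le hU.le) h1 fun x hx g hg h => hre x (hU.le hx) g (hU.le hg) h
  have hAA : A ≤ normalizer (A : Set G) := le_normalizer
  have h1 := minAct_frattiniOf_eq hP hAP hAP hAA hA hnt hmin
  have h2 := minAct_frattiniOf_eq' hP hAP hAP hAA hA hnt hmin
  have h3 := minAct_frattiniOf_le_centralizer hP hAP hAP hAA hA hnt hmin
  have hDc : ⁅P, P⁆ ≤ centralizer (P : Set G) := h1 ▸ h3
  have hDA : ⁅P, P⁆ ≤ centralizer (A : Set G) := by rw [← h1, h2]; exact inf_le_right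
  -- an element not centralized by `A`
  obtain ⟨x, hxP, hxA⟩ : ∃ x ∈ P, x ∉ centralizer (A : Set G) := by
    by_contra h
    push Not at h
    exact hnt (le_centralizer_iff.mp h)
  have hcomm : ∀ u ∈ P, ∀ g ∈ P, ∀ v ∈ P, v * ⁅u, g⁆ = ⁅u, g⁆ * v := fun u hu g hg v hv =>
    (mem_centralizer_iff.mp (hDc (commutator_mem_commutator hu hg))) v hv
  have hmulR : ∀ u ∈ P, ∀ g ∈ P, ∀ h ∈ P, ⁅u, g * h⁆ = ⁅u, g⁆ * ⁅u, h⁆ := by
    intro u hu g hg h hh
    have := hcomm u hu h hh g hg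
    calc ⁅u, g * h⁆ = ⁅u, g⁆ * (g * ⁅u, h⁆) * g⁻¹ := by simp only [commutatorElement_def]; group
      _ = _ := by rw [this]; group
  have hmulL : ∀ u ∈ P, ∀ v ∈ P, ∀ g ∈ P, ⁅u * v, g⁆ = ⁅v, g⁆ * ⁅u, g⁆ := by
    intro u hu v hv g hg
    have := hcomm v hv g hg u hu
    calc ⁅u * v, g⁆ = (u * ⁅v, g⁆) * u⁻¹ * ⁅u, g⁆ := by simp only [commutatorElement_def]; group
      _ = _ := by rw [this]; group
  let W : Subgroup G :=
    { carrier := {w | ∃ g ∈ P, w = ⁅x, g⁆}
      one_mem' := ⟨1, one_mem _, by simp⟩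
      mul_mem' := by
        rintro _ _ ⟨g, hg, rfl⟩ ⟨h, hh, rfl⟩
        exact ⟨g * h, mul_mem hg hh, (hmulR x hxP g hg h hh).symm⟩
      inv_mem' := by
        rintro _ ⟨g, hg, rfl⟩
        refine ⟨g⁻¹, inv_mem hg, ?_⟩
        have := hmulR x hxP g hg g⁻¹ (inv_mem hg)
        rw [mul_inv_cancel, commutatorElement_one_right] at this
        exact (eq_inv_of_mul_eq_one_right this.symm).symm }
  have hWD : W ≤ ⁅P, P⁆ := by
    rintro _ ⟨g, hg, rfl⟩
    exact commutator_mem_commutator hxP hg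
  let R : Subgroup G :=
    { carrier := {u | u ∈ P ∧ ∀ g ∈ P, ⁅u, g⁆ ∈ W}
      one_mem' := ⟨one_mem _, fun g _ => by simpa using one_mem W⟩
      mul_mem' := by
        rintro u v ⟨hu, hu'⟩ ⟨hv, hv'⟩
        refine ⟨mul_mem hu hv, fun g hg => ?_⟩
        rw [hmulL u hu v hv g hg]
        exact mul_mem (hv' g hg) (hu' g hg)
      inv_mem' := by
        rintro u ⟨hu, hu'⟩
        refine ⟨inv_mem hu, fun g hg => ?_⟩
        have := hmulL u hu u⁻¹ (inv_mem hu) g hg
        rw [mul_inv_cancel, commutatorElement_one_left] at this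
        rw [eq_inv_of_mul_eq_one_left this.symm]
        exact inv_mem (hu' g hg) }
  have hRP : R ≤ P := fun u hu => hu.1
  have hxR : x ∈ R := ⟨hxP, fun g hg => ⟨g, hg, rfl⟩⟩
  have hAR : A ≤ normalizer (R : Set G) := by
    intro a ha
    refine CF.Fgs1.mem_normalizer_of_forall fun u hu => ⟨?_, fun g hg => ?_⟩
    · exact CF.Fgs1.conj_mem_of_mem_normalizer (hAP ha) hu.1
    · have hg' := CF.Fgs1.inv_conj_mem_of_mem_normalizer (hAP ha) hg
      have hw := hu.2 _ hg'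
      have hc := (mem_centralizer_iff.mp (hDA (hWD hw))) a ha
      have : ⁅a * u * a⁻¹, g⁆ = a * ⁅u, a⁻¹ * g * a⁆ * a⁻¹ := by
        simp only [commutatorElement_def]; group
      rw [this, hc, mul_inv_cancel_right]
      exact hw
  rcases hRP.lt_or_eq with hlt | heq
  · exact hxA (le_centralizer_iff.mp (hmin R hlt hAR hAR) hxR)
  · have hDW : ⁅P, P⁆ ≤ W := commutator_le.mpr fun u hu g hg => (heq ▸ hu : u ∈ R).2 g hg
    have hx2 : x ^ 2 ∈ W := hDW (h1 ▸ pow_mem_frattiniOf hP hxP)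
    obtain ⟨g, hg, hxg⟩ := hx2
    have : g * x * g⁻¹ = x⁻¹ := by
      have h4 : x * x = x * (g * x⁻¹ * g⁻¹) := by
        rw [← sq, hxg, commutatorElement_def]; group
      have h5 := mul_left_cancel h4
      calc g * x * g⁻¹ = (g * x⁻¹ * g⁻¹)⁻¹ := by group
        _ = x⁻¹ := by rw [← h5]
    exact hxA (hre x hxP g hg this)

/-- an element of odd order with a large 2-subgroup in its centraliser -/
theorem cent_of_norm (h : Up Z c) {x : G} (ho : Odd (orderOf x)) {D U : Subgroup G} (hD : D ≤ C1 x)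
    (hc : Nat.card D = 2 ^ c) (hU : IsPGroup 2 U) (hx : x ∈ normalizer (U : Set G))
    (hDU : D ≤ normalizer (U : Set G)) : x ∈ centralizer (U : Set G) := by
  haveI : Fact (Nat.Prime 2) := ⟨Nat.prime_two⟩
  have hA : (Nat.card (zpowers x)).Coprime 2 := by
    rw [Nat.card_zpowers]; exact Nat.coprime_two_right.2 ho
  have hDx : D ≤ centralizer (zpowers x : Set G) :=
    le_centralizer_iff.1 (zpowers_le.2 fun d hd => mem_C1.1 (hD hd))
  refine Cfsg.Agent.S0028.result 2 D (zpowers x) U (pg_of_card hc) hA hU hDx hDU (zpowers_le.2 hx)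
    (le_centralizer_iff.1 (cent_of_real _ hA _ (hU.to_le inf_le_left) (zpowers_le.2 ?_)
      fun u hu g _ hi => ?_)) (mem_zpowers x)
  · refine mem_normalizer_of_cj_le ?_
    rw [cj_inf, cj_eq_of_mem_normalizer hx, ← centralizer_cj,
      cj_eq_of_mem_centralizer (le_centralizer_iff.1 hDx (mem_zpowers x))]
  · by_cases hZ : u ∈ Z
    · exact fun a _ => h.comm hZ a
    have h1 : D ≤ C1 u := fun d hd => mem_C1.2 (hu.2 d hd)
    have h2 : IsPGroup 2 (zpowers u ⊔ D : Subgroup G) :=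
      (T2.of_mem hU hu.1).pg.to_sup_of_normal_right' (pg_of_card hc)
        (zpowers_le.2 (centralizer_le_normalizer _ hu.2))
    have h3 := h.up u ⟨g, hi⟩ hZ _ h2 (sup_le (zpowers_le.2 (mem_C1.2 rfl)) h1)
    have h4 : D = zpowers u ⊔ D := eq_of_le_of_card_ge le_sup_right (hc ▸ h3)
    exact hDx (h4 ▸ mem_sup_left (mem_zpowers u))

theorem solv_of_normal {H : Type*} [Group H] [Finite H] (N : Subgroup H) [N.Normal]
    (h : Odd (Nat.card N) ∧ IsPGroup 2 (H ⧸ N) ∨ IsPGroup 2 N ∧ Odd N.index) : Group.IsSolvable H := by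
  haveI : Fact (Nat.Prime 2) := ⟨Nat.prime_two⟩
  rcases h with h | h
  · haveI := CF.Hyp.isSolvable_of_odd (G := N) h.1
    haveI := h.2.isNilpotent
    exact Group.isSolvable_of_ker_le_range N.subtype (QuotientGroup.mk' N) (by simp)
  · haveI := CF.Hyp.isSolvable_of_odd (G := H ⧸ N) h.2
    haveI := h.1.isNilpotent
    exact Group.isSolvable_of_ker_le_range N.subtype (QuotientGroup.mk' N) (by simp)

/-- a non-solvable subgroup contains a real element of odd order -/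
theorem exists_real {K : Subgroup G} (hK : ¬ Group.IsSolvable K) :
    ∃ y ∈ K, ∃ v ∈ K, y ≠ 1 ∧ Odd (orderOf y) ∧ v * y * v⁻¹ = y⁻¹ := by
  haveI : Fact (Nat.Prime 2) := ⟨Nat.prime_two⟩
  by_contra hc
  push Not at hc
  obtain ⟨P⟩ : Nonempty (Sylow 2 K) := inferInstance
  haveI := (Cfsg.Agent.S3861.result P).1 fun y h1 ho hi => by
    obtain ⟨v, hv⟩ := isConj_iff.1 hi
    exact hc y y.2 v v.2 (fun e => h1 (Subtype.ext e)) (by rwa [orderOf_coe]) (congrArg Subtype.val hv)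
  exact hK (solv_of_normal (P : Subgroup K) (Or.inr ⟨P.isPGroup',
    Nat.not_even_iff_odd.1 fun e => P.not_dvd_index e.two_dvd⟩))

/-- a subgroup whose real 2-elements are central is solvable -/
theorem solv_of_real {H : Subgroup G}
    (h : ∀ g ∈ H, ∀ e ∈ H, T2 g → e * g * e⁻¹ = g⁻¹ → ∀ a ∈ H, a * g = g * a) : Group.IsSolvable H := by
  haveI : Fact (Nat.Prime 2) := ⟨Nat.prime_two⟩
  obtain ⟨N, hN, h1, k, hk⟩ := hasNPC_iff_exists_normal.1 (Cfsg.Agent.S3862.result (G := H)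
    fun g ⟨j, hj⟩ hi => by
      obtain ⟨e, he⟩ := isConj_iff.1 hi
      exact mem_center_iff.2 fun a => Subtype.ext
        (h g g.2 e e.2 ⟨j, by rwa [orderOf_coe]⟩ (congrArg Subtype.val he) a a.2))
  exact solv_of_normal N (Or.inl ⟨Nat.coprime_two_right.1 h1, IsPGroup.of_card hk⟩)

end B

theorem Ba.exists_qs (h : Ba Z c) (hO : NO G) {x : G} (hx : Re x) (h1 : x ≠ 1) (ho : Odd (orderOf x)) :
    ∃ L : Subgroup G, QS Z L := by
  haveI : Fact (Nat.Prime 2) := ⟨Nat.prime_two⟩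
  have h0 : pPrimeCore 2 G = ⊥ := sSup_eq_bot.2 fun N hN => hO N hN.1 (Nat.coprime_two_right.1 hN.2)
  obtain ⟨K, hK⟩ : ∃ K : Subgroup G, IsComponent K := by
    by_contra hc
    push Not at hc
    obtain ⟨D, hD, hDc⟩ := h.lo x hx h1 ho
    have := fstar_eq_pCore_iff.1 (fstar_eq_pCore_iff'.2 ⟨layer_eq_bot_iff.2 hc, h0⟩)
      (B.cent_of_norm h.toUp ho hD hDc pCore_isPGroup (by rw [normalizer_eq_top]; trivial)
        (by rw [normalizer_eq_top]; exact le_top))
    exact h1 ((T2.of_mem pCore_isPGroup this).eq_one ho)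
  obtain ⟨y, hy, v, hv, y1, y2, y3⟩ := B.exists_real (qs_not_isSolvable hK.2)
  have key : ∀ g ∈ centralizer (K : Set G), ∀ e ∈ centralizer (K : Set G), T2 g → e * g * e⁻¹ = g⁻¹ →
      g ∈ Z := fun g hg e he h2 hi =>
    h.d1 y v g y1 y2 y3 h2 (mem_C1.2 (hg y hy).symm) (mem_C1.2 (hg v hv).symm)
      ⟨e, C1_le_Cs y (mem_C1.2 (he y hy).symm), hi⟩
  have hs : Group.IsSolvable (centralizer (K : Set G)) :=
    B.solv_of_real fun g hg e he h2 hi a _ => h.toUp.comm (key g hg e he h2 hi) a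
  refine ⟨K, normal_iff_cj.2 fun g => ?_, hK.2, ?_, fun ζ hζ h2 =>
    key ζ hζ.2 1 (one_mem _) (T2.of_sq h2) (by simpa using (inv_eq_of_mul_eq_one_right h2).symm)⟩
  · exact comp_eq_of_not_le_centralizer (comp_map_conj hK g) hK fun e =>
      qs_not_isSolvable (comp_map_conj hK g).2 (isSolvable_of_le e hs)
  · exact pCore_isPGroup.to_le ((center_comp_le_fitting hK).trans (fitting_eq_pCore h0).le)

end CF.Rc
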