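import Cfsg.Agent.Rc.R1

/-! S3860, piece C1: the subgroup `Ct Z w` in the inductive class. -/

set_option autoImplicit false

namespace CF.Rc

open Subgroup CF.Transfer

variable {G : Type*} [Group G] [Finite G] {Z : Subgroup G} {c : ℕ}

omit [Finite G] in
theorem Up.sq_conj (h : Up Z c) {s : G} (hs : s * s ∈ Z) (a : G) : a * s * a⁻¹ * (a * s * a⁻¹) = s * s := by
  calc _ = a * (s * s) * a⁻¹ := by group
    _ = _ := by rw [h.comm hs, mul_inv_cancel_right]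

omit [Finite G] in
theorem Cm.cm2 (h : Cm Z c) {y a b : G} (hy : Re y) (h1 : y ≠ 1) (ho : Odd (orderOf y)) (ha : a ∈ C1 y)
    (hb : b ∈ C1 y) (ha2 : a * a ∈ Z) (hb2 : b * b = a * a) (hab : b ∈ Ct Z a) : b * a⁻¹ ∈ Z := by
  obtain ⟨q2, qi⟩ := h.toUp.pair ha2 hb2 hab
  have hq := h.cm y _ h1 ho hy (h.toUp.T2_of_sq q2) (mul_mem ha hb) ⟨a, C1_le_Cs y ha, qi⟩
  rw [show b * a⁻¹ = a⁻¹ * (a * b) * a⁻¹ by group, h.comm hq, mul_assoc, ← mul_inv_rev]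
  exact mul_mem hq (inv_mem ha2)

theorem Cm.sylow_le (h : Cm Z c) {y w : G} {E : Subgroup G} (hy : Re y) (h1 : y ≠ 1) (ho : Odd (orderOf y))
    (hw : w ∈ C1 y) (hw2 : w * w ∈ Z) (hE : IsPGroup 2 E) (hEy : E ≤ Cs y) (hwE : w ∈ E) : E ≤ Ct Z w := by
  rcases (inf_le_left : E ⊓ Ct Z w ≤ E).eq_or_lt with e | hlt
  · exact e ▸ inf_le_right
  obtain ⟨n, hn, hnU, hnN, -⟩ := exists_step hE hlt
  have htU := conj_mem_of_mem_normalizer hnN (show w ∈ E ⊓ Ct Z w from ⟨hwE, C1_le_Ct h.nor w (mem_C1.2 rfl)⟩)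
  exact absurd ⟨hn, h.mem_Ct.2 (h.cm2 hy h1 ho hw (conj_mem_of_mem_normalizer (Cs_le_normalizer y (hEy hn)) hw) hw2
    (h.toUp.sq_conj hw2 n) htU.2)⟩ hnU

/-- a frame over `w` inside `Ct Z w` -/
theorem Cm.fr_le (h : Cm Z c) {y w : G} (hy : Re y) (h1 : y ≠ 1) (ho : Odd (orderOf y))
    (hw : w ∈ C1 y) (hw2 : w * w ∈ Z) : ∃ E D : Subgroup G, Fr c y E D ∧ E ≤ Ct Z w := by
  obtain ⟨E, D, hQ, hf⟩ := h.ba.exists_fr hy h1 ho (h.toUp.T2_of_sq hw2).pg (zpowers_le.2 (C1_le_Cs y hw))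
  exact ⟨E, D, hf, h.sylow_le hy h1 ho hw hw2 hf.pgE hf.syl.le (hQ (mem_zpowers w))⟩

omit [Finite G] in
theorem Re.coe {M : Subgroup G} {g : M} (h : Re g) : Re (g : G) := by
  obtain ⟨a, ha⟩ := h
  exact ⟨a, by simpa using congrArg Subtype.val ha⟩

omit [Finite G] in
theorem C1_coe {M : Subgroup G} {g x : M} : g ∈ C1 x ↔ (g : G) ∈ C1 (x : G) := by
  rw [mem_C1, mem_C1, Subtype.ext_iff]; simp

theorem Cm.sub (h : Cm Z c) {w : G} (hw2 : w * w ∈ Z) : Cm (Z.subgroupOf (Ct Z w)) c where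
  cen z hz := mem_center_iff.2 fun g => Subtype.ext (h.comm hz g)
  sq z hz := Subtype.ext (h.sq z hz)
  up g hg hZ Q hQ hQg := by
    have := h.up g hg.coe hZ (Q.map (Ct Z w).subtype) (isPGroup_map_subtype hQ) (by
      rintro _ ⟨q, hq, rfl⟩; exact C1_coe.1 (hQg hq))
    rwa [card_map_of_injective (Ct Z w).subtype_injective] at this
  lo x hx h1 ho := by
    have ho' : Odd (orderOf (x : G)) := by rwa [Subgroup.orderOf_coe]
    obtain ⟨E, D, hf, hE⟩ := h.fr_le hx.coe (fun e => h1 (Subtype.ext e)) ho'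
      (C1_symm (h.toUp.C1_of_odd x.2 ho')) hw2
    refine ⟨D.subgroupOf _, fun d hd => C1_coe.2 (hf.cen hd), ?_⟩
    rw [← hf.cD]
    exact Nat.card_congr (subgroupOfEquivOfLe (hf.le.trans hE)).toEquiv
  cm x g h1 ho hx hg hgx := by
    rintro ⟨e, he, hi⟩
    refine h.cm x g (fun e => h1 (Subtype.ext e)) (by rwa [Subgroup.orderOf_coe]) hx.coe
      (by obtain ⟨j, hj⟩ := hg; exact ⟨j, by rwa [Subgroup.orderOf_coe]⟩) (C1_coe.1 hgx)
      ⟨e, ?_, by simpa using congrArg Subtype.val hi⟩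
    rcases he with he | he
    · exact Or.inl (by simpa using congrArg Subtype.val he)
    · exact Or.inr (by simpa using congrArg Subtype.val he)

theorem Cm.goal_sub (h : Cm Z c) {w : G} (hw2 : w * w ∈ Z) (hg : Goal (Ct Z w)) :
    ∃ O : Subgroup G, O ≤ C1 w ∧ Ct Z w ≤ normalizer (O : Set G) ∧ Odd (Nat.card O) ∧
      ∀ y : G, Re y → Odd (orderOf y) → y ∈ C1 w → y ∈ O := by
  obtain ⟨O, hN, hodd, hall⟩ := hg
  have hodd' : Odd (Nat.card (O.map (Ct Z w).subtype)) := by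
    rwa [card_map_of_injective (Ct Z w).subtype_injective]
  refine ⟨O.map (Ct Z w).subtype, fun y hy => h.toUp.C1_of_odd (map_subtype_le O hy) (odd_of_mem hodd' hy),
    fun g hg => mem_normalizer_of_cj_le (cj_le_iff_forall.2 ?_), hodd', fun y hy ho hw => ?_⟩
  · rintro _ ⟨y, hy, rfl⟩
    exact ⟨_, hN.conj_mem y hy ⟨g, hg⟩, rfl⟩
  · by_cases h1 : y = 1
    · rw [h1]; exact one_mem _
    obtain ⟨E, D, hf, hE⟩ := h.fr_le hy h1 ho (C1_symm hw) hw2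
    obtain ⟨e, he, heD⟩ := hf.exists_not
    exact ⟨⟨y, C1_le_Ct h.nor w hw⟩, hall _ ⟨⟨e, hE he⟩, Subtype.ext (hf.inv he heD)⟩
      (by rwa [← Subgroup.orderOf_coe]), rfl⟩

end CF.Rc
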