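import Cfsg.Agent.Rc.C1
import Cfsg.Agent.Rc.I

/-! S3860, piece C5. -/

set_option autoImplicit false

namespace CF.Rc

open Subgroup CF.Transfer

variable {G : Type*} [Group G] [Finite G] {Z : Subgroup G} {c : ℕ}

theorem Up.exists_w (h : Up Z c) {L P : Subgroup G} (hL : QS Z L) (hP : IsSylowIn 2 P ⊤) :
    ∃ w ∈ L, w ∈ P ∧ w ∉ ZL L ∧ w * w ∈ Z ∧ P ≤ Ct Z w ∧ Re w := by
  haveI : Fact (Nat.Prime 2) := ⟨Nat.prime_two⟩
  obtain ⟨s, hs, hs1, hs2, l, -, hl⟩ := hL.i4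
  obtain ⟨a, -, ha⟩ := hP.exists_cj_le (h.T2_of_sq hs2).pg le_top
  haveI := hL.nor
  obtain ⟨w, hw, hwP, hw1, hw2, hPw, hr⟩ := h.exists_central (A := L) (B := ZL L) hP.isPGroup
    (by rw [normalizer_eq_top]; exact le_top) (fun b hb a ha => zl_comm hb ha) hL.om
    (hL.nor.conj_mem s hs a) (ha (conj_mem_cj (mem_zpowers s))) (fun h' => hs1 (by
      have := (zl_normal L hL.nor).conj_mem _ h' a⁻¹
      rwa [show a⁻¹ * (a * s * a⁻¹) * a⁻¹⁻¹ = s by group] at this)) (h.sq_conj hs2 a ▸ hs2)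
  refine ⟨w, hw, hwP, hw1, hw2, hPw, ?_⟩
  rcases hr with ⟨p, -, hp⟩ | rfl
  · exact ⟨p, hp⟩
  · exact Re.conj ⟨l, hl⟩ a

namespace C5

/-- elements of `P` with the same square as `w`, outside `wZ` -/
def Gam (Z P : Subgroup G) (w g : G) : Prop := g ∈ P ∧ g * g = w * w ∧ g * w⁻¹ ∉ Z

omit [Finite G] in
theorem Gam.conj (h : Up Z c) {P : Subgroup G} {w g k : G} (hw2 : w * w ∈ Z) (hPw : P ≤ Ct Z w)
    (hg : Gam Z P w g) (hk : k ∈ P) : Gam Z P w (k * g * k⁻¹) := by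
  refine ⟨mul_mem (mul_mem hk hg.1) (inv_mem hk), by rw [h.sq_conj (hg.2.1 ▸ hw2), hg.2.1], fun h' => hg.2.2 ?_⟩
  rw [show g * w⁻¹ = k⁻¹ * (k * g * k⁻¹ * w⁻¹) * k⁻¹⁻¹ * (k⁻¹ * w * k⁻¹⁻¹ * w⁻¹) by group]
  exact mul_mem (h.nor.conj_mem _ h' _) (hPw (inv_mem hk)).2

theorem mul_mem_Z (h : Cm Z c) {P O : Subgroup G} (hP : IsPGroup 2 P) {w : G} (hw2 : w * w ∈ Z)
    (hPw : P ≤ Ct Z w) (hO : O ≤ C1 w) (hN : Ct Z w ≤ normalizer (O : Set G)) (hodd : Odd (Nat.card O))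
    {y : G} (hy : y ∈ O) (hr : Re y) (h1 : y ≠ 1) {g1 g2 : G} (hg1 : Gam Z P w g1) (hg2 : Gam Z P w g2) :
    g1 * g2 ∈ Z := by
  have n1 : ∀ g, Gam Z P w g → ∀ y ∈ O, Re y → y ≠ 1 → g ∉ C1 y := fun g hg y hy hr h1 hc =>
    hg.2.2 (h.cm2 hr h1 (odd_of_mem hodd hy) (C1_symm (hO hy)) hc hw2 hg.2.1 (hPw hg.1))
  have hZO : ∀ z ∈ Z, ∀ y ∈ O, z ∈ C1 y := fun z hz y _ => mem_C1.2 (h.comm hz y).symm
  have hz1 : g1 * g1 ∈ Z := hg1.2.1 ▸ hw2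
  have hz2 : g2 * g2 = g1 * g1 := hg2.2.1.trans hg1.2.1.symm
  by_contra hZ
  have hi : g1 * (g1 * g2) * g1⁻¹ = (g1 * g2)⁻¹ := by
    have e1 : g2⁻¹ = g1 * g1 * g2 := by
      rw [← hz2, inv_eq_iff_mul_eq_one, show g2 * (g2 * g2 * g2) = g2 * g2 * (g2 * g2) by group, hz2]
      exact h.sq _ hz1
    rw [mul_inv_rev, e1]; group
  have hhP := mul_mem hg1.1 hg2.1
  obtain ⟨j, hj1, hj2⟩ := (T2.of_mem hP hhP).exists_pow hZ
  have hi1 := inv_pow' hi (2 ^ j)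
  have hx : y⁻¹ * (g1 * y * g1⁻¹) ∈ O := mul_mem (inv_mem hy) (conj_mem_of_mem_normalizer (hN (hPw hg1.1)) hy)
  have hx1 : y⁻¹ * (g1 * y * g1⁻¹) ≠ 1 := fun e => n1 g1 hg1 y hy hr h1 (mem_C1'.2 (inv_mul_eq_one.1 e).symm)
  obtain ⟨y', hy', hy1, hyi, hyc⟩ := four hodd (hN (hPw hg1.1)) (hN (hPw (pow_mem hhP (2 ^ j)))) (hZO _ hj2)
    (fun y hy => by
      refine hZO _ ?_ y hy
      generalize (g1 * g2) ^ 2 ^ j = b at hi1 hj2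
      have : g1⁻¹ * b⁻¹ * g1 * b = b * b := by
        rw [← hi1]; group
      rw [this]; exact hj2) hx hx1 (inv_comm (hZO _ hz1 y hy))
  rcases hyc with hyc | hyc
  · exact hj1 (h.cm y' _ hy1 (odd_of_mem hodd hy') ⟨g1, hyi⟩ (T2.of_mem hP (pow_mem hhP _)) hyc
      ⟨g1, mem_Cs_of_inv hyi, hi1⟩)
  · refine n1 _ ?_ y' hy' ⟨g1, hyi⟩ hy1 hyc
    rcases j with _ | j
    · refine ⟨mul_mem hg1.1 (pow_mem hhP _), ?_, fun h' => hg2.2.2 ?_⟩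
      · rw [pow_zero, pow_one]
        calc g1 * (g1 * g2) * (g1 * (g1 * g2)) = g1 * g1 * (g2 * (g1 * g1)) * g2 := by group
          _ = g1 * g1 * (g1 * g1) * (g2 * g2) := by rw [h.comm hz1 g2]; group
          _ = _ := by rw [h.sq _ hz1, one_mul, hg2.2.1]
      · rw [pow_zero, pow_one] at h'
        rw [show g2 * w⁻¹ = (g1 * g1)⁻¹ * (g1 * (g1 * g2) * w⁻¹) by group]
        exact mul_mem (inv_mem hz1) h'
    · have hk := inv_pow' hi (2 ^ j)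
      have hkP := pow_mem hhP (2 ^ j)
      rw [pow_succ, pow_mul, pow_two]
      generalize (g1 * g2) ^ 2 ^ j = k at hk hkP
      have : g1 * (k * k) = k⁻¹ * g1 * k⁻¹⁻¹ := by rw [inv_inv, ← hk]; group
      rw [this]
      exact hg1.conj h.toUp hw2 hPw (inv_mem hkP)

end C5

open C5 in
theorem Cm.c5 (h : Cm Z c) {L P O : Subgroup G} (hL : QS Z L) (hP : IsSylowIn 2 P ⊤) {w : G} (hw : w ∈ L)
    (hwP : w ∈ P) (hw1 : w ∉ ZL L) (hw2 : w * w ∈ Z) (hPw : P ≤ Ct Z w) (hO : O ≤ C1 w)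
    (hN : Ct Z w ≤ normalizer (O : Set G)) (hodd : Odd (Nat.card O)) {y : G} (hy : y ∈ O) (hr : Re y) :
    y = 1 := by
  haveI : Fact (Nat.Prime 2) := ⟨Nat.prime_two⟩
  haveI := hL.nor
  by_contra h1
  have key := fun g1 g2 => mul_mem_Z h hP.isPGroup hw2 hPw hO hN hodd hy hr h1 (g1 := g1) (g2 := g2)
  have hS := hP.inf_of_normalized (N := L) le_top (by rw [normalizer_eq_top])
  have hct : ∀ u ∈ L, ∀ σ ∈ L, σ ∈ Ct Z u → σ ∈ Ct (ZL L) u := fun u hu σ hσ h' =>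
    (mem_Ct (zl_normal L hL.nor)).2 (h.toUp.inf_le_zl h'.2
      (mul_mem (mul_mem (mul_mem hσ hu) (inv_mem hσ)) (inv_mem hu)))
  obtain ⟨l, hl, hw', hw1', hex⟩ := hL.i1 hS (show w ∈ P ⊓ L from ⟨hwP, hw⟩) hw1
    (h.toUp.inf_le_zl hw2 (mul_mem hw hw)) fun σ hσ => hct w hw σ hσ.2 (hPw hσ.1)
  have hlC : l ∉ Ct Z w := fun h' => hw1' (hct w hw l hl h').2
  have hg : Gam Z P w (l * w * l⁻¹) := ⟨hw'.1, h.toUp.sq_conj hw2 l, fun h' => hlC (h.mem_Ct.2 h')⟩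
  have hz : l * w * l⁻¹ * (l * w * l⁻¹) ∈ Z := hg.2.1 ▸ hw2
  have key2 : ∀ g, Gam Z P w g → g * (l * w * l⁻¹)⁻¹ ∈ Z := fun g hg' => by
    have := mul_mem (key g _ hg' hg) (inv_mem hz)
    rwa [mul_inv_rev, ← mul_assoc, mul_inv_cancel_right] at this
  have hlN : l ∈ normalizer ((P ⊓ L : Subgroup G) : Set G) := by
    have : l⁻¹ ∈ normalizer ((P ⊓ L : Subgroup G) : Set G) := mem_normalizer_of_cj_le (cj_le_iff_forall.2 fun σ hσ => by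
      rw [inv_inv]
      exact hex σ hσ (hct _ hw'.2 σ hσ.2 (h.mem_Ct.2 (key2 _ (hg.conj h.toUp hw2 hPw hσ.1)))))
    simpa using inv_mem this
  have hw'' := conj_mem_of_mem_normalizer hlN hw'
  refine hlC (mem_of_sq hS (inf_le_left.trans hPw) hl hlN (h.mem_Ct.2 ?_))
  by_contra hc
  have h3 := key2 _ ⟨hw''.1, by rw [h.toUp.sq_conj hz, hg.2.1], fun h' => hc (by
    rw [psi_def, show l * l * w * (l * l)⁻¹ = l * (l * w * l⁻¹) * l⁻¹ by group]; exact h')⟩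
  refine hlC (h.mem_Ct.2 ?_)
  have := h.nor.conj_mem _ h3 l⁻¹
  rwa [show l⁻¹ * (l * (l * w * l⁻¹) * l⁻¹ * (l * w * l⁻¹)⁻¹) * l⁻¹⁻¹ = psi w l by rw [psi_def]; group] at this

end CF.Rc
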