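import Cfsg.Agent.Rc.R1

/-! S3860, piece O: failure of (CM) forces a Sylow 2-subgroup of order `2^(c+1)`. -/

set_option autoImplicit false

namespace CF.Rc

open Subgroup CF.Transfer
open scoped Pointwise

variable {G : Type*} [Group G] [Finite G] {Z : Subgroup G} {c : ℕ}

namespace O

theorem r1 (h : Up Z c) {x n : G} {E D : Subgroup G} (hf : Fr c x E D) (hn : T2 n)
    (hE : n ∈ normalizer (E : Set G)) (hD : n ∈ normalizer (D : Set G)) (hnE : n ∉ E) (h2 : n * n ∈ D) : False := by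
  obtain ⟨O, hO1, hO2, hO3, hO4, -⟩ := npc_in (centralizer (D : Set G)) fun u hu ht ⟨e, _, he⟩ k hk => by
    by_cases hZ : u ∈ Z
    · exact h.comm hZ k
    · have : u ∈ D := h.mem_of_max ⟨e, he⟩ hZ (fun d hd => mem_C1.2 (hu d hd)) hf.cD ht
        (centralizer_le_normalizer _ hu) (mem_C1.2 rfl)
      exact (hk u this).symm
  obtain ⟨e, he, heD⟩ := hf.exists_not
  have heN : e ∈ normalizer (D : Set G) := mem_normalizer_of_cj_le (cj_le_iff_forall.2 fun d hd => hf.conj_mem he hd)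
  have hN : ∀ a ∈ normalizer (D : Set G), a ∈ normalizer (O : Set G) := fun a ha =>
    hO2 (normalizer_le_normalizer_centralizer D ha)
  have hDO : ∀ d ∈ D, ∀ y ∈ O, d ∈ C1 y := fun d hd y hy => mem_C1.2 (hO1 hy d hd)
  have hx : x ∈ O := hO4 x (fun d hd => mem_C1.1 (hf.cen hd)) hf.od
  have hc : e⁻¹ * n⁻¹ * e * n ∈ D := by
    rw [show e⁻¹ * n⁻¹ * e * n = e⁻¹ * (n⁻¹ * e * n) by group]
    refine hf.mul_mem (inv_mem he) (inv_conj_mem_of_mem_normalizer hE he) (fun h' => heD (by simpa using inv_mem h'))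
      fun h' => heD ?_
    have := conj_mem_of_mem_normalizer hD h'
    rwa [show n * (n⁻¹ * e * n) * n⁻¹ = e by group] at this
  obtain ⟨y, hy, hy1, hyi, hyc⟩ := four hO3 (hN e heN) (hN n hD) (hDO _ h2) (hDO _ hc) hx hf.x1 (hf.inv he heD)
  have hyZ := h.not_mem_of_odd hy1 (odd_of_mem hO3 hy)
  have hDy : D ≤ C1 y := fun d hd => hDO d hd y hy
  rcases hyc with hyc | hyc
  · exact hnE (hf.le (h.mem_of_max ⟨e, hyi⟩ hyZ hDy hf.cD hn hD hyc))
  · have ht : T2 (e * n) := T2.of_mem (pg_sup hf.pgE hn hE) (mul_mem (mem_sup_left he) (mem_sup_right (mem_zpowers n)))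
    have := hf.le (h.mem_of_max ⟨e, hyi⟩ hyZ hDy hf.cD ht (mul_mem heN hD) hyc)
    exact hnE (by simpa using mul_mem (inv_mem he) this)

theorem Ct_le_normalizer (h : Up Z c) (s : G) : Ct Z s ≤ normalizer (C1 s : Set G) := fun g hg =>
  mem_normalizer_of_cj_le (cj_le_iff_forall.2 fun k hk => by
    rw [← psi_eq_one, h.psi_conj (C1_le_Ct h.nor s hk) hg, psi_eq_one]; exact hk)

theorem lemZ (h : Ex Z c) {x s : G} {E D : Subgroup G} (hf : Fr c x E D) (hsZ : s ∉ Z) (hr : Re s)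
    (hE : E ≤ Ct Z s) (hC : ∀ e ∈ E, e ∈ C1 s → e ∈ D) : D ≤ C1 s := by
  haveI : Fact (Nat.Prime 2) := ⟨Nat.prime_two⟩
  obtain ⟨R, hER, hR⟩ := exists_isSylowIn_ge hf.pgE hE
  have hT := hR.inf_of_normalized (C1_le_Ct h.nor s) (Ct_le_normalizer h.toUp s)
  obtain ⟨D0, hD0, hc0⟩ := h.ex s hr hsZ
  have hc : 2 ^ c ≤ Nat.card (R ⊓ C1 s : Subgroup G) := hc0 ▸ hT.card_le (pg_of_card hc0) hD0
  by_cases hle : R ⊓ C1 s ≤ E
  · have h1 : R ⊓ C1 s ≤ D := fun g hg => hC g (hle hg) hg.2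
    have h2 : R ⊓ C1 s = D := eq_of_le_of_card_ge h1 (by rw [hf.cD]; exact hc)
    exact h2 ▸ inf_le_right
  exfalso
  have hRN : R ≤ normalizer ((R ⊓ C1 s : Subgroup G) : Set G) := fun g hg =>
    mem_normalizer_of_cj_le (cj_le_iff_forall.2 fun k hk => mem_inf.2 ⟨R.mul_mem (R.mul_mem hg hk.1) (R.inv_mem hg),
      conj_mem_of_mem_normalizer (Ct_le_normalizer h.toUp s (hR.le hg)) hk.2⟩)
  have hlt : E < E ⊔ (R ⊓ C1 s) := lt_of_le_of_ne le_sup_left fun e => hle (e ▸ le_sup_right)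
  obtain ⟨m, hm, hmE⟩ := SetLike.exists_of_lt
    (lt_inf_normalizer_of_lt (hR.isPGroup.to_le (sup_le hER inf_le_left)) hlt)
  have hm1 : (m : G) ∈ (E : Set G) * ((R ⊓ C1 s : Subgroup G) : Set G) := by
    rw [← coe_mul_of_left_le_normalizer_right E _ (hER.trans hRN)]; exact hm.1
  obtain ⟨e, he, τ, hτ, rfl⟩ := hm1
  have hτN : τ ∈ normalizer (E : Set G) := by
    simpa using mul_mem (inv_mem (le_normalizer he)) hm.2
  have hτE : τ ∉ E := fun h' => hmE (mul_mem he h')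
  obtain ⟨j, h1, h2⟩ := (T2.of_mem hT.isPGroup hτ).exists_pow hτE
  set t := τ ^ 2 ^ j
  have ht : t ∈ R ⊓ C1 s := pow_mem hτ _
  have htN : t ∈ normalizer (E : Set G) := pow_mem hτN _
  refine r1 h.toUp hf (T2.of_mem hT.isPGroup ht) htN (mem_normalizer_of_cj_le (cj_le_iff_forall.2 fun d hd => ?_)) h1
    (hC _ h2 (mul_mem ht.2 ht.2))
  have hdE := conj_mem_of_mem_normalizer htN (hf.le hd)
  have h3 : d⁻¹ * (t * d * t⁻¹) ∈ D := hC _ (mul_mem (inv_mem (hf.le hd)) hdE) (by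
    rw [← psi_eq_one, psi_mul h.cen _ (hE hdE), h.psi_conj (hE (hf.le hd)) (C1_le_Ct h.nor s ht.2),
      h.psi_inv (hE (hf.le hd))]
    exact h.sq _ (hE (hf.le hd)).2)
  simpa using mul_mem hd h3

/-- a homomorphism `psi` with at most two values has a kernel of index at most 2 -/
theorem card_le_two (h : Up Z c) {s ζ : G} {W : Subgroup G} (hW : W ≤ Ct Z s)
    (hv : ∀ g ∈ W, psi s g = 1 ∨ psi s g = ζ) : Nat.card W ≤ 2 * Nat.card (W ⊓ C1 s : Subgroup G) := by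
  rw [← card_mul_relIndex (inf_le_left : W ⊓ C1 s ≤ W), mul_comm, inf_relIndex_left]
  refine Nat.mul_le_mul_right _ ?_
  by_cases hle : W ≤ C1 s
  · rw [relIndex_eq_one.2 hle]; omega
  · obtain ⟨a, ha, haC⟩ := SetLike.not_le_iff_exists.1 hle
    refine le_of_eq ?_
    rw [relIndex, index_eq_two_iff]
    refine ⟨⟨a, ha⟩, fun b => ?_⟩
    simp only [mem_subgroupOf, coe_mul]
    have e := psi_mul h.cen (b : G) (hW ha)
    have ha' : psi s a = ζ := (hv a ha).resolve_left fun h' => haC (psi_eq_one.1 h')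
    by_cases hb : (b : G) ∈ C1 s
    · exact Or.inr ⟨hb, fun h' => haC (by simpa using mul_mem (inv_mem hb) h')⟩
    · have hb' : psi s b = ζ := (hv b b.2).resolve_left fun h' => hb (psi_eq_one.1 h')
      refine Or.inl ⟨psi_eq_one.1 ?_, hb⟩
      rw [e, hb', ← ha']; exact h.sq _ (hW ha).2

end O

open O in
theorem Ex.sylow_card (h : Ex Z c) (hc : ¬ CM Z) {P : Subgroup G} (hP : IsSylowIn 2 P ⊤) :
    Nat.card P = 2 ^ (c + 1) := by
  haveI : Fact (Nat.Prime 2) := ⟨Nat.prime_two⟩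
  simp only [CM, not_forall] at hc
  obtain ⟨x, g, h1, ho, hx, hg, hgx, ⟨e0, he0, hi0⟩, hgZ⟩ := hc
  obtain ⟨e, he, het, hi⟩ := exists_T2_inv he0 hi0
  obtain ⟨E, D, hQ, hf⟩ := h.ba.exists_fr hx h1 ho (pg_pair hg het (mem_Cs_of_inv hi))
    (sup_le (zpowers_le.2 he) (zpowers_le.2 (C1_le_Cs x hgx)))
  have heE : e ∈ E := hQ (mem_sup_left (mem_zpowers e))
  have hgE : g ∈ E := hQ (mem_sup_right (mem_zpowers g))
  obtain ⟨j, hj1, hj2⟩ := hg.exists_pow hgZ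
  obtain ⟨s, hsx, hsE, hsZ, hs2, hE, hr⟩ := h.toUp.exists_central (A := C1 x) (B := Z) hf.pgE
    (hf.syl.le.trans (Cs_le_normalizer x)) (fun b hb a _ => h.comm hb a) (fun b hb _ => hb) (pow_mem hgx _)
    (pow_mem hgE _) hj1 hj2
  obtain ⟨p, hp, hpi⟩ : ∃ p ∈ E, p * s * p⁻¹ = s⁻¹ := by
    rcases hr with hr | rfl
    · exact hr
    · exact ⟨e, heE, inv_pow' hi _⟩
  have hsD : s ∈ D := hf.mem hsE hsx
  have hC : ∀ v ∈ E, v ∈ C1 s → v ∈ D := fun v hv hvs => by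
    by_contra hvD
    exact hsZ (h.ba.d1' hf hv hvD hsD hvs hp hpi)
  have hD := lemZ h hf hsZ ⟨p, hpi⟩ hE hC
  obtain ⟨P', hEP, hP'⟩ := exists_isSylowIn_ge hf.pgE le_top
  rw [hP.card_eq hP', ← hf.cE]
  rcases hEP.eq_or_lt with e' | hlt
  · rw [e']
  exfalso
  obtain ⟨n, hn, hnE, hnN, hn2⟩ := exists_step hP'.isPGroup hlt
  have hnT : T2 n := T2.of_mem hP'.isPGroup hn
  obtain ⟨v, hv, hvD⟩ := hf.exists_not
  have hval : ∀ a ∈ E, psi s a = 1 ∨ psi s a = psi s v := fun a ha => by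
    by_cases haD : a ∈ D
    · exact Or.inl (psi_eq_one.2 (hD haD))
    · refine Or.inr ?_
      have h3 := psi_eq_one.2 (hD (hf.mul_mem ha hv haD hvD))
      rw [psi_mul h.cen _ (hE hv)] at h3
      rw [eq_inv_of_mul_eq_one_left h3]; exact h.inv_eq (hE hv).2
  have hζ : psi s v * psi s v = 1 := h.sq _ (hE hv).2
  have hmul : ∀ a b : G, (a = 1 ∨ a = psi s v) → (b = 1 ∨ b = psi s v) → (a * b = 1 ∨ a * b = psi s v) := by
    rintro a b (rfl | rfl) (rfl | rfl) <;> simp [hζ]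
  have htE : n * s * n⁻¹ ∈ E := conj_mem_of_mem_normalizer hnN hsE
  have ht2 : n * s * n⁻¹ * (n * s * n⁻¹) = s * s := by
    calc _ = n * (s * s) * n⁻¹ := by group
      _ = _ := by rw [h.comm hs2, mul_inv_cancel_right]
  obtain ⟨-, qi⟩ := h.toUp.pair hs2 ht2 (hE htE)
  set q := s * (n * s * n⁻¹) with hq
  have f1 : ∀ u ∈ E, psi q u = psi s u * psi s (n⁻¹ * u * n) := fun u hu => by
    have h3 := hE (inv_conj_mem_of_mem_normalizer hnN hu)
    have h4 := h.toUp.psi_cj n h3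
    rw [show n * (n⁻¹ * u * n) * n⁻¹ = u by group] at h4
    have : psi q u = psi s u * (s * psi (n * s * n⁻¹) u * s⁻¹) := by simp only [psi_def, hq]; group
    rw [this, h4, h.comm (h.mem_Ct.1 h3), mul_inv_cancel_right]
  have f2 : psi q n = psi s (n * n) * psi s (n * s * n⁻¹) := by
    have : psi q n = n * s * n⁻¹ * psi s (n * n) * (n * s * n⁻¹)⁻¹ * psi s (n * s * n⁻¹) := by
      simp only [psi_def, hq]; group
    rw [this, h.comm (h.mem_Ct.1 (hE hn2)), mul_inv_cancel_right]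
  have g1 : E ≤ Ct Z q := fun u hu => h.mem_Ct.2 (by
    rw [f1 u hu]; exact mul_mem (hE hu).2 (hE (inv_conj_mem_of_mem_normalizer hnN hu)).2)
  have g2 : n ∈ Ct Z q := h.mem_Ct.2 (by rw [f2]; exact mul_mem (hE hn2).2 (hE htE).2)
  have hv1 : ∀ u ∈ E, psi q u = 1 ∨ psi q u = psi s v := fun u hu => by
    rw [f1 u hu]; exact hmul _ _ (hval u hu) (hval _ (inv_conj_mem_of_mem_normalizer hnN hu))
  have hW := card_le_two h.toUp (ζ := psi s v) (sup_le g1 (zpowers_le.2 g2)) fun u hu => by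
    rcases (mem_sup_step hnN hn2).1 hu with hu | hu
    · exact hv1 u hu
    · rw [show u = u * n⁻¹ * n by group, psi_mul h.cen _ g2]
      exact hmul _ _ (hv1 _ hu) (by rw [f2]; exact hmul _ _ (hval _ hn2) (hval _ htE))
  have hWp := pg_sup hf.pgE hnT hnN
  have hbig := two_mul_le hWp (lt_of_le_of_ne le_sup_left fun e => hnE (e ▸ mem_sup_right (mem_zpowers n)))
  have hqZ : q ∈ Z := by
    by_contra hqZ
    have := h.up q ⟨s, qi⟩ hqZ _ (hWp.to_le inf_le_left) (inf_le_right : (E ⊔ zpowers n) ⊓ C1 q ≤ _)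
    rw [hf.cE, pow_succ] at hbig
    have := Nat.two_pow_pos c
    omega
  have hnC : n ∈ Ct Z s := h.mem_Ct.2 (by
    have : psi s n = s⁻¹ * q * s⁻¹ := by rw [psi_def, hq]; group
    rw [this, h.comm hqZ, mul_assoc, ← mul_inv_rev]
    exact mul_mem hqZ (inv_mem hs2))
  refine r1 h.toUp hf hnT hnN (mem_normalizer_of_cj_le (cj_le_iff_forall.2 fun d hd => ?_)) hnE
    (hC _ hn2 (psi_eq_one.1 (by rw [psi_mul h.cen _ hnC]; exact h.sq _ hnC.2)))
  exact hC _ (conj_mem_of_mem_normalizer hnN (hf.le hd))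
    (conj_mem_of_mem_normalizer (Ct_le_normalizer h.toUp s hnC) (hD hd))

end CF.Rc
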