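import Cfsg.Agent.Rc.R1

/-! S3860, piece Q: normal subgroups of odd order. -/

set_option autoImplicit false

namespace CF.Rc

open Subgroup CF.Transfer QuotientGroup

variable {G : Type*} [Group G] [Finite G] {Z : Subgroup G} {c : ℕ}

namespace Q

variable {N : Subgroup G} [N.Normal]

/-- pairs `(e, ε)` with `e` sending `g0` to `g0 ^ ε` -/
def Gam (N : Subgroup G) [N.Normal] (E : Subgroup G) (g0 : G ⧸ N) : Subgroup (G × ℤˣ) where
  carrier := {z | z.1 ∈ E ∧ mk' N z.1 * g0 * (mk' N z.1)⁻¹ = g0 ^ (z.2 : ℤ)}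
  one_mem' := ⟨one_mem _, by simp⟩
  mul_mem' := by
    rintro a b ⟨ha, ha'⟩ ⟨hb, hb'⟩
    refine ⟨mul_mem ha hb, ?_⟩
    calc _ = mk' N a.1 * (mk' N b.1 * g0 * (mk' N b.1)⁻¹) * (mk' N a.1)⁻¹ := by
          rw [Prod.fst_mul, map_mul]; group
      _ = _ := by rw [hb', ← conj_zpow, ha', ← zpow_mul, Prod.snd_mul, Units.val_mul]
  inv_mem' := by
    rintro a ⟨ha, ha'⟩
    refine ⟨inv_mem ha, ?_⟩
    have : (mk' N a.1 * g0 * (mk' N a.1)⁻¹) ^ (a.2 : ℤ) = g0 := by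
      rw [ha', ← zpow_mul, Int.units_coe_mul_self, zpow_one]
    calc _ = (mk' N a.1)⁻¹ * (mk' N a.1 * g0 * (mk' N a.1)⁻¹) ^ (a.2 : ℤ) * mk' N a.1 := by
          rw [this, Prod.fst_inv, map_inv, inv_inv]
      _ = _ := by rw [conj_zpow, Prod.snd_inv, Int.units_inv_eq_self]; group

theorem fix (hN : Odd (Nat.card N)) (g0 : G ⧸ N) {E : Subgroup G} (hE : IsPGroup 2 E) :
    ∃ g : G, mk' N g = g0 ∧ ∀ e ∈ E, (mk' N e ∈ C1 g0 → e ∈ C1 g) ∧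
      (mk' N e * g0 * (mk' N e)⁻¹ = g0⁻¹ → e * g * e⁻¹ = g⁻¹) := by
  haveI : Fact (Nat.Prime 2) := ⟨Nat.prime_two⟩
  letI : MulAction (Gam N E g0) ((mk : G → G ⧸ N) ⁻¹' {g0}) :=
    { smul := fun z y => ⟨(z.1.1 * y * z.1.1⁻¹) ^ (z.1.2 : ℤ), by
        change mk' N _ = g0
        rw [map_zpow, map_mul, map_mul, map_inv, show mk' N y.1 = g0 from y.2, z.2.2, ← zpow_mul,
          Int.units_coe_mul_self, zpow_one]⟩
      one_smul := fun y => Subtype.ext (show ((1 : G) * y * 1⁻¹) ^ ((1 : ℤˣ) : ℤ) = y by simp)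
      mul_smul := fun a b y => Subtype.ext (show
        (a.1.1 * b.1.1 * y * (a.1.1 * b.1.1)⁻¹) ^ ((a.1.2 * b.1.2 : ℤˣ) : ℤ) =
          (a.1.1 * (b.1.1 * y * b.1.1⁻¹) ^ (b.1.2 : ℤ) * a.1.1⁻¹) ^ (a.1.2 : ℤ) by
        rw [← conj_zpow, ← zpow_mul, Units.val_mul, mul_comm (a.1.2 : ℤ)]
        congr 1
        group) }
  have hp : IsPGroup 2 (Gam N E g0) := fun z => by
    obtain ⟨k, hk⟩ := hE ⟨z.1.1, z.2.1⟩
    refine ⟨k + 1, Subtype.ext (Prod.ext ?_ ?_)⟩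
    · change z.1.1 ^ 2 ^ (k + 1) = 1
      rw [pow_succ, pow_mul, show z.1.1 ^ 2 ^ k = 1 from congrArg Subtype.val hk, one_pow]
    · change z.1.2 ^ 2 ^ (k + 1) = 1
      rw [pow_succ', pow_mul, Int.units_sq, one_pow]
  obtain ⟨y, hy⟩ := hp.nonempty_fixed_point_of_prime_not_dvd_card ((mk : G → G ⧸ N) ⁻¹' {g0}) (by
    rw [card_preimage_mk, Nat.card_unique (α := ({g0} : Set (G ⧸ N))), mul_one]
    exact hN.not_two_dvd_nat)
  refine ⟨y, y.2, fun e he => ⟨fun h => mem_C1'.2 ?_, fun h => ?_⟩⟩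
  · have : (e * y * e⁻¹) ^ ((1 : ℤˣ) : ℤ) = y :=
      congrArg Subtype.val (hy ⟨(e, 1), he, by simpa using mem_C1'.1 h⟩)
    rwa [Units.val_one, zpow_one] at this
  · have : (e * y * e⁻¹) ^ ((-1 : ℤˣ) : ℤ) = y :=
      congrArg Subtype.val (hy ⟨(e, -1), he, by simpa using h⟩)
    rw [Units.val_neg, Units.val_one, zpow_neg_one] at this
    exact inv_eq_iff_eq_inv.1 this

theorem lift (hN : Odd (Nat.card N)) {g0 : G ⧸ N} (hg : Re g0) {U : Subgroup (G ⧸ N)} (hU : IsPGroup 2 U)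
    (hUg : U ≤ Cs g0) : ∃ (g : G) (E : Subgroup G), mk' N g = g0 ∧ Re g ∧ IsPGroup 2 E ∧ U ≤ E.map (mk' N) ∧
      ∀ e ∈ E, (mk' N e ∈ C1 g0 → e ∈ C1 g) ∧ (mk' N e * g0 * (mk' N e)⁻¹ = g0⁻¹ → e * g * e⁻¹ = g⁻¹) := by
  haveI : Fact (Nat.Prime 2) := ⟨Nat.prime_two⟩
  obtain ⟨F, hUF, hF⟩ := exists_isSylowIn_ge hU hUg
  obtain ⟨v, hv⟩ := hg
  obtain ⟨f, hf, hfi⟩ := exists_inv_in hF le_rfl (mem_Cs_of_inv hv) hv
  obtain ⟨E, hE⟩ := exists_isSylowIn 2 (F.comap (mk' N))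
  have h1 := hE.map (mk' N)
  rw [map_comap_eq_self_of_surjective (mk'_surjective N)] at h1
  have h2 := h1.eq_of_le hF.isPGroup h1.le le_rfl
  obtain ⟨g, hg1, hg2⟩ := fix hN g0 hE.isPGroup
  obtain ⟨e, he, rfl⟩ : f ∈ E.map (mk' N) := h2 ▸ hf
  exact ⟨g, E, hg1, ⟨e, (hg2 e he).2 hfi⟩, hE.isPGroup, h2 ▸ hUF, hg2⟩

theorem lift0 (hN : Odd (Nat.card N)) {g0 : G ⧸ N} (hg : Re g0) : ∃ g : G, mk' N g = g0 ∧ Re g :=
  let ⟨g, _, h1, h2, _⟩ := lift hN hg IsPGroup.of_bot bot_le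
  ⟨g, h1, h2⟩

theorem card_map (hN : Odd (Nat.card N)) {D : Subgroup G} (hD : IsPGroup 2 D) :
    Nat.card (D.map (mk' N)) = Nat.card D := by
  have h : N ⊓ D = ⊥ := eq_bot_iff.2 fun a ha =>
    mem_bot.2 ((T2.of_mem hD ha.2).eq_one (odd_of_mem hN ha.1))
  rw [← relIndex_ker, ker_mk', ← inf_relIndex_right, h, relIndex_bot_left]

theorem odd_lift (hN : Odd (Nat.card N)) {x : G} (h : Odd (orderOf (mk' N x))) : Odd (orderOf x) := by
  have h1 : x ^ orderOf (mk' N x) ∈ N := by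
    rw [← eq_one_iff, ← mk'_apply, map_pow, pow_orderOf_eq_one]
  exact Odd.of_dvd_nat (h.mul (odd_of_mem hN h1))
    (orderOf_dvd_of_pow_eq_one (by rw [pow_mul, pow_orderOf_eq_one]))

omit [Finite G] in
theorem map_C1 {D : Subgroup G} {g : G} (h : D ≤ C1 g) : D.map (mk' N) ≤ C1 (mk' N g) := by
  rintro _ ⟨d, hd, rfl⟩
  rw [mem_C1, ← map_mul, mem_C1.1 (h hd), map_mul]

theorem up (h : Up Z c) (hN : Odd (Nat.card N)) : Up (Z.map (mk' N)) c where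
  cen := by
    rintro _ ⟨z, hz, rfl⟩
    refine mem_center_iff.2 fun g => ?_
    obtain ⟨g, rfl⟩ := mk'_surjective N g
    rw [← map_mul, h.comm hz, map_mul]
  sq := by
    rintro _ ⟨z, hz, rfl⟩
    rw [← map_mul, h.sq z hz, map_one]
  up g0 hg hZ U hU hUg := by
    obtain ⟨g, E, rfl, h1, h2, h3, h4⟩ := lift hN hg hU (hUg.trans (C1_le_Cs _))
    have h5 : IsPGroup 2 (E ⊓ U.comap (mk' N) : Subgroup G) := h2.to_le inf_le_left
    refine le_trans ?_ (h.up g h1 (fun e => hZ (mem_map_of_mem _ e)) _ h5 fun e he =>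
      (h4 e he.1).1 (hUg he.2))
    rw [← card_map hN h5]
    refine card_le_of_le fun u hu => ?_
    obtain ⟨e, he, rfl⟩ := h3 hu
    exact ⟨e, ⟨he, hu⟩, rfl⟩

end Q

theorem Ex.quot (h : Ex Z c) (N : Subgroup G) [N.Normal] (hN : Odd (Nat.card N)) :
    Ex (Z.map (QuotientGroup.mk' N)) c where
  toUp := Q.up h.toUp hN
  ex g0 hg hZ := by
    obtain ⟨g, rfl, h1⟩ := Q.lift0 hN hg
    obtain ⟨D, hD, hc⟩ := h.ex g h1 fun e => hZ (mem_map_of_mem _ e)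
    exact ⟨_, Q.map_C1 hD, (Q.card_map hN (pg_of_card hc)).trans hc⟩

theorem Cm.quot (h : Cm Z c) (N : Subgroup G) [N.Normal] (hN : Odd (Nat.card N)) :
    Cm (Z.map (QuotientGroup.mk' N)) c where
  toUp := Q.up h.toUp hN
  lo x0 hx h1 ho := by
    obtain ⟨x, rfl, h2⟩ := Q.lift0 hN hx
    obtain ⟨D, hD, hc⟩ := h.lo x h2 (fun e => h1 (by rw [e, map_one])) (Q.odd_lift hN ho)
    exact ⟨_, Q.map_C1 hD, (Q.card_map hN (pg_of_card hc)).trans hc⟩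
  cm x0 g0 h1 ho hx hg hgx := by
    rintro ⟨e1, he1, hi1⟩
    obtain ⟨e0, he, ht, hi⟩ := exists_T2_inv he1 hi1
    obtain ⟨x, E, rfl, h2, h3, h4, h5⟩ := Q.lift hN hx (pg_pair hg ht (mem_Cs_of_inv hi))
      (sup_le (zpowers_le.2 he) (zpowers_le.2 (C1_le_Cs _ hgx)))
    obtain ⟨e, heE, rfl⟩ := h4 (mem_sup_left (mem_zpowers _))
    obtain ⟨g, hgE, rfl⟩ := h4 (mem_sup_right (mem_zpowers _))
    refine mem_map_of_mem _ (h.cm x g (fun e => h1 (by rw [e, map_one])) (Q.odd_lift hN ho) h2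
      (T2.of_mem h3 hgE) ((h5 g hgE).1 hgx) ⟨e, ?_, eq_of_odd hN h3
        (mul_mem (mul_mem heE hgE) (inv_mem heE)) (inv_mem hgE) ?_⟩)
    · exact he.elim (fun a => C1_le_Cs _ ((h5 e heE).1 (mem_C1'.2 a))) fun a => mem_Cs_of_inv ((h5 e heE).2 a)
    · rw [← eq_one_iff, ← mk'_apply, map_mul, map_mul, map_mul, map_inv, hi, map_inv, map_inv,
        mul_inv_cancel]

theorem Goal.of_quot (N : Subgroup G) [N.Normal] (hN : Odd (Nat.card N)) (h : Goal (G ⧸ N)) : Goal G := by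
  obtain ⟨O, h1, h2, h3⟩ := h
  refine ⟨O.comap (mk' N), h1.comap _, ?_, fun x ⟨e, he⟩ ho => h3 _ ⟨mk' N e, by
    rw [← map_inv, ← map_mul, ← map_mul, he, map_inv]⟩ (Odd.of_dvd_nat ho (orderOf_map_dvd _ _))⟩
  have : Nat.card (O.comap (mk' N)) = Nat.card N * Nat.card O := card_preimage_mk N (O : Set (G ⧸ N))
  exact this ▸ hN.mul h2

theorem Goal.fin (h : Goal G) : ∃ N K : Subgroup G, N.Normal ∧ K.Normal ∧ N ≤ K ∧ Odd (Nat.card N) ∧
    Odd K.index ∧ ∃ j : ℕ, N.relIndex K = 2 ^ j := by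
  haveI : Fact (Nat.Prime 2) := ⟨Nat.prime_two⟩
  obtain ⟨O, h1, h2, h3⟩ := h
  obtain ⟨P⟩ : Nonempty (Sylow 2 (G ⧸ O)) := inferInstance
  have hP := (Cfsg.Agent.S3861.result P).1 fun x0 x1 ho hr => by
    obtain ⟨x, rfl, h4⟩ := Q.lift0 h2 (re_iff.2 hr)
    exact x1 ((eq_one_iff x).2 (h3 x h4 (Q.odd_lift h2 ho)))
  obtain ⟨j, hj⟩ := IsPGroup.iff_card.1 P.isPGroup'
  refine ⟨O, (P : Subgroup (G ⧸ O)).comap (mk' O), h1, hP.comap _, fun a ha => ?_, h2, ?_, j, ?_⟩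
  · rw [mem_comap, mk'_apply, (eq_one_iff a).2 ha]
    exact one_mem _
  · rw [index_comap_of_surjective _ (mk'_surjective O)]
    exact Nat.not_even_iff_odd.1 fun e => P.not_dvd_index e.two_dvd
  · have := relIndex_ker ((P : Subgroup (G ⧸ O)).comap (mk' O)) (mk' O)
    rwa [ker_mk', map_comap_eq_self_of_surjective (mk'_surjective O), hj] at this

theorem ex_of_hyp (a : ℕ) (h : ∀ x : G, IsConj x x⁻¹ → x ∉ Subgroup.center G →
    ((Subgroup.centralizer ({x} : Set G)).index).factorization 2 = a) : ∃ (Z : Subgroup G) (c : ℕ), Ex Z c := by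
  haveI : Fact (Nat.Prime 2) := ⟨Nat.prime_two⟩
  let Z : Subgroup G :=
    { carrier := {z | z ∈ center G ∧ z * z = 1}
      one_mem' := ⟨one_mem _, mul_one _⟩
      mul_mem' := fun {y z} hy hz => ⟨mul_mem hy.1 hz.1, by
        rw [mul_assoc, ← mul_assoc z, mem_center_iff.1 hy.1 z, mul_assoc, hz.2, mul_one, hy.2]⟩
      inv_mem' := fun {z} hz => ⟨inv_mem hz.1, by rw [← mul_inv_rev, hz.2, inv_one]⟩ }
  have key : ∀ g : G, Re g → g ∉ Z → ∃ D, IsSylowIn 2 D (C1 g) ∧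
      Nat.card D = 2 ^ ((Nat.card G).factorization 2 - a) := fun g hg hZ => by
    have h1 := h g (re_iff.1 hg) fun e => hZ ⟨e, by
      obtain ⟨v, hv⟩ := hg
      rw [mem_center_iff.1 e v, mul_inv_cancel_right] at hv
      exact mul_eq_one_iff_eq_inv.2 hv⟩
    obtain ⟨P⟩ : Nonempty (Sylow 2 (C1 g)) := inferInstance
    refine ⟨_, isSylowIn_map_sylow P, ?_⟩
    rw [card_map_of_injective (subtype_injective _), P.card_eq_multiplicity, ← (C1 g).card_mul_index,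
      Nat.factorization_mul (card_pos' _).ne' index_ne_zero_of_finite, Finsupp.add_apply, h1,
      Nat.add_sub_cancel]
  exact ⟨Z, _, ⟨fun z hz => hz.1, fun z hz => hz.2, fun g hg hZ U hU hUg =>
    let ⟨_, h1, h2⟩ := key g hg hZ; h2 ▸ h1.card_le hU hUg⟩, fun g hg hZ =>
    let ⟨D, h1, h2⟩ := key g hg hZ; ⟨D, h1.le, h2⟩⟩

end CF.Rc
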