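import Mathlib
import Cfsg.Prelude.Def_CaseTheorems
import Cfsg.Agent.Transfer.SylowIn

/-! S3860 (real class sizes with equal 2-part): definitions and small tools. -/

set_option autoImplicit false

namespace CF.Rc

open Subgroup CF.Transfer

variable {G : Type*} [Group G]

/-- `g` is real -/
def Re (g : G) : Prop := ∃ c : G, c * g * c⁻¹ = g⁻¹

/-- `g` is a 2-element -/
def T2 (g : G) : Prop := ∃ j : ℕ, orderOf g = 2 ^ j

/-- centraliser of an element -/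
abbrev C1 (x : G) : Subgroup G := centralizer ({x} : Set G)

/-- extended centraliser -/
def Cs (x : G) : Subgroup G where
  carrier := {g | g * x * g⁻¹ = x ∨ g * x * g⁻¹ = x⁻¹}
  one_mem' := Or.inl (by simp)
  mul_mem' := by
    intro g h hg hh
    have e : g * h * x * (g * h)⁻¹ = g * (h * x * h⁻¹) * g⁻¹ := by group
    have e' : g * x⁻¹ * g⁻¹ = (g * x * g⁻¹)⁻¹ := by group
    rcases hg with hg | hg <;> rcases hh with hh | hh
    · exact Or.inl (by rw [e, hh, hg])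
    · exact Or.inr (by rw [e, hh, e', hg])
    · exact Or.inr (by rw [e, hh, hg])
    · exact Or.inl (by rw [e, hh, e', hg, inv_inv])
  inv_mem' := by
    intro g hg
    rcases hg with hg | hg
    · exact Or.inl (by
        calc g⁻¹ * x * g⁻¹⁻¹ = g⁻¹ * (g * x * g⁻¹) * g := by rw [hg, inv_inv]
          _ = x := by group)
    · exact Or.inr (by
        calc g⁻¹ * x * g⁻¹⁻¹ = (g⁻¹ * x⁻¹ * g)⁻¹ := by group
          _ = (g⁻¹ * (g * x * g⁻¹) * g)⁻¹ := by rw [hg]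
          _ = x⁻¹ := by group)

/-- centraliser of `s` modulo `B` -/
def Ct (B : Subgroup G) (s : G) : Subgroup G where
  carrier := {g | g ∈ normalizer (B : Set G) ∧ g * s * g⁻¹ * s⁻¹ ∈ B}
  one_mem' := ⟨one_mem _, by simp⟩
  mul_mem' := by
    rintro g h ⟨hg, hg'⟩ ⟨hh, hh'⟩
    refine ⟨mul_mem hg hh, ?_⟩
    have e : g * h * s * (g * h)⁻¹ * s⁻¹ = g * (h * s * h⁻¹ * s⁻¹) * g⁻¹ * (g * s * g⁻¹ * s⁻¹) := by group
    rw [e]
    exact mul_mem (conj_mem_of_mem_normalizer hg hh') hg'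
  inv_mem' := by
    rintro g ⟨hg, hg'⟩
    refine ⟨inv_mem hg, ?_⟩
    have e : g⁻¹ * s * g⁻¹⁻¹ * s⁻¹ = g⁻¹ * (g * s * g⁻¹ * s⁻¹)⁻¹ * g := by group
    rw [e]
    exact inv_conj_mem_of_mem_normalizer hg (inv_mem hg')

/-- the centre of `L` as a subgroup of `G` -/
abbrev ZL (L : Subgroup G) : Subgroup G := L ⊓ centralizer (L : Set G)

/-- no nontrivial normal subgroup of odd order -/
def NO (G : Type*) [Group G] : Prop := ∀ N : Subgroup G, N.Normal → Odd (Nat.card N) → N = ⊥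

/-- all real elements of odd order lie in a normal subgroup of odd order -/
def Goal (G : Type*) [Group G] : Prop :=
  ∃ O : Subgroup G, O.Normal ∧ Odd (Nat.card O) ∧ ∀ x : G, Re x → Odd (orderOf x) → x ∈ O

/-- common part: `Z` central of exponent 2; upper bound for real elements outside `Z` -/
structure Up (Z : Subgroup G) (c : ℕ) : Prop where
  cen : Z ≤ center G
  sq : ∀ z ∈ Z, z * z = 1
  up : ∀ g : G, Re g → g ∉ Z → ∀ Q : Subgroup G, IsPGroup 2 Q → Q ≤ C1 g → Nat.card Q ≤ 2 ^ c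

/-- base class -/
structure Ba (Z : Subgroup G) (c : ℕ) : Prop extends Up Z c where
  lo : ∀ x : G, Re x → x ≠ 1 → Odd (orderOf x) → ∃ D : Subgroup G, D ≤ C1 x ∧ Nat.card D = 2 ^ c
  d1 : ∀ x v g : G, x ≠ 1 → Odd (orderOf x) → v * x * v⁻¹ = x⁻¹ → T2 g → g ∈ C1 x → g ∈ C1 v →
    (∃ e ∈ Cs x, e * g * e⁻¹ = g⁻¹) → g ∈ Z

/-- exact class (the hypothesis of S3860) -/
structure Ex (Z : Subgroup G) (c : ℕ) : Prop extends Up Z c where
  ex : ∀ g : G, Re g → g ∉ Z → ∃ D : Subgroup G, D ≤ C1 g ∧ Nat.card D = 2 ^ c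

/-- the condition (CM) -/
def CM (Z : Subgroup G) : Prop :=
  ∀ x g : G, x ≠ 1 → Odd (orderOf x) → Re x → T2 g → g ∈ C1 x → (∃ e ∈ Cs x, e * g * e⁻¹ = g⁻¹) → g ∈ Z

/-- the inductive class -/
structure Cm (Z : Subgroup G) (c : ℕ) : Prop extends Up Z c where
  lo : ∀ x : G, Re x → x ≠ 1 → Odd (orderOf x) → ∃ D : Subgroup G, D ≤ C1 x ∧ Nat.card D = 2 ^ c
  cm : CM Z

/-- a normal quasisimple subgroup whose centre is a 2-group with all involutions in `Z` -/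
structure QS (Z L : Subgroup G) : Prop where
  nor : L.Normal
  qs : Cfsg.IsQuasisimple L
  p2 : IsPGroup 2 (ZL L)
  om : ∀ ζ ∈ ZL L, ζ * ζ = 1 → ζ ∈ Z

/-- frame: `E` Sylow in the extended centraliser of the real odd element `x`, `D = C_E(x)` -/
structure Fr (c : ℕ) (x : G) (E D : Subgroup G) : Prop where
  x1 : x ≠ 1
  od : Odd (orderOf x)
  syl : IsSylowIn 2 E (Cs x)
  dE : D = E ⊓ C1 x
  cD : Nat.card D = 2 ^ c
  cE : Nat.card E = 2 ^ (c + 1)

/-- the setting of case A: `P` is Sylow in `G` and a frame for `x`, `t0 ∈ P - T` has square in `Z` -/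
structure St (Z : Subgroup G) (c : ℕ) (x t0 : G) (P T : Subgroup G) : Prop where
  ex : Ex Z c
  fr : Fr c x P T
  top : IsSylowIn 2 P ⊤
  t0P : t0 ∈ P
  t0T : t0 ∉ T
  t0Z : t0 * t0 ∈ Z

/-- the commutator map `g ↦ [g, s]` -/
def psi (s g : G) : G := g * s * g⁻¹ * s⁻¹

theorem mem_C1 {g x : G} : g ∈ C1 x ↔ g * x = x * g := mem_centralizer_singleton_iff

theorem mem_C1' {g x : G} : g ∈ C1 x ↔ g * x * g⁻¹ = x := by
  rw [mem_C1, mul_inv_eq_iff_eq_mul]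

theorem C1_symm {g x : G} (h : g ∈ C1 x) : x ∈ C1 g := mem_C1.2 (mem_C1.1 h).symm

theorem mem_Cs {g x : G} : g ∈ Cs x ↔ g * x * g⁻¹ = x ∨ g * x * g⁻¹ = x⁻¹ := Iff.rfl

theorem C1_le_Cs (x : G) : C1 x ≤ Cs x := fun _ h => Or.inl (mem_C1'.1 h)

theorem mem_Cs_of_inv {g x : G} (h : g * x * g⁻¹ = x⁻¹) : g ∈ Cs x := Or.inr h

theorem mem_Ct {B : Subgroup G} (hB : B.Normal) {s g : G} : g ∈ Ct B s ↔ g * s * g⁻¹ * s⁻¹ ∈ B :=
  ⟨fun h => h.2, fun h => ⟨by rw [normalizer_eq_top]; trivial, h⟩⟩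

theorem normal_of_le_center {Z : Subgroup G} (h : Z ≤ center G) : Z.Normal :=
  ⟨fun z hz g => by rw [mem_center_iff.1 (h hz) g, mul_inv_cancel_right]; exact hz⟩

theorem Up.nor {Z : Subgroup G} {c : ℕ} (h : Up Z c) : Z.Normal := normal_of_le_center h.cen

theorem Up.comm {Z : Subgroup G} {c : ℕ} (h : Up Z c) {z : G} (hz : z ∈ Z) (g : G) : g * z = z * g :=
  mem_center_iff.1 (h.cen hz) g

theorem Up.inv_eq {Z : Subgroup G} {c : ℕ} (h : Up Z c) {z : G} (hz : z ∈ Z) : z⁻¹ = z :=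
  inv_eq_of_mul_eq_one_right (h.sq z hz)

theorem Up.pg {Z : Subgroup G} {c : ℕ} (h : Up Z c) : IsPGroup 2 Z := fun z =>
  ⟨1, Subtype.ext (by simpa [pow_two] using h.sq z z.2)⟩

theorem C1_le_Ct {B : Subgroup G} (hB : B.Normal) (s : G) : C1 s ≤ Ct B s := fun g hg => by
  rw [mem_Ct hB, mem_C1'.1 hg, mul_inv_cancel]; exact one_mem _

theorem zl_normal (L : Subgroup G) (hL : L.Normal) : (ZL L).Normal := by
  haveI := hL
  infer_instance

theorem Re.conj {g : G} (h : Re g) (a : G) : Re (a * g * a⁻¹) := by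
  obtain ⟨c, hc⟩ := h
  exact ⟨a * c * a⁻¹, by
    calc a * c * a⁻¹ * (a * g * a⁻¹) * (a * c * a⁻¹)⁻¹ = a * (c * g * c⁻¹) * a⁻¹ := by group
      _ = _ := by rw [hc]; group⟩

theorem inv_pow' {g c : G} (h : c * g * c⁻¹ = g⁻¹) (n : ℕ) : c * g ^ n * c⁻¹ = (g ^ n)⁻¹ := by
  rw [← conj_pow, h, inv_pow]

theorem re_iff {g : G} : Re g ↔ IsConj g g⁻¹ := isConj_iff.symm

theorem T2.of_mem {P : Subgroup G} (hP : IsPGroup 2 P) {g : G} (hg : g ∈ P) : T2 g :=
  haveI : Fact (Nat.Prime 2) := ⟨Nat.prime_two⟩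
  orderOf_eq_pow_of_mem hP hg

theorem T2.pg {g : G} (h : T2 g) : IsPGroup 2 (zpowers g) :=
  haveI : Fact (Nat.Prime 2) := ⟨Nat.prime_two⟩
  isPGroup_zpowers h.choose_spec

theorem T2.of_pow {g : G} {j : ℕ} (h : g ^ 2 ^ j = 1) : T2 g := by
  obtain ⟨i, -, hi⟩ := (Nat.dvd_prime_pow Nat.prime_two).1 (orderOf_dvd_of_pow_eq_one h)
  exact ⟨i, hi⟩

theorem T2.of_sq {g : G} (h : g * g = 1) : T2 g := T2.of_pow (j := 1) (by simpa [sq] using h)

theorem T2.of_sq' {g : G} (h : T2 (g * g)) : T2 g := by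
  obtain ⟨j, hj⟩ := h
  refine T2.of_pow (j := j + 1) ?_
  rw [pow_succ', pow_mul, sq, ← hj, pow_orderOf_eq_one]

theorem T2.conj {g : G} (h : T2 g) (a : G) : T2 (a * g * a⁻¹) := by
  obtain ⟨j, hj⟩ := h
  exact ⟨j, by rw [← hj]; simpa using orderOf_injective (MulAut.conj a).toMonoidHom (MulAut.conj a).injective g⟩

theorem odd_conj {x : G} (h : Odd (orderOf x)) (a : G) : Odd (orderOf (a * x * a⁻¹)) := by
  have : orderOf (a * x * a⁻¹) = orderOf x := by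
    simpa using orderOf_injective (MulAut.conj a).toMonoidHom (MulAut.conj a).injective x
  rwa [this]

/-- an element of odd order with trivial square is trivial -/
theorem eq_one_of_odd {x : G} (h : Odd (orderOf x)) (h2 : x * x = 1) : x = 1 := by
  have h3 : orderOf x ∣ 2 := orderOf_dvd_of_pow_eq_one (by rw [sq, h2])
  rcases (Nat.dvd_prime Nat.prime_two).1 h3 with h4 | h4
  · exact orderOf_eq_one_iff.1 h4
  · rw [h4] at h; exact absurd h (by decide)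

theorem T2.eq_one {x : G} (h : T2 x) (ho : Odd (orderOf x)) : x = 1 := by
  obtain ⟨j, hj⟩ := h
  rcases j with _ | j
  · exact orderOf_eq_one_iff.1 (by simpa using hj)
  · rw [hj] at ho; exact absurd ho (by simp [Nat.odd_pow_iff])

theorem odd_of_mem [Finite G] {O : Subgroup G} (hO : Odd (Nat.card O)) {y : G} (hy : y ∈ O) :
    Odd (orderOf y) := Odd.of_dvd_nat hO (Subgroup.orderOf_dvd_natCard O hy)

/-- an element inverting and centralising an element of odd order -/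
theorem not_C1_of_inv {x v : G} (h1 : x ≠ 1) (ho : Odd (orderOf x)) (hv : v * x * v⁻¹ = x⁻¹) : v ∉ C1 x :=
  fun h => h1 (eq_one_of_odd ho (by
    rw [mem_C1'.1 h] at hv; exact mul_eq_one_iff_eq_inv.2 hv))

/-- last power of a 2-element outside `B` -/
theorem T2.exists_pow {g : G} (h : T2 g) {B : Subgroup G} (hg : g ∉ B) :
    ∃ j : ℕ, g ^ 2 ^ j ∉ B ∧ g ^ 2 ^ j * g ^ 2 ^ j ∈ B := by
  obtain ⟨n, hn⟩ := h
  by_contra hc
  push Not at hc
  have : ∀ j, g ^ 2 ^ j ∉ B := by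
    intro j
    induction j with
    | zero => simpa using hg
    | succ j ih => rw [pow_succ, pow_mul, sq]; exact hc j ih
  exact this n (by rw [← hn, pow_orderOf_eq_one]; exact one_mem _)

/-- every element `g` has an odd power which is a 2-element -/
theorem exists_odd_pow [Finite G] (g : G) : ∃ m : ℕ, Odd m ∧ T2 (g ^ m) := by
  obtain ⟨k, m, hm, e⟩ := Nat.exists_eq_two_pow_mul_odd (orderOf_pos g).ne'
  exact ⟨m, hm, T2.of_pow (j := k) (by rw [← pow_mul, mul_comm, ← e, pow_orderOf_eq_one])⟩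

/-- every element `g` has a 2-power power of odd order -/
theorem exists_two_pow [Finite G] (g : G) : ∃ k : ℕ, Odd (orderOf (g ^ 2 ^ k)) := by
  obtain ⟨k, m, hm, e⟩ := Nat.exists_eq_two_pow_mul_odd (orderOf_pos g).ne'
  exact ⟨k, Odd.of_dvd_nat hm (orderOf_dvd_of_pow_eq_one (by rw [← pow_mul, ← e, pow_orderOf_eq_one]))⟩

theorem inv_odd_pow {g c : G} (h : c * g * c⁻¹ = g⁻¹) {m : ℕ} (hm : Odd m) : c ^ m * g * (c ^ m)⁻¹ = g⁻¹ := by
  obtain ⟨k, rfl⟩ := hm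
  have h2 : c * c ∈ C1 g := by
    rw [mem_C1']
    calc c * c * g * (c * c)⁻¹ = c * (c * g * c⁻¹) * c⁻¹ := by group
      _ = c * g⁻¹ * c⁻¹ := by rw [h]
      _ = (c * g * c⁻¹)⁻¹ := by group
      _ = g := by rw [h, inv_inv]
  have h3 := mem_C1'.1 (pow_mem h2 k)
  calc c ^ (2 * k + 1) * g * (c ^ (2 * k + 1))⁻¹ = c * ((c * c) ^ k * g * ((c * c) ^ k)⁻¹) * c⁻¹ := by
        rw [← sq, ← pow_mul]; group
    _ = g⁻¹ := by rw [h3, h]

/-- an inverting element can be taken to be a 2-element of the same subgroup -/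
theorem exists_T2_inv [Finite G] {g c : G} {H : Subgroup G} (hc : c ∈ H) (h : c * g * c⁻¹ = g⁻¹) :
    ∃ e ∈ H, T2 e ∧ e * g * e⁻¹ = g⁻¹ := by
  obtain ⟨m, hm, ht⟩ := exists_odd_pow c
  exact ⟨_, pow_mem hc m, ht, inv_odd_pow h hm⟩

/-- a 2-element and a 2-element normalising its cyclic group lie in a 2-subgroup -/
theorem pg_pair [Finite G] {g e : G} (hg : T2 g) (he : T2 e) (h : e ∈ Cs g) :
    IsPGroup 2 (zpowers e ⊔ zpowers g : Subgroup G) := by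
  refine he.pg.to_sup_of_normal_right' hg.pg ?_
  rw [zpowers_le]
  refine mem_normalizer_of_cj_le ?_
  rw [cj_zpowers, zpowers_le]
  rcases h with h | h <;> rw [h]
  · exact mem_zpowers g
  · exact inv_mem (mem_zpowers g)

/-- one step up in a 2-group -/
theorem exists_step [Finite G] {U P : Subgroup G} (hP : IsPGroup 2 P) (h : U < P) :
    ∃ n ∈ P, n ∉ U ∧ n ∈ normalizer (U : Set G) ∧ n * n ∈ U := by
  haveI : Fact (Nat.Prime 2) := ⟨Nat.prime_two⟩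
  obtain ⟨m, hm, hmU⟩ := SetLike.exists_of_lt (lt_inf_normalizer_of_lt hP h)
  obtain ⟨j, h1, h2⟩ := (T2.of_mem hP hm.1).exists_pow hmU
  exact ⟨_, pow_mem hm.1 _, h1, pow_mem hm.2 _, h2⟩

/-- adjoining an element of order 2 modulo `U` -/
theorem mem_sup_step {U : Subgroup G} {n : G} (hn : n ∈ normalizer (U : Set G)) (h2 : n * n ∈ U) {g : G} :
    g ∈ U ⊔ zpowers n ↔ g ∈ U ∨ g * n⁻¹ ∈ U := by
  constructor
  · intro hg
    let K : Subgroup G :=
      { carrier := {g | g ∈ U ∨ g * n⁻¹ ∈ U}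
        one_mem' := Or.inl (one_mem _)
        mul_mem' := by
          rintro a b (ha | ha) (hb | hb)
          · exact Or.inl (mul_mem ha hb)
          · exact Or.inr (by rw [mul_assoc]; exact mul_mem ha hb)
          · refine Or.inr ?_
            have : a * b * n⁻¹ = a * n⁻¹ * (n * b * n⁻¹) := by group
            rw [this]; exact mul_mem ha (conj_mem_of_mem_normalizer hn hb)
          · refine Or.inl ?_
            have : a * b = a * n⁻¹ * (n * (b * n⁻¹) * n⁻¹) * (n * n) := by group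
            rw [this]; exact mul_mem (mul_mem ha (conj_mem_of_mem_normalizer hn hb)) h2
        inv_mem' := by
          rintro a (ha | ha)
          · exact Or.inl (inv_mem ha)
          · refine Or.inr ?_
            have : a⁻¹ * n⁻¹ = n⁻¹ * (a * n⁻¹)⁻¹ * n * (n * n)⁻¹ := by group
            rw [this]
            exact mul_mem (inv_conj_mem_of_mem_normalizer hn (inv_mem ha)) (inv_mem h2) }
    have : U ⊔ zpowers n ≤ K := sup_le (fun g hg => Or.inl hg) (zpowers_le.2 (Or.inr (by simp)))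
    exact this hg
  · rintro (h | h)
    · exact mem_sup_left h
    · have : g = g * n⁻¹ * n := by group
      rw [this]; exact mul_mem (mem_sup_left h) (mem_sup_right (mem_zpowers n))

/-- two elements outside a subgroup of index 2 -/
theorem mul_mem_of_card [Finite G] {D E : Subgroup G} (h : D ≤ E) (hc : Nat.card E = 2 * Nat.card D)
    {a b : G} (ha : a ∈ E) (hb : b ∈ E) (ha' : a ∉ D) (hb' : b ∉ D) : a * b ∈ D := by
  have hi : D.relIndex E = 2 := by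
    have := card_mul_relIndex h
    rw [hc, mul_comm] at this
    exact Nat.eq_of_mul_eq_mul_right (card_pos' D) this
  have := (Subgroup.mul_mem_iff_of_index_two (H := D.subgroupOf E) hi (a := ⟨a, ha⟩) (b := ⟨b, hb⟩)).2
    (by simp [mem_subgroupOf, ha', hb'])
  simpa [mem_subgroupOf] using this

/-- `H ∋ ℓ²` containing a Sylow 2-subgroup `S` of `K` normalised by `ℓ ∈ K` contains `ℓ` -/
theorem mem_of_sq [Finite G] {S K H : Subgroup G} (hS : IsSylowIn 2 S K) (hH : S ≤ H) {l : G} (hl : l ∈ K)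
    (hn : l ∈ normalizer (S : Set G)) (h2 : l * l ∈ H) : l ∈ H := by
  haveI : Fact (Nat.Prime 2) := ⟨Nat.prime_two⟩
  obtain ⟨m, ⟨k, rfl⟩, ht⟩ := exists_odd_pow l
  have h1 : l ^ (2 * k + 1) ∈ S := hS.le_of_le_normalizer ht.pg (zpowers_le.2 (pow_mem hl _))
    (zpowers_le.2 (pow_mem hn _)) (mem_zpowers _)
  have : l = ((l * l) ^ k)⁻¹ * l ^ (2 * k + 1) := by rw [← sq, ← pow_mul]; group
  rw [this]
  exact mul_mem (inv_mem (pow_mem h2 k)) (hH h1)

/-- square roots in odd order -/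
theorem sq_inj [Finite G] {O : Subgroup G} (hO : Odd (Nat.card O)) {a b : G} (ha : a ∈ O) (hb : b ∈ O)
    (h : a * a = b * b) : a = b := by
  obtain ⟨k, hk⟩ := hO
  have e : ∀ y ∈ O, (y * y) ^ (k + 1) = y := fun y hy => by
    have : y ^ (2 * k + 1) = 1 := by
      rw [← hk]; exact orderOf_dvd_iff_pow_eq_one.1 (Subgroup.orderOf_dvd_natCard O hy)
    rw [← sq, ← pow_mul, show 2 * (k + 1) = 2 * k + 1 + 1 by ring, pow_succ, this, one_mul]
  rw [← e a ha, ← e b hb, h]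

theorem exists_sqrt [Finite G] {O : Subgroup G} (hO : Odd (Nat.card O)) {a : G} (ha : a ∈ O) :
    ∃ k ∈ O, k * k = a := by
  obtain ⟨k, hk⟩ := hO
  refine ⟨a ^ (k + 1), pow_mem ha _, ?_⟩
  have : a ^ (2 * k + 1) = 1 := by
    rw [← hk]; exact orderOf_dvd_iff_pow_eq_one.1 (Subgroup.orderOf_dvd_natCard O ha)
  rw [← pow_add, show k + 1 + (k + 1) = 2 * k + 1 + 1 by ring, pow_succ, this, one_mul]

/-- four-group acting on a group of odd order -/
theorem four [Finite G] {O : Subgroup G} (hO : Odd (Nat.card O)) {a b x : G}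
    (ha : a ∈ normalizer (O : Set G)) (hb : b ∈ normalizer (O : Set G))
    (hbb : ∀ y ∈ O, b * b ∈ C1 y) (hab : ∀ y ∈ O, a⁻¹ * b⁻¹ * a * b ∈ C1 y)
    (hx : x ∈ O) (h1 : x ≠ 1) (hi : a * x * a⁻¹ = x⁻¹) :
    ∃ y ∈ O, y ≠ 1 ∧ a * y * a⁻¹ = y⁻¹ ∧ (b ∈ C1 y ∨ a * b ∈ C1 y) := by
  set x' := b * x * b⁻¹ with hx'
  have hxO : x' ∈ O := conj_mem_of_mem_normalizer hb hx
  have hi' : a * x' * a⁻¹ = x'⁻¹ := by
    have := mem_C1'.1 (hab x hx)
    calc a * x' * a⁻¹ = b * a * (a⁻¹ * b⁻¹ * a * b * x * (a⁻¹ * b⁻¹ * a * b)⁻¹) * a⁻¹ * b⁻¹ := by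
          rw [hx']; group
      _ = b * (a * x * a⁻¹) * b⁻¹ := by rw [this]; group
      _ = _ := by rw [hi, hx']; group
  have hb2 : b * x' * b⁻¹ = x := by
    have := mem_C1'.1 (hbb x hx)
    calc b * x' * b⁻¹ = b * b * x * (b * b)⁻¹ := by rw [hx']; group
      _ = x := this
  obtain ⟨k, hk, hkk⟩ := exists_sqrt hO (mul_mem (inv_mem hx) hxO)
  have hak : a * k * a⁻¹ = x * k⁻¹ * x⁻¹ := by
    refine sq_inj hO (conj_mem_of_mem_normalizer ha hk) (mul_mem (mul_mem hx (inv_mem hk)) (inv_mem hx)) ?_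
    calc a * k * a⁻¹ * (a * k * a⁻¹) = a * (k * k) * a⁻¹ := by group
      _ = (a * x * a⁻¹)⁻¹ * (a * x' * a⁻¹) := by rw [hkk]; group
      _ = x * (k * k)⁻¹ * x⁻¹ := by rw [hi, hi', hkk]; group
      _ = _ := by group
  have hbk : b * k * b⁻¹ = k⁻¹ := by
    refine sq_inj hO (conj_mem_of_mem_normalizer hb hk) (inv_mem hk) ?_
    calc b * k * b⁻¹ * (b * k * b⁻¹) = b * (k * k) * b⁻¹ := by group
      _ = (b * x * b⁻¹)⁻¹ * (b * x' * b⁻¹) := by rw [hkk]; group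
      _ = (k * k)⁻¹ := by rw [hb2, ← hx', hkk]; group
      _ = _ := by group
  have hx2 : x' = x * (k * k) := by rw [hkk]; group
  by_cases hm : x * k = 1
  · refine ⟨x, hx, h1, hi, Or.inr (mem_C1'.2 ?_)⟩
    have hk1 : k = x⁻¹ := eq_inv_of_mul_eq_one_right hm
    calc a * b * x * (a * b)⁻¹ = a * x' * a⁻¹ := by rw [hx']; group
      _ = x := by rw [hi', hx2, hk1]; group
  · refine ⟨x * k, mul_mem hx hk, hm, ?_, Or.inl (mem_C1'.2 ?_)⟩
    · calc a * (x * k) * a⁻¹ = (a * x * a⁻¹) * (a * k * a⁻¹) := by group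
        _ = _ := by rw [hi, hak]; group
    · calc b * (x * k) * b⁻¹ = x' * (b * k * b⁻¹) := by rw [hx']; group
        _ = _ := by rw [hbk, hx2]; group

/-- `a` with `a²` centralising `y` inverts `y⁻¹ · a y a⁻¹` -/
theorem inv_comm {a y : G} (h : a * a ∈ C1 y) :
    a * (y⁻¹ * (a * y * a⁻¹)) * a⁻¹ = (y⁻¹ * (a * y * a⁻¹))⁻¹ := by
  have := mem_C1'.1 h
  calc a * (y⁻¹ * (a * y * a⁻¹)) * a⁻¹ = (a * y * a⁻¹)⁻¹ * (a * a * y * (a * a)⁻¹) := by group
    _ = _ := by rw [this]; group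

theorem psi_def (s g : G) : psi s g = g * s * g⁻¹ * s⁻¹ := rfl

theorem conj_eq_psi (s g : G) : g * s * g⁻¹ = psi s g * s := by rw [psi_def]; group

theorem psi_eq_one {s g : G} : psi s g = 1 ↔ g ∈ C1 s := by
  rw [psi_def, mul_inv_eq_one, mem_C1']

theorem psi_mul {Z : Subgroup G} (hZ : Z ≤ center G) {s h : G} (g : G) (hh : h ∈ Ct Z s) :
    psi s (g * h) = psi s g * psi s h := by
  have := mem_center_iff.1 (hZ hh.2)
  calc psi s (g * h) = g * (h * s * h⁻¹ * s⁻¹) * (s * g⁻¹ * s⁻¹) := by rw [psi_def]; group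
    _ = g * ((s * g⁻¹ * s⁻¹) * (h * s * h⁻¹ * s⁻¹)) := by rw [mul_assoc g, this]
    _ = _ := by rw [psi_def, psi_def]; group

theorem Up.mem_Ct {Z : Subgroup G} {c : ℕ} (h : Up Z c) {s g : G} : g ∈ Ct Z s ↔ psi s g ∈ Z :=
  CF.Rc.mem_Ct h.nor

theorem Up.psi_odd_pow {Z : Subgroup G} {c : ℕ} (h : Up Z c) {s g : G} (hg : g ∈ Ct Z s) {m : ℕ} (hm : Odd m) :
    psi s (g ^ m) = psi s g := by
  obtain ⟨k, rfl⟩ := hm
  have h2 : g * g ∈ C1 s := by rw [← psi_eq_one, psi_mul h.cen g hg]; exact h.sq _ hg.2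
  rw [pow_succ, psi_mul h.cen _ hg, pow_mul, pow_two, psi_eq_one.2 (pow_mem h2 k), one_mul]

theorem Up.psi_inv {Z : Subgroup G} {c : ℕ} (h : Up Z c) {s g : G} (hg : g ∈ Ct Z s) : psi s g⁻¹ = psi s g := by
  have := psi_mul h.cen g⁻¹ hg
  rw [inv_mul_cancel, psi_eq_one.2 (one_mem _)] at this
  rw [eq_inv_of_mul_eq_one_left this.symm]; exact h.inv_eq hg.2

theorem Up.psi_conj {Z : Subgroup G} {c : ℕ} (h : Up Z c) {s g a : G} (hg : g ∈ Ct Z s) (ha : a ∈ Ct Z s) :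
    psi s (a * g * a⁻¹) = psi s g := by
  rw [psi_mul h.cen _ (inv_mem ha), psi_mul h.cen _ hg, h.psi_inv ha, h.comm (h.mem_Ct.1 hg), mul_assoc,
    h.sq _ (h.mem_Ct.1 ha), mul_one]

/-- transport of `psi` along a conjugation -/
theorem Up.psi_cj {Z : Subgroup G} {c : ℕ} (h : Up Z c) {s g : G} (a : G) (hg : g ∈ Ct Z s) :
    psi (a * s * a⁻¹) (a * g * a⁻¹) = psi s g := by
  calc psi (a * s * a⁻¹) (a * g * a⁻¹) = a * psi s g * a⁻¹ := by rw [psi_def, psi_def]; group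
    _ = _ := by rw [h.comm (h.mem_Ct.1 hg), mul_inv_cancel_right]

/-- elements of odd order centralising `s` modulo `Z` centralise `s` -/
theorem Up.C1_of_odd {Z : Subgroup G} {c : ℕ} (h : Up Z c) {s g : G} (hg : g ∈ Ct Z s) (ho : Odd (orderOf g)) :
    g ∈ C1 s := by
  rw [← psi_eq_one, ← h.psi_odd_pow hg ho, pow_orderOf_eq_one, psi_eq_one]; exact one_mem _

/-- the values of `psi` are taken on a Sylow subgroup -/
theorem Up.psi_surj [Finite G] {Z : Subgroup G} {c : ℕ} (h : Up Z c) {s g : G} {P Y : Subgroup G}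
    (hP : IsSylowIn 2 P Y) (hY : Y ≤ Ct Z s) (hg : g ∈ Y) : ∃ p ∈ P, psi s p = psi s g := by
  haveI : Fact (Nat.Prime 2) := ⟨Nat.prime_two⟩
  obtain ⟨m, hm, ht⟩ := exists_odd_pow g
  obtain ⟨a, ha, hc⟩ := hP.exists_cj_le ht.pg (zpowers_le.2 (pow_mem hg m))
  exact ⟨_, hc (conj_mem_cj (mem_zpowers _)), by
    rw [h.psi_conj (hY (pow_mem hg m)) (hY ha), h.psi_odd_pow (hY hg) hm]⟩

/-- a real `s` with square in `Z` is inverted in every Sylow subgroup of `Ct Z s` -/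
theorem Up.real_in [Finite G] {Z : Subgroup G} {c : ℕ} (h : Up Z c) {s : G} {P : Subgroup G}
    (hP : IsSylowIn 2 P (Ct Z s)) (hs : Re s) (h2 : s * s ∈ Z) : ∃ p ∈ P, p * s * p⁻¹ = s⁻¹ := by
  obtain ⟨g, hg⟩ := hs
  have hgC : g ∈ Ct Z s := h.mem_Ct.2 (by rw [psi_def, hg, ← mul_inv_rev]; exact inv_mem h2)
  obtain ⟨p, hp, e⟩ := h.psi_surj hP le_rfl hgC
  exact ⟨p, hp, by rw [conj_eq_psi, e, ← conj_eq_psi, hg]⟩

theorem Up.not_mem_of_odd {Z : Subgroup G} {c : ℕ} (h : Up Z c) {x : G} (h1 : x ≠ 1) (ho : Odd (orderOf x)) :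
    x ∉ Z := fun hx => h1 (eq_one_of_odd ho (h.sq x hx))

theorem Up.T2_of_sq {Z : Subgroup G} {c : ℕ} (h : Up Z c) {s : G} (h2 : s * s ∈ Z) : T2 s :=
  (T2.of_sq (h.sq _ h2)).of_sq'

/-- the basic computation: `a² = b² ∈ Z`, `[a,b] ∈ Z`: then `(ab)² ∈ Z` and `a` inverts `ab` -/
theorem Up.pair {Z : Subgroup G} {c : ℕ} (h : Up Z c) {a b : G} (ha : a * a ∈ Z) (hb : b * b = a * a)
    (hab : b ∈ Ct Z a) : a * b * (a * b) ∈ Z ∧ a * (a * b) * a⁻¹ = (a * b)⁻¹ := by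
  have e1 : b⁻¹ = a * a * b := by
    rw [← hb, inv_eq_iff_mul_eq_one, show b * (b * b * b) = b * b * (b * b) by group, hb]; exact h.sq _ ha
  refine ⟨?_, by rw [mul_inv_rev, e1]; group⟩
  have e2 : a * b * (a * b) = a * (psi a b * a) * (b * b) := by rw [← conj_eq_psi]; group
  rw [e2, ← mul_assoc a, h.comm (h.mem_Ct.1 hab), mul_assoc (psi a b), hb]
  exact mul_mem (mul_mem hab.2 ha) ha

theorem Cs_le_normalizer (x : G) : Cs x ≤ normalizer (C1 x : Set G) := fun g hg => by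
  have key : ∀ g ∈ Cs x, ∀ y ∈ C1 x, g * y * g⁻¹ ∈ C1 x := fun g hg y hy => by
    have hy' := mem_C1'.1 hy
    rw [mem_C1']
    rcases inv_mem hg with h | h <;> rw [inv_inv] at h
    · calc g * y * g⁻¹ * x * (g * y * g⁻¹)⁻¹ = g * (y * (g⁻¹ * x * g) * y⁻¹) * g⁻¹ := by group
        _ = g * (g⁻¹ * x * g) * g⁻¹ := by rw [h, hy']
        _ = x := by group
    · calc g * y * g⁻¹ * x * (g * y * g⁻¹)⁻¹ = g * (y * (g⁻¹ * x * g) * y⁻¹) * g⁻¹ := by group
        _ = g * (y * x * y⁻¹)⁻¹ * g⁻¹ := by rw [h]; group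
        _ = g * (g⁻¹ * x * g) * g⁻¹ := by rw [h, hy']
        _ = x := by group
  rw [mem_normalizer_iff]
  refine fun y => ⟨key g hg y, fun hy => ?_⟩
  have := key g⁻¹ (inv_mem hg) _ hy
  rwa [show g⁻¹ * (g * y * g⁻¹) * g⁻¹⁻¹ = y by group] at this

theorem conj_inv_of_Cs {x v a : G} (ha : a ∈ Cs x) (hv : v * x * v⁻¹ = x⁻¹) :
    a * v * a⁻¹ * x * (a * v * a⁻¹)⁻¹ = x⁻¹ := by
  rcases inv_mem ha with h | h <;> rw [inv_inv] at h
  · calc a * v * a⁻¹ * x * (a * v * a⁻¹)⁻¹ = a * (v * (a⁻¹ * x * a) * v⁻¹) * a⁻¹ := by group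
      _ = (a * (a⁻¹ * x * a) * a⁻¹)⁻¹ := by rw [h, hv]; group
      _ = x⁻¹ := by group
  · calc a * v * a⁻¹ * x * (a * v * a⁻¹)⁻¹ = a * (v * (a⁻¹ * x * a) * v⁻¹) * a⁻¹ := by group
      _ = a * (v * x * v⁻¹)⁻¹ * a⁻¹ := by rw [h]; group
      _ = (a * (a⁻¹ * x * a) * a⁻¹)⁻¹ := by rw [h, hv]; group
      _ = x⁻¹ := by group

/-- a Sylow subgroup of `H ≤ Cs x` contains an inverting element if `H` does -/
theorem exists_inv_in [Finite G] {x v : G} {E H : Subgroup G} (hE : IsSylowIn 2 E H) (hH : H ≤ Cs x)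
    (hv : v ∈ H) (hi : v * x * v⁻¹ = x⁻¹) : ∃ e ∈ E, e * x * e⁻¹ = x⁻¹ := by
  haveI : Fact (Nat.Prime 2) := ⟨Nat.prime_two⟩
  obtain ⟨e, he, ht, hi'⟩ := exists_T2_inv hv hi
  obtain ⟨a, ha, hc⟩ := hE.exists_cj_le ht.pg (zpowers_le.2 he)
  exact ⟨_, hc (conj_mem_cj (mem_zpowers _)), conj_inv_of_Cs (hH ha) hi'⟩

theorem pg_of_card {D : Subgroup G} {c : ℕ} (h : Nat.card D = 2 ^ c) : IsPGroup 2 D := IsPGroup.of_card h

theorem Ex.ba [Finite G] {Z : Subgroup G} {c : ℕ} (h : Ex Z c) : Ba Z c where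
  toUp := h.toUp
  lo x hx h1 ho := h.ex x hx (h.not_mem_of_odd h1 ho)
  d1 x v g h1 ho hv hg hgx hgv := by
    haveI : Fact (Nat.Prime 2) := ⟨Nat.prime_two⟩
    rintro ⟨e, he, heg⟩
    by_contra hZ
    have hc := mem_C1.1 hgx
    have hre : Re (g * x) := by
      rcases he with he | he
      · refine ⟨v * e, ?_⟩
        calc v * e * (g * x) * (v * e)⁻¹ = v * (e * g * e⁻¹) * v⁻¹ * (v * (e * x * e⁻¹) * v⁻¹) := by group
          _ = (v * g * v⁻¹)⁻¹ * x⁻¹ := by rw [heg, he, hv]; group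
          _ = _ := by rw [mem_C1'.1 (C1_symm hgv), hc]; group
      · refine ⟨e, ?_⟩
        calc e * (g * x) * e⁻¹ = e * g * e⁻¹ * (e * x * e⁻¹) := by group
          _ = _ := by rw [heg, he, hc]; group
    obtain ⟨j, hj⟩ := hg
    have hcop : (orderOf g).Coprime (orderOf x) := by
      rw [hj]; exact Nat.Coprime.pow_left _ (Nat.coprime_two_left.2 ho)
    have hco : Commute g x := hc
    have hx : x ∈ zpowers (g * x) := by
      have h3 : (g * x) ^ orderOf g = x ^ orderOf g := by rw [hco.mul_pow, pow_orderOf_eq_one, one_mul]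
      have h4 : x ∈ zpowers (x ^ orderOf g) := mem_zpowers_pow_iff.2 hcop
      rw [← h3] at h4
      exact zpowers_le.2 (pow_mem (mem_zpowers _) _) h4
    have hy : g * x ∉ Z := fun hy => h.not_mem_of_odd h1 ho (zpowers_le.2 hy hx)
    obtain ⟨D, hD, hDc⟩ := h.ex _ hre hy
    have hDx : D ≤ C1 x := fun d hd => C1_symm (zpowers_le.2 (C1_symm (hD hd)) hx)
    have hDg : D ≤ C1 g := fun d hd => C1_symm (by
      have := mul_mem (C1_symm (hD hd)) (inv_mem (C1_symm (hDx hd)))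
      rwa [mul_inv_cancel_right] at this)
    obtain ⟨E, hDE, hE⟩ := exists_isSylowIn_ge (pg_of_card hDc) (le_inf hDg (hDx.trans (C1_le_Cs x)))
    obtain ⟨f, hf, hfi⟩ := exists_inv_in hE inf_le_right ⟨C1_symm hgv, mem_Cs_of_inv hv⟩ hv
    have hlt : D < E := lt_of_le_of_ne hDE fun e => not_C1_of_inv h1 ho hfi (hDx (e ▸ hf))
    have := h.up g ⟨e, heg⟩ hZ E hE.isPGroup (hE.le.trans inf_le_left)
    exact absurd (card_lt_of_lt hlt) (by omega)

theorem Cm.ba {Z : Subgroup G} {c : ℕ} (h : Cm Z c) : Ba Z c where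
  toUp := h.toUp
  lo := h.lo
  d1 x v g h1 ho hv hg hgx _ he := h.cm x g h1 ho ⟨v, hv⟩ hg hgx he

/-- every 2-subgroup of `Cs x` lies in a frame -/
theorem Ba.exists_fr [Finite G] {Z : Subgroup G} {c : ℕ} (h : Ba Z c) {x : G} (hx : Re x) (h1 : x ≠ 1)
    (ho : Odd (orderOf x)) {Q : Subgroup G} (hQ : IsPGroup 2 Q) (hQx : Q ≤ Cs x) :
    ∃ E D : Subgroup G, Q ≤ E ∧ Fr c x E D := by
  haveI : Fact (Nat.Prime 2) := ⟨Nat.prime_two⟩
  obtain ⟨E, hQE, hE⟩ := exists_isSylowIn_ge hQ hQx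
  have hD := hE.inf_of_normalized (C1_le_Cs x) (Cs_le_normalizer x)
  obtain ⟨D0, hD0, hc0⟩ := h.lo x hx h1 ho
  have hc : Nat.card (E ⊓ C1 x : Subgroup G) = 2 ^ c :=
    le_antisymm (h.up x hx (h.not_mem_of_odd h1 ho) _ hD.isPGroup hD.le) (hc0 ▸ hD.card_le (pg_of_card hc0) hD0)
  refine ⟨E, _, hQE, h1, ho, hE, rfl, hc, ?_⟩
  obtain ⟨v, hv⟩ := hx
  obtain ⟨e, he, hei⟩ := exists_inv_in hE le_rfl (mem_Cs_of_inv hv) hv
  have hi : (E ⊓ C1 x).relIndex E = 2 := by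
    rw [inf_relIndex_left, relIndex, index_eq_two_iff]
    refine ⟨⟨e, he⟩, fun b => ?_⟩
    simp only [mem_subgroupOf, coe_mul]
    have hne := not_C1_of_inv h1 ho hei
    rcases hE.le b.2 with hb | hb
    · exact Or.inr ⟨mem_C1'.2 hb, fun h' => hne (by
        simpa using mul_mem (inv_mem (mem_C1'.2 hb)) h')⟩
    · refine Or.inl ⟨mem_C1'.2 ?_, not_C1_of_inv h1 ho hb⟩
      calc (b : G) * e * x * ((b : G) * e)⁻¹ = ((b : G) * (e * x * e⁻¹)⁻¹ * (b : G)⁻¹)⁻¹ := by group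
        _ = x := by rw [hei, inv_inv, hb, inv_inv]
  rw [← card_mul_relIndex (inf_le_left : E ⊓ C1 x ≤ E), hi, hc, pow_succ]

namespace Fr

variable {c : ℕ} {x : G} {E D : Subgroup G}

theorem le (h : Fr c x E D) : D ≤ E := h.dE ▸ inf_le_left
theorem cen (h : Fr c x E D) : D ≤ C1 x := h.dE ▸ inf_le_right
theorem mem (h : Fr c x E D) {g : G} (hg : g ∈ E) (hx : g ∈ C1 x) : g ∈ D := h.dE ▸ ⟨hg, hx⟩
theorem pgE (h : Fr c x E D) : IsPGroup 2 E := h.syl.isPGroup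
theorem pgD (h : Fr c x E D) : IsPGroup 2 D := h.pgE.to_le h.le
theorem card2 (h : Fr c x E D) : Nat.card E = 2 * Nat.card D := by rw [h.cE, h.cD, pow_succ']
theorem inv (h : Fr c x E D) {v : G} (hv : v ∈ E) (hD : v ∉ D) : v * x * v⁻¹ = x⁻¹ :=
  (h.syl.le hv).resolve_left fun h' => hD (h.mem hv (mem_C1'.2 h'))
theorem not_mem (h : Fr c x E D) {v : G} (hv : v * x * v⁻¹ = x⁻¹) : v ∉ D :=
  fun h' => not_C1_of_inv h.x1 h.od hv (h.cen h')
theorem conj_mem (h : Fr c x E D) {e d : G} (he : e ∈ E) (hd : d ∈ D) : e * d * e⁻¹ ∈ D :=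
  h.mem (mul_mem (mul_mem he (h.le hd)) (inv_mem he))
    (conj_mem_of_mem_normalizer (Cs_le_normalizer x (h.syl.le he)) (h.cen hd))
theorem mul_mem [Finite G] (h : Fr c x E D) {a b : G} (ha : a ∈ E) (hb : b ∈ E) (ha' : a ∉ D) (hb' : b ∉ D) :
    a * b ∈ D := mul_mem_of_card h.le h.card2 ha hb ha' hb'
theorem exists_not [Finite G] (h : Fr c x E D) : ∃ e ∈ E, e ∉ D := by
  refine SetLike.exists_of_lt (lt_of_le_of_ne h.le fun e => ?_)
  have := h.card2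
  have := card_pos' D
  rw [← e] at *; omega
theorem re [Finite G] (h : Fr c x E D) : Re x := by
  obtain ⟨e, he, he'⟩ := h.exists_not
  exact ⟨e, h.inv he he'⟩
/-- normal 2-subgroups centralising `x` lie in `D` -/
theorem le_of_normal [Finite G] (h : Fr c x E D) {B : Subgroup G} (hB : B.Normal) (h2 : IsPGroup 2 B)
    (hx : B ≤ C1 x) : B ≤ D := by
  haveI : Fact (Nat.Prime 2) := ⟨Nat.prime_two⟩
  have := h.syl.le_of_normalized h2 (hx.trans (C1_le_Cs x)) (by rw [normalizer_eq_top]; exact le_top)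
  exact fun b hb => h.mem (this hb) (hx hb)

end Fr

/-- condition (D1) inside a frame -/
theorem Ba.d1' [Finite G] {Z : Subgroup G} {c : ℕ} (h : Ba Z c) {x : G} {E D : Subgroup G} (hf : Fr c x E D)
    {v g e : G} (hv : v ∈ E) (hv' : v ∉ D) (hg : g ∈ D) (hc : v ∈ C1 g) (he : e ∈ E) (hi : e * g * e⁻¹ = g⁻¹) :
    g ∈ Z :=
  h.d1 x v g hf.x1 hf.od (hf.inv hv hv') (T2.of_mem hf.pgD hg) (hf.cen hg) (C1_symm hc) ⟨e, hf.syl.le he, hi⟩

theorem Up.inf_le_zl {Z : Subgroup G} {c : ℕ} (h : Up Z c) {L : Subgroup G} {z : G} (hz : z ∈ Z) (hL : z ∈ L) :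
    z ∈ ZL L := ⟨hL, fun g _ => h.comm hz g⟩

theorem zl_comm {L : Subgroup G} {z g : G} (hz : z ∈ ZL L) (hg : g ∈ L) : g * z = z * g := hz.2 g hg

/-- counting modulo a normal subgroup -/
theorem cnt [Finite G] {L S P D : Subgroup G} (hL : L.Normal) (hS : IsSylowIn 2 S L) (hP : IsSylowIn 2 P ⊤)
    (hD : IsPGroup 2 D) : Nat.card S * Nat.card D ≤ Nat.card P * Nat.card (D ⊓ L : Subgroup G) := by
  haveI : Fact (Nat.Prime 2) := ⟨Nat.prime_two⟩
  obtain ⟨P', hDP, hP'⟩ := exists_isSylowIn_ge hD le_top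
  have hS' := hP'.inf_of_normalized (N := L) le_top (by rw [normalizer_eq_top])
  have e1 := card_mul_relIndex (inf_le_left : D ⊓ L ≤ D)
  have e2 := card_mul_relIndex (inf_le_left : P' ⊓ L ≤ P')
  rw [inf_relIndex_left] at e1 e2
  have e3 : L.relIndex D ≤ L.relIndex P' := relIndex_le_of_le_right hDP (relIndex_ne_zero' _ _)
  rw [hS.card_eq hS', hP.card_eq hP', ← e1, ← e2]
  calc _ = Nat.card (P' ⊓ L : Subgroup G) * L.relIndex D * Nat.card (D ⊓ L : Subgroup G) := by ring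
    _ ≤ _ := Nat.mul_le_mul_right _ (Nat.mul_le_mul_left _ e3)

/-- Lemma E: making `s` central modulo `Z` in the 2-group `P` -/
theorem Up.exists_central [Finite G] {Z : Subgroup G} {c : ℕ} (h : Up Z c) {P A B : Subgroup G}
    (hP : IsPGroup 2 P) (hA : P ≤ normalizer (A : Set G)) (hB : ∀ b ∈ B, ∀ a ∈ A, a * b = b * a)
    (hB2 : ∀ b ∈ B, b * b = 1 → b ∈ Z) {s0 : G} (h0A : s0 ∈ A) (h0P : s0 ∈ P) (h0B : s0 ∉ B) (h02 : s0 * s0 ∈ Z) :
    ∃ s ∈ A, s ∈ P ∧ s ∉ B ∧ s * s ∈ Z ∧ P ≤ Ct Z s ∧ ((∃ p ∈ P, p * s * p⁻¹ = s⁻¹) ∨ s = s0) := by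
  have key : ∀ U : Subgroup G, ∀ s ∈ A, s ∈ P → s ∉ B → s * s ∈ Z → ((∃ p ∈ P, p * s * p⁻¹ = s⁻¹) ∨ s = s0) →
      U = P ⊓ Ct Z s → ∃ s ∈ A, s ∈ P ∧ s ∉ B ∧ s * s ∈ Z ∧ P ≤ Ct Z s ∧ ((∃ p ∈ P, p * s * p⁻¹ = s⁻¹) ∨ s = s0) := by
    intro U
    induction U using WellFoundedGT.induction with
    | ind U ih =>
    intro s hA' hP' hB' h2 hr hU
    rcases (show U ≤ P from hU ▸ inf_le_left).eq_or_lt with e | hlt
    · exact ⟨s, hA', hP', hB', h2, e ▸ hU ▸ inf_le_right, hr⟩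
    obtain ⟨n, hn, hnU, hnN, hn2⟩ := exists_step hP hlt
    have hsU : s ∈ U := hU ▸ ⟨hP', C1_le_Ct h.nor s (mem_C1.2 rfl)⟩
    have hUC : U ≤ Ct Z s := hU ▸ inf_le_right
    have htU : n * s * n⁻¹ ∈ U := conj_mem_of_mem_normalizer hnN hsU
    have ht2 : n * s * n⁻¹ * (n * s * n⁻¹) = s * s := by
      calc _ = n * (s * s) * n⁻¹ := by group
        _ = _ := by rw [h.comm h2, mul_inv_cancel_right]
    obtain ⟨q2, qi⟩ := h.pair h2 ht2 (hUC htU)
    have hqA : s * (n * s * n⁻¹) ∈ A := mul_mem hA' (conj_mem_of_mem_normalizer (hA hn) hA')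
    have hqZ : s * (n * s * n⁻¹) ∉ Z := fun hq => hnU (hU ▸ ⟨hn, h.mem_Ct.2 (by
      have : psi s n = s⁻¹ * (s * (n * s * n⁻¹)) * s⁻¹ := by rw [psi_def]; group
      rw [this, h.comm hq, mul_assoc, ← mul_inv_rev]
      exact mul_mem hq (inv_mem h2))⟩)
    refine ih (P ⊓ Ct Z (s * (n * s * n⁻¹))) ?_ _ hqA (mul_mem hP' (hlt.le htU)) (fun hq => hqZ (hB2 _ hq ?_)) q2
      (Or.inl ⟨s, hP', qi⟩) rfl
    · refine lt_of_le_of_ne (le_inf hlt.le fun u hu => h.mem_Ct.2 ?_) fun e => hnU (e ▸ ⟨hn, h.mem_Ct.2 ?_⟩)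
      · have h3 := hUC (inv_conj_mem_of_mem_normalizer hnN hu)
        have h4 := h.psi_cj n h3
        rw [show n * (n⁻¹ * u * n) * n⁻¹ = u by group] at h4
        have : psi (s * (n * s * n⁻¹)) u = psi s u * (s * psi (n * s * n⁻¹) u * s⁻¹) := by
          simp only [psi_def]; group
        rw [this, h4]
        exact mul_mem (hUC hu).2 (h.nor.conj_mem _ h3.2 s)
      · have : psi (s * (n * s * n⁻¹)) n =
            n * s * n⁻¹ * psi s (n * n) * (n * s * n⁻¹)⁻¹ * psi s (n * s * n⁻¹) := by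
          simp only [psi_def]; group
        rw [this]
        exact mul_mem (h.nor.conj_mem _ (hUC hn2).2 _) (hUC htU).2
    · rw [hB _ hq s hA', mul_inv_cancel_right] at qi
      exact mul_eq_one_iff_eq_inv.2 qi
  exact key _ s0 h0A h0P h0B h02 (Or.inr rfl) rfl

end CF.Rc
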