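import Cfsg.Agent.Rc.R0
import Cfsg.Agent.Transfer.Frobenius
import Cfsg.Agent.S3861
import Cfsg.Agent.S3862

/-! S3860: S3861 and S3862 inside a subgroup. -/

set_option autoImplicit false

namespace CF.Rc

open Subgroup CF.Transfer

variable {G : Type*} [Group G] [Finite G]

/-- S3862 in the subgroup `H`: the elements of odd order of `H` form a subgroup `O` with `H / O` a 2-group -/
theorem npc_in (H : Subgroup G)
    (h : ∀ u ∈ H, T2 u → (∃ e ∈ H, e * u * e⁻¹ = u⁻¹) → ∀ k ∈ H, k * u = u * k) :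
    ∃ O : Subgroup G, O ≤ H ∧ normalizer (H : Set G) ≤ normalizer (O : Set G) ∧ Odd (Nat.card O) ∧
      (∀ y ∈ H, Odd (orderOf y) → y ∈ O) ∧ ∃ k : ℕ, O.relIndex H = 2 ^ k := by
  haveI : Fact (Nat.Prime 2) := ⟨Nat.prime_two⟩
  have h1 : Cfsg.HasNormalPComplement 2 H := Cfsg.Agent.S3862.result fun x hx hr => by
    obtain ⟨e, he⟩ := isConj_iff.1 hr
    rw [mem_center_iff]
    intro k
    refine Subtype.ext (h x x.2 ?_ ⟨e, e.2, by simpa using congrArg Subtype.val he⟩ k k.2)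
    obtain ⟨j, hj⟩ := hx
    exact ⟨j, by rw [← hj, Subgroup.orderOf_coe]⟩
  obtain ⟨N, hNn, hNc, k, hk⟩ := hasNPC_iff_exists_normal.mp h1
  have hodd : Odd (Nat.card (N.map H.subtype)) := by
    rw [card_map_of_injective H.subtype_injective]; exact Nat.coprime_two_right.mp hNc
  have hall : ∀ y ∈ H, Odd (orderOf y) → y ∈ N.map H.subtype := fun y hy ho => by
    refine ⟨⟨y, hy⟩, ?_, rfl⟩
    have h2 : T2 (QuotientGroup.mk' N ⟨y, hy⟩) := T2.of_pow (j := k) (by
      rw [← hk]; exact pow_card_eq_one')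
    have h3 : Odd (orderOf (QuotientGroup.mk' N ⟨y, hy⟩)) :=
      Odd.of_dvd_nat (by rwa [← Subgroup.orderOf_coe]) (orderOf_map_dvd _ _)
    simpa using h2.eq_one h3
  refine ⟨N.map H.subtype, map_subtype_le N, fun g hg => mem_normalizer_of_cj_le (cj_le_iff_forall.2 fun y hy =>
    hall _ (conj_mem_of_mem_normalizer hg (map_subtype_le N hy)) (odd_conj (odd_of_mem hodd hy) g)), hodd, hall, k, ?_⟩
  rw [relIndex, ← hk, subgroupOf, comap_map_eq_self_of_injective H.subtype_injective]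

/-- S3861 in the subgroup `H` -/
theorem closed_in {H S : Subgroup G} (hS : IsSylowIn 2 S H)
    (h : ∀ y ∈ H, Odd (orderOf y) → (∃ e ∈ H, e * y * e⁻¹ = y⁻¹) → y = 1) : H ≤ normalizer (S : Set G) := by
  haveI : Fact (Nat.Prime 2) := ⟨Nat.prime_two⟩
  obtain ⟨P, rfl⟩ := isSylowIn_iff_exists_sylow.1 hS
  have hn : (P : Subgroup H).Normal := (Cfsg.Agent.S3861.result P).1 fun x h1 ho hr => by
    obtain ⟨e, he⟩ := isConj_iff.1 hr
    exact h1 (Subtype.ext (h x x.2 (by rwa [Subgroup.orderOf_coe]) ⟨e, e.2, by simpa using congrArg Subtype.val he⟩))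
  intro g hg
  refine mem_normalizer_of_cj_le (cj_le_iff_forall.2 ?_)
  rintro _ ⟨y, hy, rfl⟩
  exact ⟨_, hn.conj_mem y hy ⟨g, hg⟩, rfl⟩

/-- two elements of a 2-group congruent modulo a subgroup of odd order are equal -/
theorem eq_of_odd {O T : Subgroup G} (hO : Odd (Nat.card O)) (hT : IsPGroup 2 T) {a b : G} (ha : a ∈ T) (hb : b ∈ T)
    (h : a * b⁻¹ ∈ O) : a = b :=
  mul_inv_eq_one.1 ((T2.of_mem hT (mul_mem ha (inv_mem hb))).eq_one (odd_of_mem hO h))

/-- a 2-subgroup extended by a normalising 2-element -/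
theorem pg_sup {U : Subgroup G} (hU : IsPGroup 2 U) {n : G} (hn : T2 n) (h : n ∈ normalizer (U : Set G)) :
    IsPGroup 2 (U ⊔ zpowers n : Subgroup G) := by
  rw [sup_comm]; exact hn.pg.to_sup_of_normal_right' hU (zpowers_le.2 h)

/-- a 2-element normalising `D` and centralising the real element `g` with `D ≤ C1 g` lies in `D` -/
theorem Up.mem_of_max {Z : Subgroup G} {c : ℕ} (h : Up Z c) {g n : G} (hg : Re g) (hZ : g ∉ Z) {D : Subgroup G}
    (hD : D ≤ C1 g) (hc : Nat.card D = 2 ^ c) (hn : T2 n) (hN : n ∈ normalizer (D : Set G)) (hC : n ∈ C1 g) :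
    n ∈ D := by
  have h1 := h.up g hg hZ _ (pg_sup (pg_of_card hc) hn hN) (sup_le hD (zpowers_le.2 hC))
  by_contra hnD
  have hlt : D < D ⊔ zpowers n := lt_of_le_of_ne le_sup_left fun e => hnD (e ▸ mem_sup_right (mem_zpowers n))
  exact absurd (card_lt_of_lt hlt) (by omega)

/-- a proper subgroup of a 2-group has at most half its order -/
theorem two_mul_le {U P : Subgroup G} (hP : IsPGroup 2 P) (h : U < P) : 2 * Nat.card U ≤ Nat.card P := by
  haveI : Fact (Nat.Prime 2) := ⟨Nat.prime_two⟩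
  obtain ⟨k, hk⟩ := dvd_relIndex_of_not_le hP (not_le_of_gt h)
  have h1 := card_mul_relIndex h.le
  have h2 := relIndex_ne_zero' U P
  rw [hk] at h1 h2
  have : 1 ≤ k := Nat.pos_of_ne_zero fun e => h2 (by rw [e])
  nlinarith

end CF.Rc
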